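import Cfsg.Agent.H435.Fpr.OddPrim

/-!
# The row of the alternating groups for odd `p`
-/

set_option autoImplicit false
open Subgroup MulAction
open scoped Pointwise

namespace Cfsg.Agent.H435.Fpr

variable {n p : ℕ} {H : Subgroup (alternatingGroup (Fin n))}

theorem row_trans_odd [Fact p.Prime] (hn : 5 ≤ n) (hp2 : p ≠ 2)
    (hcase : p + 3 ≤ n ∨ n = p ∨ n = p + 1) (hH : H ≠ ⊤) [IsPretransitive H (Fin n)] :
    ∃ x : alternatingGroup (Fin n), (∃ k : ℕ, orderOf x = p ^ k) ∧
      (p + 1) * Nat.card (fixedBy (alternatingGroup (Fin n) ⧸ H) x) ≤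
        1 * Nat.card (alternatingGroup (Fin n) ⧸ H) := by
  classical
  have hp : p.Prime := Fact.out
  have hodd : Odd p := hp.odd_of_ne_two hp2
  have key : (p + 1) * Nat.card {g : alternatingGroup (Fin n) // g ∈ PC n p ∧ g ∈ H} ≤
      1 * Nat.card (PC n p) := by
    by_cases hprim : IsPreprimitive H (Fin n)
    · rcases hcase with h | h
      · rw [prim_jordan hn hH hprim hp h]
        simp
      · by_cases h11 : 11 ≤ p
        · exact prim_big hH hprim hp h11 h
        · apply prim_small hH hprim
          have h5 : p = 5 ∨ p = 7 := by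
            have : p < 11 := by omega
            interval_cases p <;> first | omega | exact absurd hp (by decide)
          omega
    · obtain ⟨B, hB, hBt⟩ : ∃ B : Set (Fin n), IsBlock H B ∧ ¬ IsTrivialBlock B := by
        by_contra hcon
        push Not at hcon
        exact hprim ⟨fun {B} hB => hcon B hB⟩
      have h1 : 1 < B.ncard := by
        rw [Set.one_lt_ncard_iff_nontrivial]
        rw [← Set.not_subsingleton_iff]
        exact fun h => hBt (Or.inl h)
      exact card_PC_imprim hB h1 (fun h => hBt (Or.inr h)) hp hp2 (by omega)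
  have hne : (PC n p).Nonempty := by
    have h1 := card_PC (n := n) hodd hp.two_le (by omega)
    have h2 : 0 < Nat.card (PC n p) := by
      rw [h1]
      exact Nat.mul_pos (Nat.factorial_pos _) (Nat.choose_pos (by omega))
    rw [Nat.card_pos_iff] at h2
    exact Set.nonempty_coe_sort.1 h2.1
  obtain ⟨x, hx, hle⟩ := avg_class (C := PC n p) (H := H) (fun g hg c => PC.conj hg c) hne key
  exact ⟨x, ⟨1, by rw [pow_one]; exact PC.orderOf_eq hx⟩, hle⟩

/-- Every proper subgroup `H` of `A_n` admits a `p`-element (`p` odd) fixing at most one `p+1`-th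
of the cosets of `H`, provided `n = p`, `n = p + 1` or `n ≥ p + 3` with `n % p ≤ n / p`
(this covers `n ≥ p² - p`). -/
theorem fprRow_alternating_odd' [Fact p.Prime] (hn : 5 ≤ n) (hp2 : p ≠ 2)
    (hcase : p + 3 ≤ n ∨ n = p ∨ n = p + 1) (hnp : n % p ≤ n / p) :
    Cfsg.Agent.H409.FprRow (p + 1) 1 p (alternatingGroup (Fin n)) := by
  classical
  intro H hH
  have hp : p.Prime := Fact.out
  by_cases ht : IsPretransitive H (Fin n)
  · exact row_trans_odd hn hp2 hcase hH
  · have hn0 : 0 < n := by omega
    let q : Fin n := ⟨0, hn0⟩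
    obtain ⟨A, hA⟩ : ∃ A : Finset (Fin n), (A : Set (Fin n)) = orbit H q :=
      ⟨(Set.toFinite (orbit H q)).toFinset, by simp⟩
    have hA1 : 1 ≤ A.card := by
      rw [Nat.one_le_iff_ne_zero, ← Nat.pos_iff_ne_zero, Finset.card_pos]
      refine ⟨q, ?_⟩
      rw [← Finset.mem_coe, hA]
      exact mem_orbit_self _
    have hAn : A.card < n := by
      by_contra hcon
      have h1 : A = Finset.univ := by
        rw [← Finset.card_eq_iff_eq_univ, Fintype.card_fin]
        have := Finset.card_le_univ A
        rw [Fintype.card_fin] at this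
        omega
      apply ht
      rw [MulAction.isPretransitive_iff_base q]
      intro j
      have h2 : j ∈ (A : Set (Fin n)) := by rw [h1]; simp
      rw [hA] at h2
      obtain ⟨h, hh⟩ := h2
      exact ⟨h, hh⟩
    obtain ⟨x, hx, hle⟩ := row_sets_odd hp hp2 hnp hA1 hAn
    refine ⟨x, hx, ?_⟩
    let A0 : Set.powersetCard (Fin n) A.card := ⟨A, rfl⟩
    have hstab : ∀ h : alternatingGroup (Fin n), h ∈ H → h • A0 = A0 := by
      intro h hh
      apply Subtype.ext
      change h • A = A
      apply Finset.coe_injective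
      rw [Finset.coe_smul_finset, hA]
      exact smul_orbit (⟨h, hh⟩ : H) q
    let φ : (alternatingGroup (Fin n) ⧸ H) → Set.powersetCard (Fin n) A.card :=
      Quotient.lift (fun g => g • A0) (by
        intro g g' hg
        have h1 : g⁻¹ * g' ∈ H := QuotientGroup.leftRel_apply.1 hg
        have h2 := hstab _ h1
        rw [mul_smul, inv_smul_eq_iff] at h2
        exact h2.symm)
    have : IsPretransitive (alternatingGroup (Fin n)) (Set.powersetCard (Fin n) A.card) :=
      Set.powersetCard.isPretransitive_alternatingGroup (by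
        rw [Nat.card_eq_fintype_card, Fintype.card_fin]; omega)
    refine Cfsg.Agent.H409.fix_le_of_map (MonoidHom.id _) Function.surjective_id φ ?_ x hle
    intro g ω
    obtain ⟨w, rfl⟩ := QuotientGroup.mk_surjective ω
    change (g * w) • A0 = g • w • A0
    rw [mul_smul]

/-- The row of the alternating groups for odd `p`, in the form needed for S3578:
`n = p`, `n = p + 1` or `n ≥ p² - p`. -/
theorem fprRow_alternating_odd [Fact p.Prime] (hn : 5 ≤ n) (hp2 : p ≠ 2) (hpn : p ≤ n)
    (hcase : ¬ (p + 1 < n ∧ n < p ^ 2 - p)) :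
    Cfsg.Agent.H409.FprRow (p + 1) 1 p (alternatingGroup (Fin n)) := by
  have hp : p.Prime := Fact.out
  have h3 : 3 ≤ p := by
    have := hp.two_le
    omega
  have hsq : p ^ 2 - p = p * (p - 1) := by
    rw [pow_two, Nat.mul_sub_one]
  rcases Nat.lt_or_ge (p + 1) n with h | h
  · have h1 : p * (p - 1) ≤ n := by
      by_contra hcon
      exact hcase ⟨h, by omega⟩
    apply fprRow_alternating_odd' hn hp2
    · left
      have h2 : n ≠ p + 2 := by
        rintro rfl
        have : p = 3 := by
          by_contra hne
          have h4 : 4 ≤ p := by omega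
          obtain ⟨q, rfl⟩ : ∃ q, p = q + 4 := ⟨p - 4, by omega⟩
          have e : q + 4 - 1 = q + 3 := by omega
          rw [e] at h1
          nlinarith
        subst this
        omega
      omega
    · have h2 : p - 1 ≤ n / p := by
        rw [Nat.le_div_iff_mul_le hp.pos]
        rwa [mul_comm]
      have h3 := Nat.mod_lt n hp.pos
      omega
  · have h1 : n = p ∨ n = p + 1 := by omega
    apply fprRow_alternating_odd' hn hp2 (Or.inr h1)
    rcases h1 with rfl | rfl
    · simp
    · rw [Nat.add_mod_left, Nat.mod_eq_of_lt (by omega), Nat.add_div_left _ hp.pos]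
      exact Nat.succ_le_succ (Nat.zero_le _)

end Cfsg.Agent.H435.Fpr
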