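import Cfsg.Agent.H435.Fpr.AltReal

/-!
# Transitive proper subgroups of the alternating group: a real element without fixed points
-/

set_option autoImplicit false
open Subgroup MulAction
open scoped Pointwise

namespace Cfsg.Agent.H435.Fpr

variable {n : ℕ} {H : Subgroup (alternatingGroup (Fin n))}

theorem row_of_cyc {ℓ d : ℕ} (hn : n = ℓ + d) (hℓ : Odd ℓ) (hd : 2 ≤ d ∨ ℓ = 5)
    (hno : ∀ g ∈ H, ∀ F : Finset (Fin n), F.card = d → ¬ Cyc (g : Equiv.Perm (Fin n)) F) :
    ∃ x : alternatingGroup (Fin n), (∃ k : ℕ, orderOf x = 2 ^ k) ∧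
      3 * Nat.card (fixedBy (alternatingGroup (Fin n) ⧸ H) x) ≤
        1 * Nat.card (alternatingGroup (Fin n) ⧸ H) := by
  obtain ⟨g, x, hx, hx2, ho, F, hF, hc⟩ := real_elt hn hℓ hd
  refine ⟨x, ?_, real_row hx ho ?_⟩
  · have h1 : orderOf x ∣ 2 ^ 1 := orderOf_dvd_of_pow_eq_one (by rw [pow_one, pow_two, hx2])
    obtain ⟨k, -, hk⟩ := (Nat.dvd_prime_pow Nat.prime_two).1 h1
    exact ⟨k, hk⟩
  · intro c hcH
    refine hno _ hcH (F.map (c : Equiv.Perm (Fin n))⁻¹.toEmbedding) ?_ ?_
    · rw [Finset.card_map, hF]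
    · exact hc.conj (c : Equiv.Perm (Fin n))

theorem eq_top_of_prim (hn : 5 ≤ n) (hp : IsPreprimitive H (Fin n))
    {g : alternatingGroup (Fin n)} (hg : g ∈ H) {F : Finset (Fin n)} (hF : F.card = n - 3)
    (hc : Cyc (g : Equiv.Perm (Fin n)) F) : H = ⊤ := by
  classical
  have h3 : (g : Equiv.Perm (Fin n)).IsThreeCycle := by
    rw [← card_support_eq_three_iff, hc.support (by omega), Finset.card_compl,
      Fintype.card_fin, hF]
    omega
  let K := H.map (alternatingGroup (Fin n)).subtype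
  let φ : H → K := fun h => ⟨(h : alternatingGroup (Fin n)), ⟨h.1, h.2, rfl⟩⟩
  let f : Fin n →ₑ[φ] Fin n := ⟨id, fun h i => rfl⟩
  have hK : IsPreprimitive K (Fin n) := IsPreprimitive.of_surjective (f := f) Function.surjective_id
  have h1 := Equiv.Perm.alternatingGroup_le_of_isPreprimitive_of_isThreeCycle_mem hK h3
    (⟨g, hg, rfl⟩ : (g : Equiv.Perm (Fin n)) ∈ K)
  rw [eq_top_iff]
  rintro y -
  obtain ⟨z, hz, hzy⟩ := h1 y.2
  have : z = y := Subtype.ext hzy
  rwa [← this]

/-- The block containing a fixed point of the cycle consists of fixed points. -/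
theorem block_in_fixed [IsPretransitive H (Fin n)] {B : Set (Fin n)} (hB : IsBlock H B)
    (hBn : B.Nonempty) (hB2 : 2 * B.ncard ≤ n) {g : alternatingGroup (Fin n)} (hg : g ∈ H)
    {F : Finset (Fin n)} (hc : Cyc (g : Equiv.Perm (Fin n)) F) (hF : 2 * F.card < n)
    {z : Fin n} (hz : z ∈ F) : ∃ h : H, z ∈ h • B ∧ h • B ⊆ F := by
  classical
  obtain ⟨b, hb⟩ := hBn
  obtain ⟨h, hh⟩ := exists_smul_eq H b z
  have hzB : z ∈ h • B := ⟨b, hb, hh⟩
  refine ⟨h, hzB, ?_⟩
  have hB' : IsBlock H (h • B) := hB.translate h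
  have hgB : (⟨g, hg⟩ : H) • (h • B) = h • B := by
    refine isBlock_iff_smul_eq_of_mem.1 hB' hzB ?_
    change (g : Equiv.Perm (Fin n)) z ∈ h • B
    rw [hc.1 z hz]
    exact hzB
  have hpow : ∀ (k : ℕ) (w : Fin n), w ∈ h • B → ((g : Equiv.Perm (Fin n)) ^ k) w ∈ h • B := by
    intro k
    induction k with
    | zero => intro w hw; simpa using hw
    | succ k ih =>
      intro w hw
      rw [pow_succ, Equiv.Perm.mul_apply]
      apply ih
      rw [← hgB]
      exact ⟨w, hw, rfl⟩
  intro w hw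
  by_contra hwF
  have hwF' : w ∉ F := hwF
  have hsub : ((insert z Fᶜ : Finset (Fin n)) : Set (Fin n)) ⊆ h • B := by
    intro j hj
    rw [Finset.mem_coe, Finset.mem_insert, Finset.mem_compl] at hj
    rcases hj with rfl | hj
    · exact hzB
    · obtain ⟨k, hk⟩ := hc.2 w hwF' j hj
      rw [← hk]
      exact hpow k w hw
  have h1 := Set.ncard_le_ncard hsub (Set.toFinite _)
  rw [Set.ncard_coe_finset, Finset.card_insert_of_notMem (by simpa using hz), Finset.card_compl,
    Fintype.card_fin, Set.ncard_smul_set] at h1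
  omega

/-- Two blocks inside the fixed point set. -/
theorem two_blocks [IsPretransitive H (Fin n)] {B : Set (Fin n)} (hB : IsBlock H B)
    (hBn : B.Nonempty) (hB2 : 2 * B.ncard ≤ n) {g : alternatingGroup (Fin n)} (hg : g ∈ H)
    {F : Finset (Fin n)} (hc : Cyc (g : Equiv.Perm (Fin n)) F) (hF : 2 * F.card < n)
    (hF0 : F.Nonempty) : B.ncard ≤ F.card ∧ (B.ncard < F.card → 2 * B.ncard ≤ F.card) := by
  classical
  obtain ⟨z, hz⟩ := hF0
  obtain ⟨h, hzB, hBF⟩ := block_in_fixed hB hBn hB2 hg hc hF hz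
  have h1 : B.ncard ≤ F.card := by
    have := Set.ncard_le_ncard hBF (Set.toFinite _)
    rwa [Set.ncard_coe_finset, Set.ncard_smul_set] at this
  refine ⟨h1, fun hlt => ?_⟩
  obtain ⟨w, hw, hwB⟩ : ∃ w ∈ (F : Set (Fin n)), w ∉ h • B := by
    by_contra hcon
    push Not at hcon
    have := Set.ncard_le_ncard (show (F : Set (Fin n)) ⊆ h • B from hcon) (Set.toFinite _)
    rw [Set.ncard_coe_finset, Set.ncard_smul_set] at this
    omega
  obtain ⟨h', hwB', hBF'⟩ := block_in_fixed hB hBn hB2 hg hc hF (z := w) hw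
  have hdisj : Disjoint (h • B) (h' • B) := by
    refine hB ?_
    intro heq
    rw [heq] at hwB
    exact hwB hwB'
  have h2 := Set.ncard_le_ncard (Set.union_subset hBF hBF') (Set.toFinite _)
  rw [Set.ncard_union_eq hdisj (Set.toFinite _) (Set.toFinite _), Set.ncard_coe_finset,
    Set.ncard_smul_set, Set.ncard_smul_set] at h2
  omega

theorem row_trans (hn : 5 ≤ n) (hH : H ≠ ⊤) [IsPretransitive H (Fin n)] :
    ∃ x : alternatingGroup (Fin n), (∃ k : ℕ, orderOf x = 2 ^ k) ∧
      3 * Nat.card (fixedBy (alternatingGroup (Fin n) ⧸ H) x) ≤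
        1 * Nat.card (alternatingGroup (Fin n) ⧸ H) := by
  classical
  by_cases hp : IsPreprimitive H (Fin n)
  · refine row_of_cyc (ℓ := 3) (d := n - 3) (by omega) (by decide) (Or.inl (by omega)) ?_
    intro g hg F hF hc
    exact hH (eq_top_of_prim hn hp hg hF hc)
  · obtain ⟨B, hB, hBt⟩ : ∃ B : Set (Fin n), IsBlock H B ∧ ¬ IsTrivialBlock B := by
      by_contra hcon
      push Not at hcon
      exact hp ⟨fun {B} hB => hcon B hB⟩
    have hBn : B.Nonempty := by
      rw [Set.nonempty_iff_ne_empty]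
      rintro rfl
      exact hBt (Or.inl Set.subsingleton_empty)
    have hdvd : B.ncard ∣ n := by
      have := hB.ncard_dvd_card hBn
      rwa [Nat.card_eq_fintype_card, Fintype.card_fin] at this
    have h1 : 1 < B.ncard := by
      rw [Set.one_lt_ncard_iff_nontrivial]
      rw [← Set.not_subsingleton_iff]
      exact fun h => hBt (Or.inl h)
    have h2 : 2 * B.ncard ≤ n := by
      obtain ⟨k, hk⟩ := hdvd
      have hk1 : k ≠ 1 := by
        rintro rfl
        apply hBt
        right
        rw [Set.eq_univ_iff_ncard, Nat.card_eq_fintype_card, Fintype.card_fin]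
        omega
      have hk0 : k ≠ 0 := by rintro rfl; omega
      have hk2 : 2 ≤ k := by omega
      nlinarith
    have key : ∀ d, d ≠ 0 → Odd (n - d) → (2 ≤ d ∨ n - d = 5) → 2 * d < n →
        ¬ (B.ncard ≤ d ∧ (B.ncard < d → 2 * B.ncard ≤ d)) →
        ∃ x : alternatingGroup (Fin n), (∃ k : ℕ, orderOf x = 2 ^ k) ∧
          3 * Nat.card (fixedBy (alternatingGroup (Fin n) ⧸ H) x) ≤
            1 * Nat.card (alternatingGroup (Fin n) ⧸ H) := by
      intro d hd0 hodd hd hdn hnot
      refine row_of_cyc (ℓ := n - d) (d := d) (by omega) hodd hd ?_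
      intro g hg F hF hc
      have := two_blocks hB hBn h2 hg hc (by omega) (by
        rw [← Finset.card_pos]; omega)
      rw [hF] at this
      exact hnot this
    rcases Nat.even_or_odd n with he | ho
    · obtain ⟨m, hm⟩ := he
      by_cases h6 : n = 6
      · refine key 1 (by omega) ⟨2, by omega⟩ (Or.inr (by omega)) (by omega) (by omega)
      · by_cases h3 : B.ncard = 3
        · have h12 : 12 ≤ n := by
            obtain ⟨k, hk⟩ := hdvd
            rw [h3] at hk
            omega
          refine key 5 (by omega) ⟨m - 3, by omega⟩ (Or.inl (by omega)) (by omega) (by omega)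
        · refine key 3 (by omega) ⟨m - 2, by omega⟩ (Or.inl (by omega)) (by omega) (by omega)
    · obtain ⟨m, hm⟩ := ho
      have h3 : B.ncard ≠ 2 := by
        intro h3
        rw [h3] at hdvd
        omega
      exact key 2 (by omega) ⟨m - 1, by omega⟩ (Or.inl (by omega)) (by omega) (by omega)

end Cfsg.Agent.H435.Fpr
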