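import Cfsg.Agent.H409.FprBasic

/-!
# Averaging the number of fixed points over a normal subset
-/

set_option autoImplicit false
open Subgroup MulAction
open scoped Pointwise

namespace Cfsg.Agent.H435.Fpr

/-- Averaging over a normal subset `C`: some element of `C` has fixed point ratio at most
`|C ∩ H| / |C|`. -/
theorem avg_class {G : Type*} [Group G] [Finite G] {H : Subgroup G} {C : Set G}
    (hC : ∀ g ∈ C, ∀ c : G, c⁻¹ * g * c ∈ C) (hne : C.Nonempty) {a b : ℕ}
    (h : a * Nat.card {g : G // g ∈ C ∧ g ∈ H} ≤ b * Nat.card C) :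
    ∃ x ∈ C, a * Nat.card (fixedBy (G ⧸ H) x) ≤ b * Nat.card (G ⧸ H) := by
  classical
  by_contra hcon
  push Not at hcon
  have : Fintype G := Fintype.ofFinite G
  have : Fintype (G ⧸ H) := Fintype.ofFinite _
  have hC' : ∀ (g c : G), c⁻¹ * g * c ∈ C ↔ g ∈ C := by
    intro g c
    refine ⟨fun h => ?_, fun h => hC g h c⟩
    have := hC _ h c⁻¹
    simpa [mul_assoc] using this
  -- double counting
  have hfib : ∀ ω : G ⧸ H, Nat.card {x : C // (x : G) • ω = ω} =
      Nat.card {g : G // g ∈ C ∧ g ∈ H} := by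
    intro ω
    obtain ⟨c, rfl⟩ := QuotientGroup.mk_surjective ω
    have key : ∀ x : G, x • (c : G ⧸ H) = (c : G ⧸ H) ↔ c⁻¹ * x * c ∈ H := by
      intro x
      change ((x * c : G) : G ⧸ H) = (c : G) ↔ _
      rw [eq_comm, QuotientGroup.eq, mul_assoc]
    refine Nat.card_congr ⟨fun x => ⟨c⁻¹ * x.1 * c, hC _ x.1.2 c, (key _).1 x.2⟩,
      fun g => ⟨⟨c * g.1 * c⁻¹, ?_⟩, ?_⟩, ?_, ?_⟩
    · rw [← hC' _ c]
      simpa [mul_assoc] using g.2.1
    · rw [key]
      simpa [mul_assoc] using g.2.2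
    · intro x
      apply Subtype.ext
      apply Subtype.ext
      simp [mul_assoc]
    · intro g
      apply Subtype.ext
      simp [mul_assoc]
  have hsum : ∑ x : C, Nat.card (fixedBy (G ⧸ H) (x : G)) =
      Nat.card (G ⧸ H) * Nat.card {g : G // g ∈ C ∧ g ∈ H} := by
    have e : (Σ x : C, fixedBy (G ⧸ H) (x : G)) ≃ Σ ω : G ⧸ H, {x : C // (x : G) • ω = ω} :=
      { toFun := fun z => ⟨z.2.1, z.1, z.2.2⟩
        invFun := fun z => ⟨z.2.1, z.1, z.2.2⟩
        left_inv := fun z => rfl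
        right_inv := fun z => rfl }
    have h1 := Nat.card_congr e
    rw [Nat.card_sigma, Nat.card_sigma] at h1
    rw [h1]
    simp only [hfib]
    rw [Finset.sum_const, Finset.card_univ, smul_eq_mul, ← Nat.card_eq_fintype_card (α := G ⧸ H)]
  have hlt : ∑ _x : C, b * Nat.card (G ⧸ H) < ∑ x : C, a * Nat.card (fixedBy (G ⧸ H) (x : G)) := by
    obtain ⟨x0, hx0⟩ := hne
    exact Finset.sum_lt_sum_of_nonempty ⟨⟨x0, hx0⟩, Finset.mem_univ _⟩ fun x _ => hcon x x.2
  rw [← Finset.mul_sum (f := fun x : C => Nat.card (fixedBy (G ⧸ H) (x : G))), hsum,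
    Finset.sum_const, Finset.card_univ, smul_eq_mul, ← Nat.card_eq_fintype_card (α := C)] at hlt
  have h2 := Nat.mul_le_mul_left (Nat.card (G ⧸ H)) h
  have e1 : Nat.card C * (b * Nat.card (G ⧸ H)) = Nat.card (G ⧸ H) * (b * Nat.card C) := by ring
  have e2 : a * (Nat.card (G ⧸ H) * Nat.card {g : G // g ∈ C ∧ g ∈ H}) =
      Nat.card (G ⧸ H) * (a * Nat.card {g : G // g ∈ C ∧ g ∈ H}) := by ring
  omega

end Cfsg.Agent.H435.Fpr
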