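import Cfsg.Agent.H452.FprHeis

/-!
# Two Heisenberg radicals, `x` centralises the centres: the ratio `1 / (p + 1)`

After `Cfsg.Agent.H452.FprHeis` (which is `p = 3`).
-/

set_option autoImplicit false
open Subgroup MulAction
open scoped Pointwise

namespace Cfsg.Agent.H435.Fpr.HM

open Cfsg.Agent.H398.FPR Cfsg.Agent.H452.FprHeis

section

variable {G X : Type*} [Group G] [MulAction G X] {x : G} {Q Z : Subgroup G}

/-- The weight is at least `p + 1` unless `Q` fixes the point. -/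
theorem succ_le_wt [Finite G] [Finite X] (h : Heis x Q Z) {p k : ℕ} (hp : p.Prime)
    (hx : x ^ p ^ k = 1)
    (hcomm : ∀ z ∈ Z, ∃ a ∈ Q, ∃ b ∈ Q, z = a * b * a⁻¹ * b⁻¹) {ω : X} (hω : x • ω = ω)
    (hQ : ¬ Q ≤ stabilizer G ω) : ((p + 1 : ℕ) : ℚ) ≤ wt Q Z ω := by
  obtain ⟨S, hS⟩ : ∃ S : Subgroup G, S = Q ⊓ stabilizer G ω := ⟨_, rfl⟩
  have hSQ : S ≤ Q := by rw [hS]; exact inf_le_left
  have hxS : x ∈ normalizer (S : Set G) := by rw [hS]; exact norm_inf h hω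
  have hxB := norm_SZ (h := h) (hS := hSQ) hxS
  have h1 : ∃ r ∈ Q, r ∉ SZ h S hSQ := by
    by_contra hcon
    push Not at hcon
    apply hQ
    have := le_of_SZ_eq (h := h) (hS := hSQ) hcomm hcon
    rw [hS] at this
    exact this.trans inf_le_right
  obtain ⟨r, hrQ, hrB⟩ := h1
  have hQB : Q ≤ normalizer ((SZ h S hSQ : Subgroup G) : Set G) := by
    have aux : ∀ g ∈ Q, ∀ b ∈ SZ h S hSQ, g * b * g⁻¹ ∈ SZ h S hSQ := by
      intro g hg b hb
      have h2 := mul_mem (Z_le_SZ (h := h) (hS := hSQ) (h.der g hg b (SZ_le hb))) hb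
      have h3 : g * b * g⁻¹ * b⁻¹ * b = g * b * g⁻¹ := by group
      rwa [h3] at h2
    intro g hg
    rw [mem_normalizer_iff]
    intro b
    constructor
    · exact aux g hg b
    · intro hb
      have h2 := aux g⁻¹ (inv_mem hg) _ hb
      have h3 : g⁻¹ * (g * b * g⁻¹) * g⁻¹⁻¹ = b := by group
      rwa [h3] at h2
  have hcard := card_coset_ge (j := 0) hp hx SZ_le h.norm hxB hQB hrQ (by
    intro h2
    rw [pow_zero, pow_one] at h2
    exact hrB (h.free_mod Z_le_SZ SZ_le hxB hrQ h2.2))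
  have h2 := card_orbit_mul (T := Q) hS hSQ le_rfl
  have h3 := card_orbit_mul (T := SZ h S hSQ) hS le_SZ SZ_le
  rw [orbit_SZ (by rw [hS]; exact inf_le_right)] at h3
  rw [← h2, ← h3] at hcard
  have h4 : (p + 1) * (orbit Z ω).ncard ≤ (orbit Q ω).ncard := by
    have h5 : 0 < Nat.card S := Nat.card_pos
    apply Nat.le_of_mul_le_mul_right _ h5
    calc (p + 1) * (orbit Z ω).ncard * Nat.card S =
          (p ^ (0 + 1) + 1) * ((orbit Z ω).ncard * Nat.card S) := by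
          rw [zero_add, pow_one]; ring
      _ ≤ _ := hcard
  rw [wt, le_div_iff₀ (by exact_mod_cast orbit_ncard_pos Z ω)]
  exact_mod_cast h4

/-- A subgroup of index less than `2 ^ (n + 1)` and `n` elements generate. -/
theorem exists_gens [Finite G] (n : ℕ) {B Q : Subgroup G} (hB : B ≤ Q)
    (hlt : Nat.card Q < 2 ^ (n + 1) * Nat.card B) :
    ∃ g : Fin n → G, (∀ i, g i ∈ Q) ∧ Q ≤ B ⊔ closure (Set.range g) := by
  induction n generalizing B with
  | zero =>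
    refine ⟨Fin.elim0, fun i => i.elim0, ?_⟩
    by_contra h
    have h1 : B < Q := lt_of_le_of_ne hB fun h2 => h (by rw [h2]; exact le_sup_left)
    have := two_mul_card_le h1
    omega
  | succ n ih =>
    by_cases h1 : Q ≤ B
    · exact ⟨fun _ => 1, fun _ => one_mem _, h1.trans le_sup_left⟩
    obtain ⟨g1, hg1, hg1B⟩ := SetLike.not_le_iff_exists.1 h1
    have hB1 : B < B ⊔ zpowers g1 := by
      refine lt_of_le_of_ne le_sup_left ?_
      intro h
      apply hg1B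
      rw [h]
      exact (le_sup_right : zpowers g1 ≤ _) (mem_zpowers g1)
    have hB1Q : B ⊔ zpowers g1 ≤ Q := sup_le hB (by rwa [zpowers_le])
    have a1 := two_mul_card_le hB1
    obtain ⟨g, hg, hgen⟩ := ih hB1Q (by
      refine hlt.trans_le ?_
      rw [pow_succ, mul_assoc]
      exact Nat.mul_le_mul_left _ a1)
    refine ⟨Fin.cons g1 g, fun i => ?_, hgen.trans ?_⟩
    · refine Fin.cases ?_ (fun j => ?_) i
      · exact hg1
      · exact hg j
    · refine sup_le (sup_le le_sup_left ?_) ?_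
      · rw [zpowers_le]
        exact (le_sup_right : Subgroup.closure _ ≤ _) (Subgroup.subset_closure ⟨0, rfl⟩)
      · refine (Subgroup.closure_mono ?_).trans le_sup_right
        rintro _ ⟨i, rfl⟩
        exact ⟨i.succ, rfl⟩

theorem comm_S {h : Heis x Q Z} {S : Subgroup G} {hS : S ≤ Q} (hSZ : ∀ z ∈ Z, z ∈ S → z = 1) :
    ∀ a ∈ SZ h S hS, ∀ b ∈ SZ h S hS, a * b = b * a := by
  have hcommS : ∀ a ∈ S, ∀ b ∈ S, a * b = b * a := by
    intro a ha b hb
    have h2 := hSZ _ (h.der a (hS ha) b (hS hb))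
      (mul_mem (mul_mem (mul_mem ha hb) (inv_mem ha)) (inv_mem hb))
    rw [mul_inv_eq_one, mul_inv_eq_iff_eq_mul] at h2
    exact h2
  rintro _ ⟨s, hs, z1, hz1, rfl⟩ _ ⟨t, ht, z2, hz2, rfl⟩
  have e1 := h.cent z1 hz1 t (hS ht)
  have e2 := h.cent z2 hz2 s (hS hs)
  have e3 := h.cent z1 hz1 z2 (h.le hz2)
  calc s * z1 * (t * z2) = s * (z1 * t) * z2 := by group
    _ = (s * t) * (z1 * z2) := by rw [e1]; group
    _ = (t * s) * (z2 * z1) := by rw [hcommS s hs t ht, e3]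
    _ = t * (s * z2) * z1 := by group
    _ = t * z2 * (s * z1) := by rw [← e2]; group

/-- The index of `S Z` in `Q` is big if `S ∩ Z = 1`. -/
theorem big_le [Finite G] (h : Heis x Q Z) {Z0 : Subgroup G} {n : ℕ}
    (hcen : ∀ g ∈ Q, (∀ a ∈ Q, g * a = a * g) → g ∈ Z0)
    (hbig : 2 ^ (n + 1) * (Nat.card Z ^ n * Nat.card Z0) ≤ Nat.card Q) {S : Subgroup G} {hS : S ≤ Q}
    (hSZ : ∀ z ∈ Z, z ∈ S → z = 1) : 2 ^ (n + 1) * Nat.card (SZ h S hS) ≤ Nat.card Q := by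
  classical
  by_contra hcon
  push Not at hcon
  obtain ⟨g, hg, hgen⟩ := exists_gens n SZ_le hcon
  obtain ⟨B, hBdef⟩ : ∃ B, B = SZ h S hS := ⟨_, rfl⟩
  rw [← hBdef] at hcon hgen
  have hBQ : B ≤ Q := by rw [hBdef]; exact SZ_le
  have hcommB : ∀ a ∈ B, ∀ b ∈ B, a * b = b * a := by
    rw [hBdef]
    exact comm_S hSZ
  -- central elements
  have hC : ∀ b ∈ B, (∀ i, b * g i = g i * b) → b ∈ Z0 := by
    intro b hb hbi
    apply hcen b (hBQ hb)
    intro a ha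
    have h1 : B ⊔ closure (Set.range g) ≤ Subgroup.centralizer {b} := by
      refine sup_le ?_ ?_
      · intro c hc
        rw [mem_centralizer_singleton_iff]
        exact hcommB c hc b hb
      · rw [closure_le]
        rintro _ ⟨i, rfl⟩
        rw [SetLike.mem_coe, mem_centralizer_singleton_iff]
        exact (hbi i).symm
    have h2 := h1 (hgen ha)
    rw [mem_centralizer_singleton_iff] at h2
    exact h2.symm
  -- counting
  let f : B → (Fin n → Z) := fun b i => ⟨b * g i * (b : G)⁻¹ * (g i)⁻¹, h.der b (hBQ b.2) (g i) (hg i)⟩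
  have := Fintype.ofFinite B
  have := Fintype.ofFinite Z
  have := Fintype.ofFinite Z0
  have hfib : ∀ v ∈ (Finset.univ : Finset B).image f,
      (Finset.univ.filter fun b : B => f b = v).card ≤ Nat.card Z0 := by
    intro v hv
    obtain ⟨b0, -, rfl⟩ := Finset.mem_image.1 hv
    rw [Nat.card_eq_fintype_card, ← Finset.card_univ]
    apply Finset.card_le_card_of_injOn (fun b : B => if hb : (b0 : G)⁻¹ * b ∈ Z0 then
      (⟨(b0 : G)⁻¹ * b, hb⟩ : Z0) else 1) (fun _ _ => Finset.mem_univ _)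
    have key : ∀ b : B, f b = f b0 → (b0 : G)⁻¹ * b ∈ Z0 := by
      intro b hb
      have e1 : ∀ i, (b : G) * g i * (b : G)⁻¹ * (g i)⁻¹ = b0 * g i * (b0 : G)⁻¹ * (g i)⁻¹ := fun i =>
        congrArg (fun v : Fin n → Z => (v i : G)) hb
      refine hC _ (mul_mem (inv_mem b0.2) b.2) fun i => ?_
      have h1 : (b : G) * g i * (b : G)⁻¹ = b0 * g i * (b0 : G)⁻¹ := mul_right_cancel (e1 i)
      calc (b0 : G)⁻¹ * b * g i = (b0 : G)⁻¹ * (b * g i * (b : G)⁻¹) * b := by group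
        _ = (b0 : G)⁻¹ * (b0 * g i * (b0 : G)⁻¹) * b := by rw [h1]
        _ = _ := by group
    intro b hb c hc hbc
    have hb' := key b (Finset.mem_filter.1 hb).2
    have hc' := key c (Finset.mem_filter.1 hc).2
    simp only [hb', hc', dif_pos] at hbc
    have h1 : (b0 : G)⁻¹ * b = (b0 : G)⁻¹ * c := congrArg Subtype.val hbc
    exact Subtype.ext (mul_left_cancel h1)
  have h1 := Finset.card_le_mul_card_image (Finset.univ : Finset B) _ hfib
  have h2 : ((Finset.univ : Finset B).image f).card ≤ Nat.card Z ^ n := by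
    calc ((Finset.univ : Finset B).image f).card ≤ (Finset.univ : Finset (Fin n → Z)).card :=
          Finset.card_le_card (Finset.subset_univ _)
      _ = Nat.card Z ^ n := by
        rw [Finset.card_univ, Fintype.card_fun, Fintype.card_fin, Nat.card_eq_fintype_card]
  rw [Finset.card_univ, ← Nat.card_eq_fintype_card] at h1
  have h3 : Nat.card B ≤ Nat.card Z ^ n * Nat.card Z0 := by
    calc Nat.card B ≤ _ := h1
      _ ≤ Nat.card Z0 * Nat.card Z ^ n := Nat.mul_le_mul_left _ h2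
      _ = _ := by ring
  have h4 := Nat.mul_le_mul_left (2 ^ (n + 1)) h3
  omega

/-- from the index to the weight -/
theorem wt_of_index [Finite G] [Finite X] (h : Heis x Q Z) {N : ℕ} {ω : X}
    (hN : ∀ hS : Q ⊓ stabilizer G ω ≤ Q, N * Nat.card (SZ h (Q ⊓ stabilizer G ω) hS) ≤ Nat.card Q) :
    (N : ℚ) ≤ wt Q Z ω := by
  obtain ⟨S, hS⟩ : ∃ S : Subgroup G, S = Q ⊓ stabilizer G ω := ⟨_, rfl⟩
  have hSQ : S ≤ Q := by rw [hS]; exact inf_le_left
  have hcard : N * Nat.card (SZ h S hSQ) ≤ Nat.card Q := by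
    subst hS
    exact hN hSQ
  have h2 := card_orbit_mul (T := Q) hS hSQ le_rfl
  have h3 := card_orbit_mul (T := SZ h S hSQ) hS le_SZ SZ_le
  rw [orbit_SZ (by rw [hS]; exact inf_le_right)] at h3
  rw [← h2, ← h3] at hcard
  have h4 : N * (orbit Z ω).ncard ≤ (orbit Q ω).ncard := by
    have h5 : 0 < Nat.card S := Nat.card_pos
    apply Nat.le_of_mul_le_mul_right _ h5
    calc N * (orbit Z ω).ncard * Nat.card S = N * ((orbit Z ω).ncard * Nat.card S) := by ring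
      _ ≤ _ := hcard
  rw [wt, le_div_iff₀ (by exact_mod_cast orbit_ncard_pos Z ω)]
  exact_mod_cast h4

end

variable {G : Type*} [Group G]

/-- the conjugate group -/
def cj (m : G) (H : Subgroup G) : Subgroup G := H.map (MulAut.conj m).toMonoidHom

theorem mem_cj {m g : G} {H : Subgroup G} : g ∈ cj m H ↔ ∃ a ∈ H, g = m * a * m⁻¹ := by
  unfold cj
  rw [mem_map]
  constructor
  · rintro ⟨a, ha, rfl⟩
    exact ⟨a, ha, rfl⟩
  · rintro ⟨a, ha, rfl⟩
    exact ⟨a, ha, rfl⟩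

theorem conj_mem_cj {m a : G} {H : Subgroup G} (ha : a ∈ H) : m * a * m⁻¹ ∈ cj m H :=
  mem_cj.2 ⟨a, ha, rfl⟩

theorem cj_inv_mem {m g : G} {H : Subgroup G} (h : g ∈ cj m H) : m⁻¹ * g * m ∈ H := by
  obtain ⟨a, ha, rfl⟩ := mem_cj.1 h
  have : m⁻¹ * (m * a * m⁻¹) * m = a := by group
  rwa [this]

theorem mem_cj' {m g : G} {H : Subgroup G} (h : m⁻¹ * g * m ∈ H) : g ∈ cj m H := by
  refine mem_cj.2 ⟨_, h, ?_⟩
  group

/-- the conjugate structure -/
theorem heis_conj {x m : G} {Q Z : Subgroup G} (h : Heis x Q Z) (hm : m * x = x * m) :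
    Heis x (cj m Q) (cj m Z) := by
  have hx : m⁻¹ * x * m = x := by rw [mul_assoc, ← hm]; group
  have hx' : m * x * m⁻¹ = x := by rw [hm]; group
  refine ⟨Subgroup.map_mono h.le, ?_, ?_, ?_, ?_, ?_⟩
  · intro z hz g hg
    obtain ⟨a, ha, rfl⟩ := mem_cj.1 hz
    obtain ⟨b, hb, rfl⟩ := mem_cj.1 hg
    have := h.cent a ha b hb
    calc m * a * m⁻¹ * (m * b * m⁻¹) = m * (a * b) * m⁻¹ := by group
      _ = m * (b * a) * m⁻¹ := by rw [this]
      _ = _ := by group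
  · intro a ha b hb
    obtain ⟨a, ha', rfl⟩ := mem_cj.1 ha
    obtain ⟨b, hb', rfl⟩ := mem_cj.1 hb
    have := conj_mem_cj (m := m) (h.der a ha' b hb')
    have e : m * (a * b * a⁻¹ * b⁻¹) * m⁻¹ =
        m * a * m⁻¹ * (m * b * m⁻¹) * (m * a * m⁻¹)⁻¹ * (m * b * m⁻¹)⁻¹ := by group
    rwa [e] at this
  · rw [mem_normalizer_iff]
    intro g
    have e : m⁻¹ * (x * g * x⁻¹) * m = x * (m⁻¹ * g * m) * x⁻¹ := by
      calc m⁻¹ * (x * g * x⁻¹) * m = (m⁻¹ * x * m) * (m⁻¹ * g * m) * (m⁻¹ * x * m)⁻¹ := by group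
        _ = _ := by rw [hx]
    constructor
    · intro hg
      apply mem_cj'
      rw [e]
      exact (mem_normalizer_iff.1 h.norm _).1 (cj_inv_mem hg)
    · intro hg
      apply mem_cj'
      have := cj_inv_mem hg
      rw [e] at this
      exact (mem_normalizer_iff.1 h.norm _).2 this
  · intro z hz
    obtain ⟨a, ha, rfl⟩ := mem_cj.1 hz
    have := h.fixZ a ha
    calc x * (m * a * m⁻¹) = (x * m) * a * m⁻¹ := by group
      _ = m * (x * a) * m⁻¹ := by rw [← hm]; group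
      _ = m * (a * x) * m⁻¹ := by rw [this]
      _ = m * a * (m⁻¹ * (m * x * m⁻¹) * m) * m⁻¹ := by group
      _ = m * a * m⁻¹ * x := by rw [hx']; group
  · intro r hr hz
    apply mem_cj'
    apply h.free _ (cj_inv_mem hr)
    have := cj_inv_mem hz
    have e : m⁻¹ * (x * r * x⁻¹ * r⁻¹) * m = x * (m⁻¹ * r * m) * x⁻¹ * (m⁻¹ * r * m)⁻¹ := by
      calc m⁻¹ * (x * r * x⁻¹ * r⁻¹) * m =
          (m⁻¹ * x * m) * (m⁻¹ * r * m) * (m⁻¹ * x * m)⁻¹ * (m⁻¹ * r * m)⁻¹ := by group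
        _ = _ := by rw [hx]
    rwa [e] at this

theorem card_cj (m : G) (H : Subgroup G) : Nat.card (cj m H) = Nat.card H :=
  (Nat.card_congr (Subgroup.equivMapOfInjective H (MulAut.conj m).toMonoidHom
      (MulAut.conj m).injective).toEquiv).symm

/-- **Two Heisenberg radicals**, with weights. -/
theorem heis_of_wt [Finite G] {x : G} {Q1 Q2 Z1 Z2 : Subgroup G} {p k : ℕ} (hp : p.Prime)
    (hx : x ^ p ^ k = 1) (h1 : Heis x Q1 Z1) (h2 : Heis x Q2 Z2)
    (hcomm1 : ∀ z ∈ Z1, ∃ a ∈ Q1, ∃ b ∈ Q1, z = a * b * a⁻¹ * b⁻¹)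
    (hcomm2 : ∀ z ∈ Z2, ∃ a ∈ Q2, ∃ b ∈ Q2, z = a * b * a⁻¹ * b⁻¹)
    (hg1 : ∀ (H : Subgroup G) (ω : G ⧸ H), x • ω = ω → H ≠ ⊤ → Q1 ≤ stabilizer G ω →
      ((2 * (p + 1) : ℕ) : ℚ) ≤ wt Q2 Z2 ω)
    (hg2 : ∀ (H : Subgroup G) (ω : G ⧸ H), x • ω = ω → H ≠ ⊤ → Q2 ≤ stabilizer G ω →
      ((2 * (p + 1) : ℕ) : ℚ) ≤ wt Q1 Z1 ω) : UGood 1 (p + 1) x := by
  classical
  intro H hH
  have := Fintype.ofFinite (G ⧸ H)
  have a1 := h1.sum_wt (X := G ⧸ H)
  have a2 := h2.sum_wt (X := G ⧸ H)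
  have hw : ∀ ω ∈ Finset.univ.filter (fun ω : G ⧸ H => x • ω = ω),
      ((2 * (p + 1) : ℕ) : ℚ) ≤ wt Q1 Z1 ω + wt Q2 Z2 ω := by
    intro ω hω
    have hxω : x • ω = ω := (Finset.mem_filter.1 hω).2
    have w1 := one_le_wt h1.le ω
    have w2 := one_le_wt h2.le ω
    by_cases b1 : Q1 ≤ stabilizer G ω
    · have := hg1 H ω hxω hH b1
      linarith
    · by_cases b2 : Q2 ≤ stabilizer G ω
      · have := hg2 H ω hxω hH b2
        linarith
      · have c1 := succ_le_wt h1 hp hx hcomm1 hxω b1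
        have c2 := succ_le_wt h2 hp hx hcomm2 hxω b2
        push_cast at c1 c2 ⊢
        linarith
  have h3 := Finset.sum_le_sum hw
  rw [Finset.sum_add_distrib, Finset.sum_const, nsmul_eq_mul] at h3
  have h4 : (Finset.univ.filter (fun ω : G ⧸ H => x • ω = ω)).card =
      Nat.card (fixedBy (G ⧸ H) x) := by
    rw [Nat.card_coe_set_eq, Set.ncard_eq_toFinset_card']
    congr 1
    ext y
    simp [mem_fixedBy]
  rw [h4] at h3
  rw [← Nat.card_eq_fintype_card] at a1 a2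
  have h5 : (Nat.card (fixedBy (G ⧸ H) x) : ℚ) * ((2 * (p + 1) : ℕ) : ℚ) ≤
      2 * (Nat.card (G ⧸ H) : ℚ) := by linarith
  have h6 : Nat.card (fixedBy (G ⧸ H) x) * (2 * (p + 1)) ≤ 2 * Nat.card (G ⧸ H) := by exact_mod_cast h5
  have h7 : Nat.card (fixedBy (G ⧸ H) x) * (2 * (p + 1)) =
      2 * ((p + 1) * Nat.card (fixedBy (G ⧸ H) x)) := by ring
  rw [h7] at h6
  rw [one_mul]
  exact Nat.le_of_mul_le_mul_left h6 (by norm_num)

theorem comm_cj {m : G} {Q Z : Subgroup G}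
    (hcomm : ∀ z ∈ Z, ∃ a ∈ Q, ∃ b ∈ Q, z = a * b * a⁻¹ * b⁻¹) :
    ∀ z ∈ cj m Z, ∃ a ∈ cj m Q, ∃ b ∈ cj m Q, z = a * b * a⁻¹ * b⁻¹ := by
  intro z hz
  obtain ⟨z, hz', rfl⟩ := mem_cj.1 hz
  obtain ⟨a, ha, b, hb, rfl⟩ := hcomm z hz'
  exact ⟨_, conj_mem_cj ha, _, conj_mem_cj hb, by group⟩

theorem center_cj {m : G} {Q Z0 : Subgroup G} (hcen : ∀ g ∈ Q, (∀ a ∈ Q, g * a = a * g) → g ∈ Z0) :
    ∀ g ∈ cj m Q, (∀ a ∈ cj m Q, g * a = a * g) → g ∈ cj m Z0 := by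
  intro g hg h
  apply mem_cj'
  apply hcen _ (cj_inv_mem hg)
  intro a ha
  have := h _ (conj_mem_cj (m := m) ha)
  calc m⁻¹ * g * m * a = m⁻¹ * (g * (m * a * m⁻¹)) * m := by group
    _ = m⁻¹ * ((m * a * m⁻¹) * g) * m := by rw [this]
    _ = _ := by group

/-- **Two conjugate Heisenberg radicals.** -/
theorem heis_M [Finite G] {x m : G} {Q Z Z0 : Subgroup G} {p k n : ℕ} (hp : p.Prime)
    (hx : x ^ p ^ k = 1) (h : Heis x Q Z) (hm : m * x = x * m) (hn : p + 1 ≤ 2 ^ n)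
    (hcomm : ∀ z ∈ Z, ∃ a ∈ Q, ∃ b ∈ Q, z = a * b * a⁻¹ * b⁻¹)
    (hcen : ∀ g ∈ Q, (∀ a ∈ Q, g * a = a * g) → g ∈ Z0)
    (hbig : 2 ^ (n + 1) * (Nat.card Z ^ n * Nat.card Z0) ≤ Nat.card Q)
    (hg1 : ∀ H : Subgroup G, Q ≤ H → ∀ z ∈ cj m Z, z ≠ 1 → z ∈ H → H = ⊤)
    (hg2 : ∀ H : Subgroup G, cj m Q ≤ H → ∀ z ∈ Z, z ≠ 1 → z ∈ H → H = ⊤) : UGood 1 (p + 1) x := by
  have h2 := heis_conj h hm
  have hle : ((2 * (p + 1) : ℕ) : ℚ) ≤ ((2 ^ (n + 1) : ℕ) : ℚ) := by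
    rw [pow_succ, mul_comm]
    exact_mod_cast Nat.mul_le_mul_right 2 hn
  refine heis_of_wt hp hx h h2 hcomm (comm_cj hcomm) ?_ ?_
  · intro H ω hω hH hst
    refine hle.trans (wt_of_index h2 fun hS => big_le h2 (center_cj hcen) ?_ ?_)
    · rw [card_cj, card_cj, card_cj]; exact hbig
    · intro z hz hzS
      by_contra hz1
      exact stabilizer_ne_top' hH ω (hg1 _ hst z hz hz1 hzS.2)
  · intro H ω hω hH hst
    refine hle.trans (wt_of_index h fun hS => big_le h hcen hbig ?_)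
    intro z hz hzS
    by_contra hz1
    exact stabilizer_ne_top' hH ω (hg2 _ hst z hz hz1 hzS.2)

/-! ### The order of the group against its centre -/

/-- one step -/
theorem card_step [Finite G] {A Z : Subgroup G} {x : G}
    (hsur : ∀ w ∈ Z, ∃ v ∈ A, v * x * v⁻¹ * x⁻¹ = w) :
    Nat.card Z * Nat.card (A ⊓ centralizer {x} : Subgroup G) ≤ Nat.card A := by
  choose v hvA hv using hsur
  rw [← Nat.card_prod]
  refine Nat.card_le_card_of_injective
    (fun a : Z × (A ⊓ centralizer {x} : Subgroup G) => (⟨v a.1 a.1.2 * a.2, mul_mem (hvA _ _) a.2.2.1⟩ : A)) ?_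
  rintro ⟨⟨z, hz⟩, ⟨a, ha⟩⟩ ⟨⟨w, hw⟩, ⟨b, hb⟩⟩ e
  have e1 : v z hz * a = v w hw * b := congrArg Subtype.val e
  have hax : a * x = x * a := mem_centralizer_singleton_iff.1 ha.2
  have hbx : b * x = x * b := mem_centralizer_singleton_iff.1 hb.2
  have e2 : z = w := by
    rw [← hv z hz, ← hv w hw]
    calc v z hz * x * (v z hz)⁻¹ * x⁻¹ = v z hz * (x * a) * (v z hz * a)⁻¹ * x⁻¹ := by group
      _ = v z hz * (a * x) * (v z hz * a)⁻¹ * x⁻¹ := by rw [hax]
      _ = (v z hz * a) * x * (v z hz * a)⁻¹ * x⁻¹ := by group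
      _ = (v w hw * b) * x * (v w hw * b)⁻¹ * x⁻¹ := by rw [e1]
      _ = v w hw * (b * x) * (v w hw * b)⁻¹ * x⁻¹ := by group
      _ = v w hw * (x * b) * (v w hw * b)⁻¹ * x⁻¹ := by rw [hbx]
      _ = _ := by group
  subst e2
  have e3 : a = b := mul_left_cancel e1
  subst e3
  rfl

/-- the centraliser of a list -/
def CL (Q : Subgroup G) : List G → Subgroup G
  | [] => Q
  | x :: L => CL Q L ⊓ centralizer {x}

theorem CL_le (Q : Subgroup G) (L : List G) : CL Q L ≤ Q := by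
  induction L with
  | nil => exact le_rfl
  | cons x L ih => exact inf_le_left.trans ih

theorem mem_CL {Q : Subgroup G} {L : List G} {g : G} : g ∈ CL Q L ↔ g ∈ Q ∧ ∀ x ∈ L, g * x = x * g := by
  induction L with
  | nil => simp [CL]
  | cons x L ih =>
    rw [CL, mem_inf, ih, mem_centralizer_singleton_iff]
    simp only [List.mem_cons, forall_eq_or_imp]
    tauto

/-- `|Z|^m |Z(Q)| ≤ |Q|` -/
theorem card_CL [Finite G] {Q Z : Subgroup G} (L : List G)
    (hsur : ∀ (x : G) (L' : List G), x :: L' <:+ L → ∀ w ∈ Z, ∃ v ∈ CL Q L', v * x * v⁻¹ * x⁻¹ = w) :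
    Nat.card Z ^ L.length * Nat.card (CL Q L) ≤ Nat.card Q := by
  induction L with
  | nil => simp [CL]
  | cons x L ih =>
    have h1 := ih (fun y L' hy => hsur y L' (hy.trans (List.suffix_cons x L)))
    have h2 : Nat.card Z * Nat.card (CL Q (x :: L)) ≤ Nat.card (CL Q L) :=
      card_step (hsur x L List.suffix_rfl)
    rw [List.length_cons, pow_succ, mul_assoc]
    exact (Nat.mul_le_mul_left _ h2).trans h1

/-! ### The centre -/

section Centre

variable {G : Type*} [Group G]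

/-- `Q` normalises the subgroups between `Z` and `Q` -/
theorem norm_of_Z_le {x : G} {Q Z : Subgroup G} (h : Heis x Q Z) {B : Subgroup G} (hZB : Z ≤ B) (hB : B ≤ Q) :
    Q ≤ normalizer (B : Set G) := by
  have aux : ∀ g ∈ Q, ∀ b ∈ B, g * b * g⁻¹ ∈ B := by
    intro g hg b hb
    have h2 := mul_mem (hZB (h.der g hg b (hB hb))) hb
    have h3 : g * b * g⁻¹ * b⁻¹ * b = g * b * g⁻¹ := by group
    rwa [h3] at h2
  intro g hg
  rw [mem_normalizer_iff]
  intro b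
  constructor
  · exact aux g hg b
  · intro hb
    have h2 := aux g⁻¹ (inv_mem hg) _ hb
    have h3 : g⁻¹ * (g * b * g⁻¹) * g⁻¹⁻¹ = b := by group
    rwa [h3] at h2

theorem norm_of_conj [Finite G] {x : G} {B : Subgroup G} (hx : ∀ b ∈ B, x * b * x⁻¹ ∈ B) :
    x ∈ normalizer (B : Set G) := by
  have h1 : B.map (MulAut.conj x).toMonoidHom = B := by
    apply Subgroup.eq_of_le_of_card_ge
    · rintro _ ⟨b, hb, rfl⟩
      exact hx b hb
    · exact (Nat.card_congr (Subgroup.equivMapOfInjective B (MulAut.conj x).toMonoidHom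
        (MulAut.conj x).injective).toEquiv).le
  rw [mem_normalizer_iff]
  intro b
  refine ⟨hx b, fun hb => ?_⟩
  have h2 : x * b * x⁻¹ ∈ B.map (MulAut.conj x).toMonoidHom := by rw [h1]; exact hb
  obtain ⟨c, hc, e⟩ := h2
  have e' : x * c * x⁻¹ = x * b * x⁻¹ := e
  have : c = b := by
    have := congrArg (fun g => x⁻¹ * g * x) e'
    simpa [mul_assoc] using this
  rwa [← this]

/-- If `S` does not contain the central subgroup `V` the index of `S Z` is at least `(p + 1) ^ 2`. -/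
theorem sq_le [Finite G] {x : G} {Q Z V S : Subgroup G} (h : Heis x Q Z) {p k : ℕ} (hp : p.Prime)
    (hx : x ^ p ^ k = 1) (hVQ : V ≤ Q) (hVc : ∀ v ∈ V, ∀ g ∈ Q, v * g = g * v)
    (hxV : ∀ v ∈ V, x * v * x⁻¹ ∈ V) (hVZ : ∀ v ∈ V, v ∈ Z → v = 1)
    (hna : ¬ ∀ a ∈ Q, ∀ b ∈ Q, a * b = b * a) {hS : S ≤ Q} (hxS : x ∈ normalizer (S : Set G))
    (hSZ : ∀ z ∈ Z, z ∈ S → z = 1) (hVS : ¬ V ≤ S) :
    (p + 1) ^ 2 * Nat.card (SZ h S hS) ≤ Nat.card Q := by
  classical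
  obtain ⟨B, hBdef⟩ : ∃ B, B = SZ h S hS := ⟨_, rfl⟩
  rw [← hBdef]
  have hZB : Z ≤ B := by rw [hBdef]; exact Z_le_SZ
  have hBQ : B ≤ Q := by rw [hBdef]; exact SZ_le
  have hxB : x ∈ normalizer (B : Set G) := by rw [hBdef]; exact norm_SZ hxS
  have hxVn := norm_of_conj hxV
  -- `V` is not contained in `B`
  have h1 : ¬ V ≤ B := by
    intro hVB
    apply hVS
    intro w hw
    -- `w = [x, v]`
    have hinj : Function.Injective (fun v : V => (⟨x * v * x⁻¹ * (v : G)⁻¹, mul_mem (hxV v v.2) (inv_mem v.2)⟩ : V)) := by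
      rintro ⟨a, ha⟩ ⟨b, hb⟩ e
      have e1 : x * a * x⁻¹ * a⁻¹ = x * b * x⁻¹ * b⁻¹ := congrArg Subtype.val e
      have e2 : x * (b⁻¹ * a) * x⁻¹ * (b⁻¹ * a)⁻¹ = 1 := by
        have c1 : a⁻¹ * b = b * a⁻¹ := hVc _ (inv_mem ha) b (hVQ hb)
        have c2 := hVc _ (hxV a ha) b (hVQ hb)
        have e3 : x * a * x⁻¹ = x * b * x⁻¹ * b⁻¹ * a := by rw [← e1]; group
        calc x * (b⁻¹ * a) * x⁻¹ * (b⁻¹ * a)⁻¹ = (x * b * x⁻¹)⁻¹ * (x * a * x⁻¹) * (a⁻¹ * b) := by group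
          _ = (x * b * x⁻¹)⁻¹ * (x * b * x⁻¹ * b⁻¹ * a) * (b * a⁻¹) := by rw [e3, c1]
          _ = b⁻¹ * (a * b) * a⁻¹ := by group
          _ = b⁻¹ * (b * a) * a⁻¹ := by rw [hVc a ha b (hVQ hb)]
          _ = 1 := by group
      have hab : b⁻¹ * a ∈ V := mul_mem (inv_mem hb) ha
      have h3 := hVZ _ hab (h.free _ (hVQ hab) (by rw [e2]; exact one_mem _))
      exact Subtype.ext (inv_mul_eq_one.1 h3).symm
    obtain ⟨⟨v, hv⟩, hvw⟩ := (Finite.injective_iff_surjective.1 hinj) ⟨w, hw⟩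
    have hvw' : x * v * x⁻¹ * v⁻¹ = w := congrArg Subtype.val hvw
    have hvB := hVB hv
    rw [hBdef] at hvB
    obtain ⟨s, hs, z, hz, rfl⟩ := hvB
    have hxs := (mem_normalizer_iff.1 hxS s).1 hs
    have e : x * (s * z) * x⁻¹ * (s * z)⁻¹ = x * s * x⁻¹ * s⁻¹ := by
      calc x * (s * z) * x⁻¹ * (s * z)⁻¹ = x * s * (z * x⁻¹) * z⁻¹ * s⁻¹ := by group
        _ = x * s * (x⁻¹ * z) * z⁻¹ * s⁻¹ := by
          have h5 := h.fixZ z hz
          have : z * x⁻¹ = x⁻¹ * z := by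
            calc z * x⁻¹ = x⁻¹ * (x * z) * x⁻¹ := by group
              _ = x⁻¹ * (z * x) * x⁻¹ := by rw [h5]
              _ = _ := by group
          rw [this]
        _ = _ := by group
    rw [← hvw', e]
    exact mul_mem hxs (inv_mem hs)
  -- `B V`
  obtain ⟨C, hC⟩ : ∃ C, C = B ⊔ V := ⟨_, rfl⟩
  have hBC : B ≤ C := by rw [hC]; exact le_sup_left
  have hCQ : C ≤ Q := by rw [hC]; exact sup_le hBQ hVQ
  have hxC : x ∈ normalizer (C : Set G) := by
    apply norm_of_conj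
    have h2 : C ≤ C.comap (MulAut.conj x).toMonoidHom := by
      have h3 : ∀ b ∈ B, x * b * x⁻¹ ∈ C := fun b hb => hBC ((mem_normalizer_iff.1 hxB b).1 hb)
      have h4 : ∀ b ∈ V, x * b * x⁻¹ ∈ C := fun b hb => by
        rw [hC]; exact (le_sup_right : V ≤ B ⊔ V) (hxV b hb)
      calc C = B ⊔ V := hC
        _ ≤ _ := sup_le (fun b hb => h3 b hb) (fun b hb => h4 b hb)
    exact fun b hb => h2 hb
  obtain ⟨w, hw, hwB⟩ := SetLike.not_le_iff_exists.1 h1
  have hwC : w ∈ C := by rw [hC]; exact (le_sup_right : V ≤ B ⊔ V) hw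
  have c1 := card_coset_ge (j := 0) hp hx hBC hxC hxB (hCQ.trans (norm_of_Z_le h hZB hBQ)) hwC (by
    intro h2
    rw [pow_zero, pow_one] at h2
    exact hwB (h.free_mod hZB hBQ hxB (hVQ hw) h2.2))
  -- `C` is commutative
  have hcommB : ∀ a ∈ B, ∀ b ∈ B, a * b = b * a := by
    rw [hBdef]
    exact comm_S hSZ
  have hCc : C ≠ Q := by
    rintro rfl
    apply hna
    have k1 : ∀ b ∈ B, C ≤ centralizer {b} := by
      intro b hb
      rw [hC]
      refine sup_le (fun a ha => ?_) (fun a ha => ?_)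
      · rw [mem_centralizer_singleton_iff]; exact hcommB a ha b hb
      · rw [mem_centralizer_singleton_iff]; exact hVc a ha b (hBC hb)
    have k2 : ∀ b ∈ V, C ≤ centralizer {b} := by
      intro b hb a ha
      rw [mem_centralizer_singleton_iff]
      exact (hVc b hb a ha).symm
    intro a ha b hb
    have k3 : C ≤ centralizer {a} := by
      calc C = B ⊔ V := hC
        _ ≤ centralizer {a} := by
          refine sup_le (fun b hb => ?_) (fun b hb => ?_)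
          · rw [mem_centralizer_singleton_iff]
            exact (mem_centralizer_singleton_iff.1 (k1 b hb ha)).symm
          · rw [mem_centralizer_singleton_iff]
            exact hVc b hb a ha
    exact (mem_centralizer_singleton_iff.1 (k3 hb)).symm
  obtain ⟨r, hrQ, hrC⟩ : ∃ r ∈ Q, r ∉ C := by
    by_contra hcon
    push Not at hcon
    exact hCc (le_antisymm hCQ hcon)
  have c2 := card_coset_ge (j := 0) hp hx hCQ h.norm hxC (norm_of_Z_le h (hZB.trans hBC) hCQ) hrQ (by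
    intro h2
    rw [pow_zero, pow_one] at h2
    exact hrC (h.free_mod (hZB.trans hBC) hCQ hxC hrQ h2.2))
  rw [zero_add, pow_one] at c1 c2
  calc (p + 1) ^ 2 * Nat.card B = (p + 1) * ((p + 1) * Nat.card B) := by ring
    _ ≤ (p + 1) * Nat.card C := Nat.mul_le_mul_left _ c1
    _ ≤ _ := c2

/-- **Two conjugate Heisenberg radicals with bigger centres.** -/
theorem heis_V [Finite G] {x m : G} {Q Z V : Subgroup G} {p k : ℕ} (hp : p.Prime)
    (hx : x ^ p ^ k = 1) (h : Heis x Q Z) (hm : m * x = x * m)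
    (hcomm : ∀ z ∈ Z, ∃ a ∈ Q, ∃ b ∈ Q, z = a * b * a⁻¹ * b⁻¹)
    (hVQ : V ≤ Q) (hVc : ∀ v ∈ V, ∀ g ∈ Q, v * g = g * v)
    (hxV : ∀ v ∈ V, x * v * x⁻¹ ∈ V) (hVZ : ∀ v ∈ V, v ∈ Z → v = 1)
    (hna : ¬ ∀ a ∈ Q, ∀ b ∈ Q, a * b = b * a)
    (hg1 : ∀ H : Subgroup G, Q ≤ H → ∀ z ∈ cj m Z, z ≠ 1 → z ∈ H → H = ⊤)
    (hg2 : ∀ H : Subgroup G, cj m Q ≤ H → ∀ z ∈ Z, z ≠ 1 → z ∈ H → H = ⊤)
    (hv1 : ∀ H : Subgroup G, Q ≤ H → cj m V ≤ H → H = ⊤)
    (hv2 : ∀ H : Subgroup G, cj m Q ≤ H → V ≤ H → H = ⊤) : UGood 1 (p + 1) x := by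
  have h2 := heis_conj h hm
  have hx' : m⁻¹ * x * m = x := by rw [mul_assoc, ← hm]; group
  have hle : ((2 * (p + 1) : ℕ) : ℚ) ≤ (((p + 1) ^ 2 : ℕ) : ℚ) := by
    have := hp.two_le
    have h3 : 2 * (p + 1) ≤ (p + 1) ^ 2 := by nlinarith
    exact_mod_cast h3
  refine heis_of_wt hp hx h h2 hcomm (comm_cj hcomm) ?_ ?_
  · intro H ω hω hH hst
    have htop := stabilizer_ne_top' hH ω
    refine hle.trans (wt_of_index h2 fun hS => sq_le h2 hp hx (V := cj m V) (Subgroup.map_mono hVQ) ?_ ?_ ?_ ?_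
      (norm_inf h2 hω) ?_ ?_)
    · intro v hv g hg
      obtain ⟨a, ha, rfl⟩ := mem_cj.1 hv
      obtain ⟨b, hb, rfl⟩ := mem_cj.1 hg
      have := hVc a ha b hb
      calc m * a * m⁻¹ * (m * b * m⁻¹) = m * (a * b) * m⁻¹ := by group
        _ = m * (b * a) * m⁻¹ := by rw [this]
        _ = _ := by group
    · intro v hv
      apply mem_cj'
      have e : m⁻¹ * (x * v * x⁻¹) * m = x * (m⁻¹ * v * m) * x⁻¹ := by
        calc m⁻¹ * (x * v * x⁻¹) * m = (m⁻¹ * x * m) * (m⁻¹ * v * m) * (m⁻¹ * x * m)⁻¹ := by group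
          _ = _ := by rw [hx']
      rw [e]
      exact hxV _ (cj_inv_mem hv)
    · intro v hv hz
      have := hVZ _ (cj_inv_mem hv) (cj_inv_mem hz)
      calc v = m * (m⁻¹ * v * m) * m⁻¹ := by group
        _ = 1 := by rw [this]; group
    · intro hab
      apply hna
      intro a ha b hb
      have := hab _ (conj_mem_cj (m := m) ha) _ (conj_mem_cj (m := m) hb)
      calc a * b = m⁻¹ * (m * a * m⁻¹ * (m * b * m⁻¹)) * m := by group
        _ = m⁻¹ * (m * b * m⁻¹ * (m * a * m⁻¹)) * m := by rw [this]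
        _ = _ := by group
    · intro z hz hzS
      by_contra hz1
      exact htop (hg1 _ hst z hz hz1 hzS.2)
    · intro hV
      exact htop (hv1 _ hst (hV.trans inf_le_right))
  · intro H ω hω hH hst
    have htop := stabilizer_ne_top' hH ω
    refine hle.trans (wt_of_index h fun hS => sq_le h hp hx hVQ hVc hxV hVZ hna (norm_inf h hω) ?_ ?_)
    · intro z hz hzS
      by_contra hz1
      exact htop (hg2 _ hst z hz hz1 hzS.2)
    · intro hV
      exact htop (hv2 _ hst (hV.trans inf_le_right))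

end Centre

end Cfsg.Agent.H435.Fpr.HM
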