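import Cfsg.Agent.H441.FPR.BitB
import Cfsg.Agent.H435.Fpr.HeisM

/-!
# Explicit elements over the field of two elements acting on a radical: two root lengths

`Cfsg.Agent.H441.FPR.BitB` for commutators with several terms (characteristic two, the terms linear in
the second parameter).
-/

set_option autoImplicit false
set_option linter.unusedSectionVars false
set_option linter.unusedVariables false
set_option maxRecDepth 100000

namespace Cfsg.Agent.H435.Fpr.BT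

open CoxeterSystem Cfsg.Agent.ChevalleyStructure.CoxeterGeom Cfsg.Agent.Tits.Roots Cfsg.Agent.Tits.Core
  Cfsg.Agent.Nodes.RGDChev Cfsg.Agent.ChevalleyStructure.CoxeterGeomTypes
open Cfsg.Lie Cfsg.Agent.ChevalleyStructure Cfsg.Agent.ChevalleyStructure.Elts
open Cfsg.Agent.H400.TwoExc Cfsg.Agent.H400.Fpr
open Cfsg.Agent.H398.FPR (UGood Good)
open Cfsg.Agent.H79.SimpleGen
open Cfsg.Agent.H441.FPR Cfsg.Agent.H441.FPR.Heis Cfsg.Agent.H441.FPR.Bit
open Cfsg.Agent.H452.FprHeis (Heis)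

universe u

/-- the bits of the terms -/
def tB (g : List ℕ) : List (ℕ × ℤ × ℕ × ℕ) → ℕ
  | [] => 0
  | c :: L => (if c.2.1 % 2 = 0 then 0 else 2 ^ g.idxOf c.1) ^^^ tB g L

/-- the terms are linear -/
def tO (g : List ℕ) (L : List (ℕ × ℤ × ℕ × ℕ)) : Prop :=
  ∀ c ∈ L, c.2.1 % 2 = 0 ∨ (c.2.2.2 = 1 ∧ c.1 ∈ g)

instance (g : List ℕ) (L : List (ℕ × ℤ × ℕ × ℕ)) : Decidable (tO g L) := by
  unfold tO; infer_instance

/-- the matrix of a root element -/
def gM (D : ChevalleyDatum) (g : List ℕ) (a : ℕ) : List ℕ :=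
  g.map fun s => 2 ^ g.idxOf s ^^^ tB g (D.commTerms a s)

/-- the conditions on a root element -/
def gO (D : ChevalleyDatum) (g : List ℕ) (a : ℕ) : Prop :=
  a < D.nroots ∧ ∀ s ∈ g, s < D.nroots ∧ s ≠ a ∧ s ≠ D.neg a ∧ tO g (D.commTerms a s)

instance (D : ChevalleyDatum) (g : List ℕ) (a : ℕ) : Decidable (gO D g a) := by
  unfold gO; infer_instance

section Act

variable {D : ChevalleyDatum} {K : Type u} [Field K] [Fintype K]
  {Q : Subgroup ↥(D.group K)} {A : Type u} [CommGroup A] {π : ↥Q →* A}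
  {hD : InList D} {g : List ℕ}

/-- the image of a word -/
theorem pi_wd (h2 : (2 : K) = 0) (hgQ : ∀ s ∈ g, ∀ t : K, xS hD s t ∈ Q) (t : K)
    {L : List (ℕ × ℤ × ℕ × ℕ)} (hL : tO g L) :
    ∃ h : wd hD L (-(1 : K)) t ∈ Q, π ⟨wd hD L (-(1 : K)) t, h⟩ =
      psi (row (FF hD π) g (Multiplicative.ofAdd t)) (tB g L) := by
  induction L with
  | nil =>
    have h0 : wd hD [] (-(1 : K)) t = 1 := rfl
    refine ⟨by rw [h0]; exact one_mem _, ?_⟩
    rw [tB, psi_zero]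
    have : (⟨wd hD [] (-(1 : K)) t, by rw [h0]; exact one_mem _⟩ : ↥Q) = 1 := Subtype.ext h0
    rw [this, map_one]
  | cons c L ih =>
    obtain ⟨h1, e1⟩ := ih fun d hd => hL d (List.mem_cons_of_mem _ hd)
    have h3 := hL c List.mem_cons_self
    have h4 : wd hD (c :: L) (-(1 : K)) t =
        xS hD c.1 ((c.2.1 : K) * (-(-(1 : K))) ^ c.2.2.1 * t ^ c.2.2.2) * wd hD L (-(1 : K)) t := wd_cons hD c L _ _
    by_cases h5 : c.2.1 % 2 = 0
    · have h6 : xS hD c.1 ((c.2.1 : K) * (-(-(1 : K))) ^ c.2.2.1 * t ^ c.2.2.2) = 1 := by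
        rw [cast_even h2 h5, zero_mul, zero_mul, xS_zero]
      rw [h6, one_mul] at h4
      refine ⟨by rw [h4]; exact h1, ?_⟩
      rw [tB, if_pos h5, Nat.zero_xor, ← e1]
      congr 1
      exact Subtype.ext h4
    · obtain ⟨h7, h8⟩ := h3.resolve_left h5
      have h9 : c.2.1 % 2 = 1 := by omega
      have h6 : xS hD c.1 ((c.2.1 : K) * (-(-(1 : K))) ^ c.2.2.1 * t ^ c.2.2.2) = xS hD c.1 t := by
        rw [cast_odd h2 h9, neg_neg, one_pow, one_mul, one_mul, h7, pow_one]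
      rw [h6] at h4
      refine ⟨by rw [h4]; exact mul_mem (hgQ _ h8 t) h1, ?_⟩
      rw [tB, if_neg h5, psi_xor (row_sq h2 _), psi_idx h8, FF_apply π (hgQ _ h8) t, ← e1, ← map_mul]
      congr 1
      exact Subtype.ext h4

theorem act_gen' (h2 : (2 : K) = 0) (hs : Function.Surjective π) {Z : Subgroup ↥(D.group K)}
    (hk : ∀ y, π y = 1 ↔ (y : ↥(D.group K)) ∈ Z) {a : ℕ} (ha : gO D g a) (hgQ : ∀ s ∈ g, ∀ t : K, xS hD s t ∈ Q)
    (hQ : ∀ y ∈ Q, xS hD a 1 * y * (xS hD a 1)⁻¹ ∈ Q) (hZ : ∀ y ∈ Z, xS hD a 1 * y * (xS hD a 1)⁻¹ ∈ Z) :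
    Act hD π g (xS hD a (1 : K)) (gM D g a) := by
  obtain ⟨α, hα⟩ := exists_end hs hk hQ hZ
  refine ⟨α, hα, fun t => ?_⟩
  unfold Bit.Rep gM
  show List.Forall₂ (fun a m => α a = psi (row (FF hD π) g t) m) (g.map fun s => FF hD π s t) _
  rw [List.forall₂_map_left_iff, List.forall₂_map_right_iff, List.forall₂_same]
  intro s hsg
  obtain ⟨h3, h4, h5, h6⟩ := ha.2 s hsg
  obtain ⟨t, rfl⟩ : ∃ u : K, Multiplicative.ofAdd u = t := ⟨t.toAdd, rfl⟩
  obtain ⟨h7, e7⟩ := hα _ (hgQ s hsg t)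
  rw [FF_apply π (hgQ s hsg) t, ← e7]
  have h8 := conj_word hD ha.1 h3 h4 h5 (1 : K) t
  obtain ⟨h9, e9⟩ := pi_wd (π := π) h2 hgQ t h6
  have h10 : (⟨xS hD a 1 * xS hD s t * (xS hD a 1)⁻¹, h7⟩ : ↥Q) = ⟨xS hD s t, hgQ s hsg t⟩ * ⟨_, h9⟩ :=
    Subtype.ext h8
  rw [h10, psi_xor (row_sq h2 _), psi_idx hsg, FF_apply π (hgQ s hsg) t, ← e9, map_mul]

/-- **an element with matrix `M'` acts freely modulo `Z` if `M' + 1` is invertible** -/
theorem free_of_act (h2 : (2 : K) = 0) (hs : Function.Surjective π) {Z : Subgroup ↥(D.group K)}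
    (hk : ∀ y, π y = 1 ↔ (y : ↥(D.group K)) ∈ Z) (hgQ : ∀ s ∈ g, ∀ t : K, xS hD s t ∈ Q)
    (hZQ : Z ≤ Q) (hgen : ∀ J : Subgroup ↥(D.group K), Z ≤ J → (∀ s ∈ g, ∀ t : K, xS hD s t ∈ J) → Q ≤ J)
    {x : ↥(D.group K)} {M' : List ℕ} {wu : List (ℕ × ℕ)}
    (hx : Act hD π g x M') (hc : cert M' [] wu = idL g.length) :
    ∀ r ∈ Q, x * r * x⁻¹ * r⁻¹ ∈ Z → r ∈ Z := by
  have hfin : Finite ↥(D.group K) := inferInstance
  obtain ⟨α, h3, h4⟩ := hx
  let θ : A →* A :=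
    { toFun := fun v => α v * v⁻¹
      map_one' := by rw [map_one, inv_one, mul_one]
      map_mul' := fun a b => by rw [map_mul, mul_inv, mul_mul_mul_comm] }
  have hfA : Finite A := Finite.of_surjective π hs
  have hker : Nat.card θ.ker ≤ Nat.card K ^ ([] : List ℕ).length := by
    refine card_ker_le (FF hD π) g (θ := θ) (fun v => rfl) ?_ h4 hc ?_
    · intro s hs' t
      rw [← map_mul]
      have h1 : t * t = 1 := by
        show Multiplicative.ofAdd (t.toAdd + t.toAdd) = 1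
        rw [← two_mul, h2, zero_mul]
        rfl
      rw [h1, map_one]
    · intro J hJ
      rw [eq_top_iff]
      intro a _
      obtain ⟨⟨y, hy⟩, rfl⟩ := hs a
      have h5 : Q ≤ (J.comap π).map Q.subtype := by
        refine hgen _ ?_ ?_
        · intro v hv
          refine ⟨⟨v, hZQ hv⟩, ?_, rfl⟩
          show π _ ∈ J
          rw [(hk ⟨v, hZQ hv⟩).2 hv]
          exact one_mem _
        · intro s hs' t
          refine ⟨⟨_, hgQ s hs' t⟩, ?_, rfl⟩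
          show π _ ∈ J
          rw [← FF_apply π (hgQ s hs') t]
          exact hJ s hs' _
      obtain ⟨w, hw, e⟩ := h5 hy
      have e' : w = ⟨y, hy⟩ := Subtype.ext e
      rw [← e']
      exact hw
  rw [List.length_nil, pow_zero] at hker
  have hbot : θ.ker = ⊥ := by
    rw [← Subgroup.card_eq_one]
    have : 0 < Nat.card θ.ker := Nat.card_pos
    omega
  intro r hr hz
  obtain ⟨h5, e5⟩ := h3 r hr
  have h6 : x * r * x⁻¹ * r⁻¹ ∈ Q := mul_mem h5 (inv_mem hr)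
  have h7 : π ⟨x * r * x⁻¹ * r⁻¹, h6⟩ = 1 := (hk _).2 hz
  have h8 : (⟨x * r * x⁻¹ * r⁻¹, h6⟩ : ↥Q) = ⟨x * r * x⁻¹, h5⟩ * (⟨r, hr⟩ : ↥Q)⁻¹ := Subtype.ext rfl
  rw [h8, map_mul, map_inv, e5] at h7
  have h9 : π ⟨r, hr⟩ ∈ θ.ker := h7
  rw [hbot, Subgroup.mem_bot] at h9
  exact (hk _).1 h9

end Act

end Cfsg.Agent.H435.Fpr.BT
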