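import Cfsg.Agent.H435.Fpr.BitTwo
import Cfsg.Agent.H400.FprChevRowsE
import Cfsg.Agent.H398.FPR.Frob

/-!
# `F₄(q)`, `q` even, `p = 7`: two Heisenberg subradicals
-/

set_option autoImplicit false
set_option linter.unusedSectionVars false
set_option linter.unusedVariables false
set_option maxRecDepth 100000

namespace Cfsg.Agent.H435.Fpr.F4S

open CoxeterSystem Cfsg.Agent.ChevalleyStructure.CoxeterGeom Cfsg.Agent.Tits.Roots Cfsg.Agent.Tits.Core
  Cfsg.Agent.Nodes.Reps Cfsg.Agent.Nodes.BNOf Cfsg.Agent.Nodes.Coroot Cfsg.Agent.Nodes.LeviDec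
  Cfsg.Agent.Nodes.PosPair Cfsg.Agent.Nodes.StabComb Cfsg.Agent.Nodes.KindChev Cfsg.Agent.KFacts.RgdCent
  Cfsg.Agent.Nodes.Bruhat Cfsg.Agent.Nodes.OppDec Cfsg.Agent.Tits.Exchange
  Cfsg.Agent.KFacts.RgdPar Cfsg.Agent.KFacts.RgdSL Cfsg.Agent.KFacts.RgdTI Cfsg.Agent.Nodes.RGDChev
  Cfsg.Agent.ChevalleyStructure.CoxeterGeomTypes
open Cfsg.Lie Cfsg.Agent.ChevalleyStructure Cfsg.Agent.ChevalleyStructure.Elts Cfsg.Agent.ChevalleyStructure.NPerm
open Cfsg.Agent.KFacts.RgdChevCoord Cfsg.Agent.Nodes.ChevCls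
open Cfsg.Agent.H400.TwoExc Cfsg.Agent.H400.Fpr
open Cfsg.Agent.H398.FPR (UGood Good)
open Cfsg.Agent.H409 (FprRow)
open scoped commutatorElement
open Cfsg.Agent.H79.SimpleGen
open Cfsg.Agent.H400
open Cfsg.Agent.H441.FPR Cfsg.Agent.H441.FPR.Heis Cfsg.Agent.H441.FPR.Bit
open Cfsg.Agent.H452.FprHeis (Heis)
open Cfsg.Agent.H435.Fpr.BT Cfsg.Agent.TitsThree.KExcRT

universe u

/-- the roots of the radical outside the centre -/
def g12 : List ℕ := [26, 31, 42, 32, 43, 45, 29, 36, 38, 39, 40, 44]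

/-- all roots of the radical -/
def G13 : List ℕ := 47 :: g12

/-- the opposite roots -/
def N13 : List ℕ := [0, 21, 16, 5, 15, 4, 2, 18, 11, 9, 8, 7, 3]

/-- the long roots -/
def lg6 : List ℕ := [26, 31, 42, 32, 43, 45]

theorem tG : ∀ a ∈ G13, a ∈ Gam 8 := by decide +kernel
theorem tG48 : ∀ a ∈ G13, a < 48 := by decide +kernel
theorem tg48 : ∀ a ∈ g12, a < 48 := by decide +kernel
theorem tN48 : ∀ a ∈ N13, a < 48 := by decide +kernel
theorem tlg : ∀ a ∈ lg6, a ∈ LgL ∧ a ∈ g12 := by decide +kernel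
theorem tgen33 : gO chevF4 g12 33 := by decide +kernel
theorem tgen27 : gO chevF4 g12 27 := by decide +kernel
theorem tgen13 : gO chevF4 g12 13 := by decide +kernel
theorem tinv : ∀ a ∈ [33, 27, 13], InvE chevF4 G13 a := by decide +kernel
theorem tL0 : ∀ a ∈ [33, 27, 13], q4 a 47 = 0 := by decide +kernel

/-- the reflection in the root `47` -/
theorem trefl : ∀ b ∈ N13, ∃ a ∈ G13, ∃ c : ℤ, c * q4 47 47 = 2 * q4 a 47 ∧
    ∀ i : Fin 4, vec chevF4 4 b i = vec chevF4 4 a i - c * vec chevF4 4 47 i := by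
  have h : ∀ b ∈ N13, ∃ a ∈ G13, ∃ c ∈ [(1 : ℤ), 2], c * q4 47 47 = 2 * q4 a 47 ∧
    ∀ i : Fin 4, vec chevF4 4 b i = vec chevF4 4 a i - c * vec chevF4 4 47 i := by decide +kernel
  intro b hb
  obtain ⟨a, ha, c, -, h1, h2⟩ := h b hb
  exact ⟨a, ha, c, h1, h2⟩

theorem trefl' : ∀ a ∈ G13, ∃ b ∈ N13, ∃ c : ℤ, c * q4 47 47 = 2 * q4 b 47 ∧
    ∀ i : Fin 4, vec chevF4 4 a i = vec chevF4 4 b i - c * vec chevF4 4 47 i := by
  have h : ∀ a ∈ G13, ∃ b ∈ N13, ∃ c ∈ [(-1 : ℤ), -2], c * q4 47 47 = 2 * q4 b 47 ∧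
    ∀ i : Fin 4, vec chevF4 4 a i = vec chevF4 4 b i - c * vec chevF4 4 47 i := by decide +kernel
  intro b hb
  obtain ⟨a, ha, c, -, h1, h2⟩ := h b hb
  exact ⟨a, ha, c, h1, h2⟩

/-- the short roots -/
def sh6 : List ℕ := [29, 36, 38, 39, 40, 44]

/-- their opposites -/
def n6 : List ℕ := [18, 11, 9, 8, 7, 3]

theorem tsh : ∀ a ∈ sh6, a ∈ G13 ∧ a ∈ ZeL := by decide +kernel
theorem tsh48 : ∀ a ∈ sh6, a < 48 := by decide +kernel
theorem tgen33' : gO chevF4 sh6 33 := by decide +kernel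
theorem tgen27' : gO chevF4 sh6 27 := by decide +kernel
theorem tgen13' : gO chevF4 sh6 13 := by decide +kernel
theorem tinv' : ∀ a ∈ [33, 27, 13], InvE chevF4 sh6 a := by decide +kernel
theorem tn6 : ∀ b ∈ n6, ∃ a ∈ sh6, ∃ c : ℤ, c * q4 47 47 = 2 * q4 a 47 ∧
    ∀ i : Fin 4, vec chevF4 4 b i = vec chevF4 4 a i - c * vec chevF4 4 47 i := by
  have h : ∀ b ∈ n6, ∃ a ∈ sh6, ∃ c ∈ [(1 : ℤ)], c * q4 47 47 = 2 * q4 a 47 ∧
    ∀ i : Fin 4, vec chevF4 4 b i = vec chevF4 4 a i - c * vec chevF4 4 47 i := by decide +kernel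
  intro b hb
  obtain ⟨a, ha, c, -, h1, h2⟩ := h b hb
  exact ⟨a, ha, c, h1, h2⟩

/-- the closures -/
def st1 : List (ℕ × ℕ) := [(47, 18), (47, 9), (47, 8), (26, 22), (26, 18), (31, 18), (31, 9), (42, 9), (32, 41), (0, 46)]
def st2 : List (ℕ × ℕ) := [(47, 9), (47, 8), (26, 22), (29, 11), (36, 18), (36, 9), (38, 11), (39, 11), (18, 32)]
def st3 : List (ℕ × ℕ) := [(0, 38), (0, 39), (21, 25), (18, 36), (11, 29), (11, 38), (9, 36), (8, 36), (29, 15)]

theorem tall1 : AllS chevF4 (gal chevF4 [] [] (G13 ++ N13) st1) := by decide +kernel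
theorem tall2 : AllS chevF4 (gal chevF4 [] [] (G13 ++ n6) st2) := by decide +kernel
theorem tall3 : AllS chevF4 (gal chevF4 [] [] (N13 ++ sh6) st3) := by decide +kernel

/-- the matrices -/
theorem m13 : gM chevF4 g12 13 = [1, 2, 133, 8, 16, 1064, 64, 128, 320, 512, 1024, 2560] := by decide +kernel
theorem m27 : gM chevF4 g12 27 = [67, 2, 4, 8, 2096, 32, 64, 384, 256, 1536, 1024, 2048] := by decide +kernel
theorem m33 : gM chevF4 g12 33 = [1, 262, 4, 536, 16, 32, 192, 128, 256, 512, 3072, 2048] := by decide +kernel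
theorem mY : mmul [1, 262, 4, 536, 16, 32, 192, 128, 256, 512, 3072, 2048]
    (mmul [67, 2, 4, 8, 2096, 32, 64, 384, 256, 1536, 1024, 2048]
      [1, 2, 133, 8, 16, 1064, 64, 128, 320, 512, 1024, 2560]) =
    [455, 262, 67, 536, 2096, 3640, 192, 384, 448, 3584, 3072, 1536] := by decide +kernel
theorem cY : cert [455, 262, 67, 536, 2096, 3640, 192, 384, 448, 3584, 3072, 1536] []
    [(197, 0), (259, 0), (130, 0), (552, 0), (2568, 0), (1040, 0), (320, 0), (64, 0), (128, 0), (2560, 0), (1536, 0),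
      (1024, 0)] = idL g12.length := by decide +kernel
theorem m13' : gM chevF4 sh6 13 = [1, 2, 5, 8, 16, 40] := by decide +kernel
theorem m27' : gM chevF4 sh6 27 = [1, 6, 4, 24, 16, 32] := by decide +kernel
theorem m33' : gM chevF4 sh6 33 = [3, 2, 4, 8, 48, 32] := by decide +kernel
theorem mY' : mmul [3, 2, 4, 8, 48, 32] (mmul [1, 6, 4, 24, 16, 32] [1, 2, 5, 8, 16, 40]) =
    [3, 6, 7, 56, 48, 24] := by decide +kernel
theorem cY' : cert [3, 6, 7, 56, 48, 24] [] [(5, 0), (1, 0), (2, 0), (40, 0), (24, 0), (16, 0)] = idL sh6.length := by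
  decide +kernel

/-- the short `SL₃` -/
def rr3 : Fin 3 → Fin 3 → ℕ := ![![0, 33, 34], ![14, 0, 27], ![13, 20, 0]]

theorem rt3 : RTa chevF4 rr3 ∧ (RTb chevF4 rr3 fun _ _ => -1) ∧ RTc chevF4 rr3 ∧
    ∀ i j, i ≠ j → rr3 j i = chevF4.neg (rr3 i j) := by decide +kernel

/-! ### Elements over the field of two elements -/

def Y2 : Matrix.SpecialLinearGroup (Fin 3) (ZMod 2) := ⟨!![0, 1, 1; 1, 1, 1; 1, 0, 1], by decide⟩
def Z2 : Matrix.SpecialLinearGroup (Fin 3) (ZMod 2) := ⟨!![1, 0, 0; 0, 1, 1; 0, 1, 0], by decide⟩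

theorem Y2_seven : Y2 ^ 7 = 1 := by decide +kernel
theorem Z2_three : Z2 ^ 3 = 1 := by decide +kernel
theorem Z2_conj : Z2 * Y2 * Z2⁻¹ = Y2 ^ 2 := by decide +kernel
theorem Y2_eq : Y2 = Matrix.SpecialLinearGroup.transvection (show (0 : Fin 3) ≠ 1 by decide) 1 *
    Matrix.SpecialLinearGroup.transvection (show (1 : Fin 3) ≠ 2 by decide) 1 *
    Matrix.SpecialLinearGroup.transvection (show (2 : Fin 3) ≠ 0 by decide) 1 := by decide +kernel

section

variable {K : Type u} [Field K] [Fintype K]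

/-- a subgroup containing both radicals is everything -/
theorem top_of {S : List ℕ} {st : List (ℕ × ℕ)} (hall : AllS chevF4 (gal chevF4 [] [] S st))
    {H : Subgroup ↥(chevF4.group K)} (h1 : ∀ a ∈ S, ∀ t : K, xS isType_F4.inList a t ∈ H) : H = ⊤ := by
  have h3 := gal_sound isType_F4.inList (K := K) (M := H) (L := []) (Γ := [])
    (fun r hr => absurd hr List.not_mem_nil) st (S := S) h1
  exact eq_top_of_simple isType_F4.inList H (fun i hi t => h3 _ (hall i hi).1 t)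
    (fun i hi t => h3 _ (hall i hi).2 t)

theorem vec_eq {a b : ℕ} {c : ℤ} (h : ∀ i : Fin 4, vec chevF4 4 b i = vec chevF4 4 a i - c * vec chevF4 4 47 i) :
    vec chevF4 4 b = vec chevF4 4 a - c • vec chevF4 4 47 := by
  funext i
  rw [h i, Pi.sub_apply, Pi.smul_apply, smul_eq_mul]

/-- the homomorphism from `SL₃(2)` -/
theorem exists_phi [CharP K 2] (h2 : (2 : K) = 0) :
    ∃ φ : Matrix.SpecialLinearGroup (Fin 3) (ZMod 2) →* ↥(chevF4.group K),
      φ Y2 = xS isType_F4.inList 33 1 * xS isType_F4.inList 27 1 * xS isType_F4.inList 13 1 := by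
  obtain ⟨φ, hφ⟩ := exists_hom (K := K) isType_F4 (n := 0) (r := rr3) (ε := -1) (by norm_num) rt3.1 rt3.2.1
    rt3.2.2.1 rt3.2.2.2
  have h1 : ((-1 : ℤ) : K) * 1 = 1 := by
    rw [mul_one, Int.cast_neg, Int.cast_one]
    linear_combination (-1 : K) * h2
  have htr : ∀ (a b : Fin 3) (hab : a ≠ b),
      Matrix.SpecialLinearGroup.map (ZMod.castHom (dvd_refl 2) K) (Matrix.SpecialLinearGroup.transvection hab 1) =
        Matrix.SpecialLinearGroup.transvection hab (1 : K) := by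
    intro a b hab
    apply Subtype.ext
    ext i j
    show (ZMod.castHom (dvd_refl 2) K) ((Matrix.transvection a b (1 : ZMod 2)) i j) = Matrix.transvection a b (1 : K) i j
    simp only [Matrix.transvection, Matrix.add_apply, map_add, Matrix.one_apply, Matrix.single_apply]
    congr 1
    · split_ifs
      · rw [map_one]
      · rw [map_zero]
    · split_ifs
      · rw [map_one]
      · rw [map_zero]
  refine ⟨φ.comp (Matrix.SpecialLinearGroup.map (ZMod.castHom (dvd_refl 2) K)), ?_⟩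
  rw [Y2_eq, map_mul, map_mul, MonoidHom.comp_apply, MonoidHom.comp_apply, MonoidHom.comp_apply, htr, htr, htr,
    hφ, hφ, hφ, h1]
  rfl

end

section Main

variable {K : Type u} [Field K] [Fintype K] {W : Type} [Group W] [Finite W] (cs : CoxeterSystem CoxeterMatrix.F₄ W)

theorem V_le : UG isType_F4.inList K sh6 ≤ UG isType_F4.inList K G13 :=
  UG_le _ fun k hk t => xS_mem_UG _ (tsh k hk).1 t

theorem R_le : UG isType_F4.inList K G13 ≤
    TwoExc.QQ cs isType_F4.isCartan (XX chevF4 4 K) (vec chevF4 4 47) := by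
  unfold TwoExc.QQ
  rw [Gt_eq, SS_XX lt48]
  exact UG_le _ fun k hk t => xS_mem_UG _ (tG k hk) t

theorem X_le {a : ℕ} (ha : a ∈ G13) : XX chevF4 4 K (vec chevF4 4 a) ≤ UG isType_F4.inList K G13 := by
  intro u hu
  obtain ⟨t, rfl⟩ := (mem_XX_xS isType_F4 (by rw [tb_nr]; exact tG48 a ha)).1 hu
  exact xS_mem_UG _ ha t

theorem V_central (h2 : (2 : K) = 0) {v g : ↥(chevF4.group K)} (hv : v ∈ UG isType_F4.inList K sh6)
    (hg : g ∈ UG isType_F4.inList K G13) : v * g = g * v := by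
  have h1 : Commute v g := UG_comm isType_F4.inList hv fun k hk t => by
    refine (UG_comm isType_F4.inList hg fun l hl s => ?_).symm
    exact ((tb_cen k (tsh k hk).2 l (tG l hl)).comm isType_F4.inList h2 t s).symm
  exact h1

theorem cpr_val {a : ℕ} (ha : a < 48) {c : ℤ} (hc : c * q4 47 47 = 2 * q4 a 47) :
    cpr cs isType_F4.isCartan (vec chevF4 4 a) (vec chevF4 4 47) = c := by
  have h1 := cpr47 cs ha
  rw [← hc] at h1
  exact mul_right_cancel₀ (ne_of_gt q47_pos) h1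

theorem mem_L0 {a : ℕ} (ha : a < 48) (h0 : q4 a 47 = 0) (t : K) :
    xS isType_F4.inList a t ∈ L0 cs isType_F4.isCartan (XX chevF4 4 K) (vec chevF4 4 47) :=
  RGD.le_Sup (S := {s | IsRoot cs isType_F4.isCartan s ∧ cpr cs isType_F4.isCartan s (vec chevF4 4 47) = 0})
    ⟨(root_iff cs).2 ⟨a, ha, rfl⟩, cpr_val cs ha (c := 0) (by rw [h0]; ring)⟩
    ((mem_XX_xS isType_F4 (by rwa [tb_nr])).2 ⟨t, rfl⟩)

/-- the reflection moves root elements -/
theorem refl_mem {H : Subgroup ↥(chevF4.group K)} {m : ↥(chevF4.group K)}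
    (hm : ∀ s, IsRoot cs isType_F4.isCartan s → Cfsg.Agent.Nodes.Reps.cj m (XX chevF4 4 K s) =
      XX chevF4 4 K (s - cpr cs isType_F4.isCartan s (vec chevF4 4 47) • vec chevF4 4 47)) {H' : Subgroup ↥(chevF4.group K)}
    (hH : Cfsg.Agent.Nodes.Reps.cj m H' ≤ H) {a b : ℕ} (ha : a < 48) (hb : b < 48) {c : ℤ}
    (hc : c * q4 47 47 = 2 * q4 a 47) (hv : ∀ i : Fin 4, vec chevF4 4 b i = vec chevF4 4 a i - c * vec chevF4 4 47 i)
    (h : ∀ t : K, xS isType_F4.inList a t ∈ H') (t : K) : xS isType_F4.inList b t ∈ H := by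
  have h1 := hm _ ((root_iff cs).2 ⟨a, ha, rfl⟩)
  rw [cpr_val cs ha hc, ← vec_eq hv] at h1
  have h2 : xS isType_F4.inList b t ∈ XX chevF4 4 K (vec chevF4 4 b) :=
    (mem_XX_xS isType_F4 (by rwa [tb_nr])).2 ⟨t, rfl⟩
  rw [← h1] at h2
  refine hH (Subgroup.map_mono ?_ h2)
  intro u hu
  obtain ⟨s, rfl⟩ := (mem_XX_xS isType_F4 (by rwa [tb_nr])).1 hu
  exact h s

theorem sub26 : vec chevF4 4 47 - vec chevF4 4 26 = vec chevF4 4 45 := by decide +kernel
theorem neg47 : -vec chevF4 4 47 = vec chevF4 4 0 := by decide +kernel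

theorem act_y {Q : Subgroup ↥(chevF4.group K)} {A : Type u} [CommGroup A] {π : ↥Q →* A} (h2 : (2 : K) = 0)
    {Z : Subgroup ↥(chevF4.group K)} {g : List ℕ} {M1 M2 M3 M4 : List ℕ}
    (hs : Function.Surjective π) (hk : ∀ y, π y = 1 ↔ (y : ↥(chevF4.group K)) ∈ Z)
    (hgQ : ∀ s ∈ g, ∀ t : K, xS isType_F4.inList s t ∈ Q)
    (h13 : gO chevF4 g 13) (h27 : gO chevF4 g 27) (h33 : gO chevF4 g 33)
    (e13 : gM chevF4 g 13 = M1) (e27 : gM chevF4 g 27 = M2) (e33 : gM chevF4 g 33 = M3)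
    (e : mmul M3 (mmul M2 M1) = M4)
    (hQ : ∀ a ∈ [33, 27, 13], ∀ y ∈ Q, xS isType_F4.inList a 1 * y * (xS isType_F4.inList a 1)⁻¹ ∈ Q)
    (hZ : ∀ a ∈ [33, 27, 13], ∀ y ∈ Z, xS isType_F4.inList a 1 * y * (xS isType_F4.inList a 1)⁻¹ ∈ Z) :
    Act isType_F4.inList π g
      (xS isType_F4.inList 33 1 * (xS isType_F4.inList 27 1 * xS isType_F4.inList 13 1)) M4 := by
  have a1 := act_gen' h2 hs hk h13 hgQ (hQ 13 (by decide)) (hZ 13 (by decide))
  have a2 := act_gen' h2 hs hk h27 hgQ (hQ 27 (by decide)) (hZ 27 (by decide))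
  have a3 := act_gen' h2 hs hk h33 hgQ (hQ 33 (by decide)) (hZ 33 (by decide))
  rw [e13] at a1
  rw [e27] at a2
  rw [e33] at a3
  exact a3.mul' h2 (a2.mul h2 a1) e

/-- **The element of order seven.** -/
theorem uGood_seven [CharP K 2] {φ : Matrix.SpecialLinearGroup (Fin 3) (ZMod 2) →* ↥(chevF4.group K)}
    (hφ : φ Y2 = xS isType_F4.inList 33 1 * xS isType_F4.inList 27 1 * xS isType_F4.inList 13 1) :
    UGood 1 8 (φ Y2) := by
  have hfin : Finite ↥(chevF4.group K) := inferInstance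
  have h2 : (2 : K) = 0 := by
    have := CharP.cast_eq_zero K 2
    exact_mod_cast this
  have : Fact (Nat.Prime 2) := ⟨Nat.prime_two⟩
  let cs : CoxeterSystem CoxeterMatrix.F₄ _ := CoxeterMatrix.F₄.toCoxeterSystem
  have hW : Finite CoxeterMatrix.F₄.Group := finite_W isType_F4 cs
  have HV := hv_F4 cs 2 h2 (K := K)
  have R := rgd (K := K) isType_F4 cs 2
  have hr := HV.L.root
  obtain ⟨y, hy⟩ : ∃ y, y = φ Y2 := ⟨_, rfl⟩
  rw [← hy] at hφ ⊢
  have hφ' : y = xS isType_F4.inList 33 1 * (xS isType_F4.inList 27 1 * xS isType_F4.inList 13 1) := by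
    rw [hφ, mul_assoc]
  have hy7 : y ^ 7 ^ 1 = 1 := by rw [pow_one, hy, ← map_pow, Y2_seven, map_one]
  have hL0 : ∀ a ∈ [33, 27, 13], ∀ t : K,
      xS isType_F4.inList a t ∈ L0 cs isType_F4.isCartan (XX chevF4 4 K) (vec chevF4 4 47) := by
    have h48 : ∀ a ∈ [33, 27, 13], a < 48 := by decide
    exact fun a ha t => mem_L0 cs (h48 a ha) (tL0 a ha) t
  have hyL0 : y ∈ L0 cs isType_F4.isCartan (XX chevF4 4 K) (vec chevF4 4 47) := by
    rw [hφ]
    exact mul_mem (mul_mem (hL0 33 (by decide) 1) (hL0 27 (by decide) 1)) (hL0 13 (by decide) 1)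
  have hRQ := R_le (K := K) cs
  have hC : C2 (XX chevF4 4 K (vec chevF4 4 47)) (UG isType_F4.inList K G13) :=
    ⟨X_le (by decide), fun z hz g hg => HV.central hz (hRQ hg), fun a ha b hb => HV.comm_mem (hRQ ha) (hRQ hb)⟩
  -- the action modulo `Z`
  have hgQ : ∀ s ∈ g12, ∀ t : K, xS isType_F4.inList s t ∈ UG isType_F4.inList K G13 := fun s hs t =>
    xS_mem_UG _ (List.mem_cons_of_mem _ hs) t
  have free1 : ∀ r ∈ UG isType_F4.inList K G13, y * r * y⁻¹ * r⁻¹ ∈ XX chevF4 4 K (vec chevF4 4 47) →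
      r ∈ XX chevF4 4 K (vec chevF4 4 47) := by
    obtain ⟨A, hA, π, hs, hk⟩ := exists_quot hC
    refine free_of_act h2 hs hk hgQ hC.le ?_ (x := y) (M' := [455, 262, 67, 536, 2096, 3640, 192, 384, 448, 3584, 3072, 1536]) ?_ cY
    · intro J hZJ hJ
      refine UG_le _ fun k hk t => ?_
      rcases List.mem_cons.1 hk with rfl | hk
      · exact hZJ ((mem_XX_xS isType_F4 (by decide +kernel)).2 ⟨t, rfl⟩)
      · exact hJ k hk t
    · rw [hφ']
      refine act_y h2 hs hk hgQ tgen13 tgen27 tgen33 m13 m27 m33 mY ?_ ?_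
      · exact fun a ha y hy => (tinv a ha).conj_mem isType_F4.inList h2 1 hy
      · intro a ha z hz
        rw [L0_comm' HV (hL0 a ha 1) (Subgroup.mem_sup_left hz), mul_inv_cancel_right]
        exact hz
  have free2 : ∀ r ∈ UG isType_F4.inList K sh6, y * r * y⁻¹ * r⁻¹ ∈ (⊥ : Subgroup ↥(chevF4.group K)) →
      r ∈ (⊥ : Subgroup ↥(chevF4.group K)) := by
    have hC' : C2 (⊥ : Subgroup ↥(chevF4.group K)) (UG isType_F4.inList K sh6) := by
      refine ⟨bot_le, fun z hz g hg => ?_, fun a ha b hb => ?_⟩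
      · rw [Subgroup.mem_bot.1 hz, one_mul, mul_one]
      · rw [Subgroup.mem_bot, commutatorElement_eq_one_iff_mul_comm]
        exact V_central h2 ha (V_le hb)
    obtain ⟨A, hA, π, hs, hk⟩ := exists_quot hC'
    have hgQ' : ∀ s ∈ sh6, ∀ t : K, xS isType_F4.inList s t ∈ UG isType_F4.inList K sh6 := fun s hs t =>
      xS_mem_UG _ hs t
    refine free_of_act h2 hs hk hgQ' bot_le ?_ (x := y) (M' := [3, 6, 7, 56, 48, 24]) ?_ cY'
    · intro J hZJ hJ
      exact UG_le _ fun k hk t => hJ k hk t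
    · rw [hφ']
      refine act_y h2 hs hk hgQ' tgen13' tgen27' tgen33' m13' m27' m33' mY' ?_ ?_
      · exact fun a ha y hy => (tinv' a ha).conj_mem isType_F4.inList h2 1 hy
      · intro a ha z hz
        rw [Subgroup.mem_bot.1 hz, mul_one, mul_inv_cancel]
        exact one_mem _
  have hinvG : ∀ b ∈ UG isType_F4.inList K G13, y * b * y⁻¹ ∈ UG isType_F4.inList K G13 := by
    have h1 : y ∈ UG isType_F4.inList K [33, 27, 13] := by
      rw [hφ]
      exact mul_mem (mul_mem (xS_mem_UG _ (by decide) 1) (xS_mem_UG _ (by decide) 1)) (xS_mem_UG _ (by decide) 1)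
    exact UG_conjE isType_F4.inList h2 h1 tinv
  have hinvV : ∀ b ∈ UG isType_F4.inList K sh6, y * b * y⁻¹ ∈ UG isType_F4.inList K sh6 := by
    have h1 : y ∈ UG isType_F4.inList K [33, 27, 13] := by
      rw [hφ]
      exact mul_mem (mul_mem (xS_mem_UG _ (by decide) 1) (xS_mem_UG _ (by decide) 1)) (xS_mem_UG _ (by decide) 1)
    exact UG_conjE isType_F4.inList h2 h1 tinv'
  have hH : Heis y (UG isType_F4.inList K G13) (XX chevF4 4 K (vec chevF4 4 47)) :=
    ⟨hC.le, hC.cen, fun a ha b hb => hC.com a ha b hb, HM.norm_of_conj hinvG,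
      fun z hz => L0_comm' HV hyL0 (Subgroup.mem_sup_left hz), free1⟩
  -- commutators
  have h26 : vec chevF4 4 26 ∈ SS LgL := ⟨26, by decide, rfl⟩
  have hu26 : xS isType_F4.inList 26 (1 : K) ∈ XX chevF4 4 K (vec chevF4 4 26) :=
    (mem_XX_xS isType_F4 (by decide +kernel)).2 ⟨1, rfl⟩
  have hu1 : xS isType_F4.inList 26 (1 : K) ≠ 1 := fun h0 =>
    one_ne_zero (xS_eq_one isType_F4.inList (by decide +kernel) h0)
  have hcomm : ∀ z ∈ XX chevF4 4 K (vec chevF4 4 47), ∃ a ∈ UG isType_F4.inList K G13,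
      ∃ b ∈ UG isType_F4.inList K G13, z = a * b * a⁻¹ * b⁻¹ := by
    intro z hz
    obtain ⟨v, hv, e⟩ := HV.sur _ h26 _ hu26 hu1 z hz
    rw [sub26] at hv
    exact ⟨_, X_le (by decide) hu26, v, X_le (by decide) hv, e.symm⟩
  have hna : ¬ ∀ a ∈ UG isType_F4.inList K G13, ∀ b ∈ UG isType_F4.inList K G13, a * b = b * a := by
    intro hab
    obtain ⟨a, ha, b, hb, e⟩ := hcomm (xS isType_F4.inList 47 1)
      ((mem_XX_xS isType_F4 (by decide +kernel)).2 ⟨1, rfl⟩)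
    rw [hab a ha b hb] at e
    have e1 : xS isType_F4.inList 47 (1 : K) = 1 := by rw [e]; group
    exact one_ne_zero (xS_eq_one isType_F4.inList (by decide +kernel) e1)
  obtain ⟨m, hm, hmX⟩ := exists_refl R hr
  have hcjr : Cfsg.Agent.Nodes.Reps.cj m (XX chevF4 4 K (vec chevF4 4 47)) = XX chevF4 4 K (-vec chevF4 4 47) := by
    rw [hmX _ hr, cpr_self cs isType_F4.isCartan hr]
    congr 1
    rw [two_smul, sub_add_cancel_left]
  -- the opposite root elements
  have hopp : ∀ H : Subgroup ↥(chevF4.group K), HM.cj m (UG isType_F4.inList K G13) ≤ H →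
      ∀ b ∈ N13, ∀ t : K, xS isType_F4.inList b t ∈ H := by
    intro H hH b hb t
    obtain ⟨a, ha, c, hc, hv⟩ := trefl b hb
    exact refl_mem cs hmX hH (tG48 a ha) (tN48 b hb) hc hv (fun s => xS_mem_UG _ ha s) t
  have n648 : ∀ b ∈ n6, b < 48 := by decide +kernel
  have key := HM.heis_V (p := 7) (k := 1) (m := m) (V := UG isType_F4.inList K sh6) (by norm_num) hy7 hH
    (L0_comm' HV hyL0 hm).symm hcomm V_le (fun v hv g hg => V_central h2 hv hg) hinvV ?_ hna ?_ ?_ ?_ ?_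
  · exact key
  · intro v hv hz
    refine Subgroup.mem_bot.1 (free2 v hv ?_)
    rw [Subgroup.mem_bot, L0_comm' HV hyL0 (Subgroup.mem_sup_left hz)]
    group
  · intro H hH' z hz hz1 hzH
    have hz' : z ∈ XX chevF4 4 K (-vec chevF4 4 47) := by rw [← hcjr]; exact hz
    obtain ⟨m', hm', hmX'⟩ := exists_refl_elt R hr hz' hz1
    have hmH : m' ∈ H := (sup_le (hC.le.trans hH') (by rwa [Subgroup.zpowers_le])) hm'
    refine top_of tall1 fun b hb t => ?_
    rcases List.mem_append.1 hb with hb | hb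
    · exact hH' (xS_mem_UG _ hb t)
    · obtain ⟨a, ha, c, hc, hv⟩ := trefl b hb
      refine refl_mem cs hmX' (H' := H) ?_ (tG48 a ha) (tN48 b hb) hc hv (fun s => hH' (xS_mem_UG _ ha s)) t
      rintro _ ⟨u, hu, rfl⟩
      exact mul_mem (mul_mem hmH hu) (inv_mem hmH)
  · intro H hH' z hz hz1 hzH
    have hz' : z ∈ XX chevF4 4 K (-(-vec chevF4 4 47)) := by rwa [neg_neg]
    obtain ⟨m', hm', hmX'⟩ := exists_refl_elt R hr.neg hz' hz1
    have hop := hopp H hH'
    have hX0 : XX chevF4 4 K (-vec chevF4 4 47) ≤ H := by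
      rw [neg47]
      intro u hu
      obtain ⟨s, rfl⟩ := (mem_XX_xS isType_F4 (by decide +kernel)).1 hu
      exact hop 0 (by decide) s
    have hmH : m' ∈ H := (sup_le hX0 (by rwa [Subgroup.zpowers_le])) hm'
    have hmX'' : ∀ s, IsRoot cs isType_F4.isCartan s → Cfsg.Agent.Nodes.Reps.cj m' (XX chevF4 4 K s) =
      XX chevF4 4 K (s - cpr cs isType_F4.isCartan s (vec chevF4 4 47) • vec chevF4 4 47) := by
      intro s hs
      rw [hmX' s hs, cpr_neg_right cs isType_F4.isCartan _ hr]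
      congr 1
      rw [smul_neg, neg_smul, neg_neg]
    refine top_of tall1 fun b hb t => ?_
    rcases List.mem_append.1 hb with hb | hb
    · obtain ⟨a, ha, c, hc, hv⟩ := trefl' b hb
      refine refl_mem cs hmX'' (H' := H) ?_ (tN48 a ha) (tG48 b hb) hc hv (fun s => hop a ha s) t
      rintro _ ⟨u, hu, rfl⟩
      exact mul_mem (mul_mem hmH hu) (inv_mem hmH)
    · exact hop b hb t
  · intro H hH' hV
    refine top_of tall2 fun b hb t => ?_
    rcases List.mem_append.1 hb with hb | hb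
    · exact hH' (xS_mem_UG _ hb t)
    · obtain ⟨a, ha, c, hc, hv⟩ := tn6 b hb
      exact refl_mem cs hmX hV (tsh48 a ha) (n648 b hb) hc hv (fun s => xS_mem_UG _ ha s) t
  · intro H hH' hV
    refine top_of tall3 fun b hb t => ?_
    rcases List.mem_append.1 hb with hb | hb
    · exact hopp H hH' b hb t
    · exact hV (xS_mem_UG _ hb t)

end Main

/-- **`F₄(q)`, `q` even, `p = 7`.** -/
theorem row_seven {K : Type u} [Field K] [Finite K] [CharP K 2] : FprRow (7 + 1) 1 7 ↥(chevF4.group K) := by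
  have := Fintype.ofFinite K
  have h2 : (2 : K) = 0 := by
    have := CharP.cast_eq_zero K 2
    exact_mod_cast this
  obtain ⟨φ, hφ⟩ := exists_phi (K := K) h2
  have hU := uGood_seven hφ
  intro H hH
  obtain ⟨m, -, hm⟩ := (Nat.dvd_prime_pow (by norm_num : Nat.Prime 7)).1
    (orderOf_dvd_of_pow_eq_one (show (φ Y2) ^ 7 ^ 1 = 1 by rw [pow_one, ← map_pow, Y2_seven, map_one]))
  exact ⟨φ Y2, ⟨m, hm⟩, hU H hH⟩

/-- **`F₄(q)`, `q` even, `p = 3`.** -/
theorem row_three {K : Type u} [Field K] [Finite K] [CharP K 2] : FprRow (3 + 1) 1 3 ↥(chevF4.group K) := by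
  have := Fintype.ofFinite K
  have h2 : (2 : K) = 0 := by
    have := CharP.cast_eq_zero K 2
    exact_mod_cast this
  obtain ⟨φ, hφ⟩ := exists_phi (K := K) h2
  have hU := uGood_seven hφ
  have hfin : Finite ↥(chevF4.group K) := inferInstance
  have hne : φ Y2 ≠ 1 := by
    intro h0
    have h3 := hU ⊥ (by
      intro h4
      have h5 : xS isType_F4.inList 26 (1 : K) ∈ (⊤ : Subgroup ↥(chevF4.group K)) := trivial
      rw [← h4, Subgroup.mem_bot] at h5
      exact one_ne_zero (xS_eq_one isType_F4.inList (by decide +kernel) h5))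
    have h6 : MulAction.fixedBy (↥(chevF4.group K) ⧸ (⊥ : Subgroup ↥(chevF4.group K))) (φ Y2) = Set.univ := by
      rw [h0]
      ext z
      simp
    rw [h6] at h3
    have h7 : Nat.card (Set.univ : Set (↥(chevF4.group K) ⧸ (⊥ : Subgroup ↥(chevF4.group K)))) =
        Nat.card (↥(chevF4.group K) ⧸ (⊥ : Subgroup ↥(chevF4.group K))) := Nat.card_congr (Equiv.Set.univ _)
    rw [h7] at h3
    have h8 : 0 < Nat.card (↥(chevF4.group K) ⧸ (⊥ : Subgroup ↥(chevF4.group K))) := Nat.card_pos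
    omega
  have h7 : (φ Y2) ^ 7 = 1 := by rw [← map_pow, Y2_seven, map_one]
  have ho : orderOf (φ Y2) = 7 := by
    have : Fact (Nat.Prime 7) := ⟨by norm_num⟩
    exact orderOf_eq_prime h7 hne
  have hc : φ Z2 * φ Y2 * (φ Z2)⁻¹ = φ Y2 ^ 2 := by
    rw [← map_inv, ← map_mul, ← map_mul, Z2_conj, map_pow]
  have hf := Cfsg.Agent.H398.FPR.freeOn_zpowers (by norm_num : Nat.Prime 7) ho hc (by
    intro h3
    have h4 : φ Z2 * φ Y2 * (φ Z2)⁻¹ = φ Y2 := by rw [h3]; group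
    rw [h4, pow_two] at hc
    exact hne (left_eq_mul.1 hc))
  have hU3 := Cfsg.Agent.H398.FPR.three_of_seven ho hf hU
  intro H hH
  obtain ⟨m, -, hm⟩ := (Nat.dvd_prime_pow Nat.prime_three).1
    (orderOf_dvd_of_pow_eq_one (show (φ Z2) ^ 3 ^ 1 = 1 by rw [pow_one, ← map_pow, Z2_three, map_one]))
  exact ⟨φ Z2, ⟨m, hm⟩, hU3 H hH⟩

end Cfsg.Agent.H435.Fpr.F4S
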