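import Cfsg.Agent.H435.Fpr.LinTwo

/-!
# Linear groups over the field with two elements, 2: duality, fixed vectors, the uniform bound
-/

set_option autoImplicit false
open Subgroup MulAction

namespace Cfsg.Agent.H435.Fpr

open Cfsg.Agent.H398.FPR Cfsg.Agent.H110.Fpr Cfsg.Agent.H221.PP Cfsg.Agent.H409
open Module (Dual finrank)

section

variable {F : Type*} [Field F] {V : Type*} [AddCommGroup V] [Module F V]
variable {A B : Submodule F V} {x : SpecialLinearGroup F V}

/-- the contragredient representation -/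
def dHom [FiniteDimensional F V] :
    SpecialLinearGroup F V →* SpecialLinearGroup F (Dual F V) where
  toFun g := SpecialLinearGroup.dualMap g⁻¹
  map_one' := by
    apply ext'
    intro χ
    rw [inv_one]
    rfl
  map_mul' g g' := by
    apply ext'
    intro χ
    rw [mul_inv_rev]
    rfl

theorem dHom_apply [FiniteDimensional F V] (g : SpecialLinearGroup F V) (χ : Dual F V) (v : V) :
    (dHom g χ : Dual F V) v = χ (g⁻¹ v) := rfl

theorem eq_of_dual {v w : V} (h : ∀ χ : Dual F V, χ v = χ w) : v = w := by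
  by_contra hne
  have h1 : v - w ∉ (⊥ : Submodule F V) := by
    rw [Submodule.mem_bot, sub_eq_zero]
    exact hne
  obtain ⟨χ, h2, -⟩ := exists_fun h1
  rw [map_sub, h χ, sub_self] at h2
  exact zero_ne_one h2

theorem dHom_injective [FiniteDimensional F V] :
    Function.Injective (dHom : SpecialLinearGroup F V →* SpecialLinearGroup F (Dual F V)) := by
  intro g g' h
  have h1 : g⁻¹ = g'⁻¹ := by
    apply ext'
    intro v
    apply eq_of_dual (F := F)
    intro χ
    rw [← dHom_apply, h, dHom_apply]
  exact inv_injective h1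

theorem mem_of_ann {v : V} (h : ∀ χ : Dual F V, (∀ b ∈ B, χ b = 0) → χ v = 0) : v ∈ B := by
  by_contra hv
  obtain ⟨χ, h1, h2⟩ := exists_fun hv
  rw [h χ h2] at h1
  exact zero_ne_one h1

theorem radL_ann_le [FiniteDimensional F V] {H : Subgroup (SpecialLinearGroup F V)}
    (hB : radL B ≤ H) : radL B.dualAnnihilator ≤ H.map dHom := by
  apply radL_le
  intro Λ φ hφ hΛ
  obtain ⟨w, hw⟩ : ∃ w : V, w = (Module.evalEquiv F V).symm Λ := ⟨_, rfl⟩
  have hwa : ∀ χ : Dual F V, χ w = Λ χ := fun χ => by
    rw [hw]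
    exact Module.apply_evalEquiv_symm_apply F V χ Λ
  have hφB : ∀ b ∈ B, φ b = 0 := (Submodule.mem_dualAnnihilator _).1 hφ
  have hwB : w ∈ B := mem_of_ann fun χ hχ => by
    rw [hwa]
    exact hΛ χ ((Submodule.mem_dualAnnihilator _).2 hχ)
  refine ⟨(tv φ w (hφB w hwB))⁻¹, H.inv_mem (hB (tv_mem_radL hwB hφB _)), ?_⟩
  apply ext'
  intro χ
  apply LinearMap.ext
  intro v
  rw [dHom_apply, inv_inv, tv_apply, tv_apply, map_add, map_smul, hwa, LinearMap.add_apply,
    LinearMap.smul_apply, smul_eq_mul, smul_eq_mul, mul_comm]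

theorem map_radL [FiniteDimensional F V] : (radL B).map dHom = radL B.dualAnnihilator := by
  apply le_antisymm
  · rintro _ ⟨g, hg, rfl⟩
    have hg' := (radL B).inv_mem hg
    refine ⟨fun χ hχ => ?_, fun χ => (Submodule.mem_dualAnnihilator _).2 fun b hb => ?_⟩
    · apply LinearMap.ext
      intro v
      rw [dHom_apply]
      have h1 := (Submodule.mem_dualAnnihilator _).1 hχ _ (hg'.2 v)
      rw [map_sub, sub_eq_zero] at h1
      exact h1
    · rw [LinearMap.sub_apply, dHom_apply, hg'.1 b hb, sub_self]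
  · exact radL_ann_le le_rfl

theorem finrank_ann [FiniteDimensional F V] (h : IsCompl A B) :
    finrank F B.dualAnnihilator = finrank F A := by
  have e1 := Submodule.finrank_add_eq_of_isCompl h
  have e2 := Subspace.finrank_add_finrank_dualAnnihilator_eq B
  omega

theorem LX.dual [Finite F] [Finite V] [FiniteDimensional F V] (h : LX A B x) :
    LX B.dualAnnihilator A.dualAnnihilator (dHom x) where
  compl := by
    constructor
    · rw [Submodule.disjoint_def]
      intro χ h1 h2
      exact ann_eq h.compl ((Submodule.mem_dualAnnihilator _).1 h2)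
        ((Submodule.mem_dualAnnihilator _).1 h1)
    · rw [codisjoint_iff, eq_top_iff]
      intro χ _
      have e1 : χ = χ ∘ₗ A.projection B h.compl + χ ∘ₗ B.projection A h.compl.symm := by
        apply LinearMap.ext
        intro v
        obtain ⟨a, ha, b, hb, rfl⟩ := compl_dec h.compl v
        simp only [LinearMap.add_apply, LinearMap.comp_apply, map_add,
          Submodule.projection_apply_of_mem_left h.compl ha,
          Submodule.projection_apply_of_mem_left h.compl.symm hb,
          Submodule.projection_apply_of_mem_right h.compl hb,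
          Submodule.projection_apply_of_mem_right h.compl.symm ha, map_zero, add_zero, zero_add]
      rw [e1]
      refine Submodule.add_mem_sup ((Submodule.mem_dualAnnihilator _).2 fun b hb => ?_)
        ((Submodule.mem_dualAnnihilator _).2 fun a ha => ?_)
      · simp only [LinearMap.comp_apply, Submodule.projection_apply_of_mem_right h.compl hb,
          map_zero]
      · simp only [LinearMap.comp_apply, Submodule.projection_apply_of_mem_right h.compl.symm ha,
          map_zero]
  xA := by
    intro χ hχ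
    refine (Submodule.mem_dualAnnihilator _).2 fun b hb => ?_
    rw [dHom_apply, h.xinvB b hb]
    exact (Submodule.mem_dualAnnihilator _).1 hχ b hb
  xB := by
    intro χ hχ
    have hχ' := (Submodule.mem_dualAnnihilator _).1 hχ
    apply LinearMap.ext
    intro v
    obtain ⟨a, ha, b, hb, rfl⟩ := compl_dec h.compl v
    rw [dHom_apply, app_add, map_add, map_add, h.xinvB b hb, hχ' a ha, hχ' _ (h.xinvA a ha)]
  fpf := by
    intro χ hχ hx
    refine ann_eq h.compl (fun a ha => ?_) ((Submodule.mem_dualAnnihilator _).1 hχ)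
    obtain ⟨a', ha', rfl⟩ := h.surj a ha
    have h1 := LinearMap.congr_fun hx (x a')
    rw [dHom_apply, inv_app_app] at h1
    rw [map_sub, h1, sub_self]
  irr := by
    intro T hT hTx
    -- `T` is invariant under `χ ↦ χ ∘ x`
    have hfinT : Finite (Dual F V) := Module.finite_of_finite F
    have h1 : ∀ φ ∈ T, φ ∘ₗ (x.1 : V →ₗ[F] V) ∈ T := by
      let f : T → T := fun χ => ⟨dHom x χ, hTx χ χ.2⟩
      have hf : Function.Injective f := fun χ χ' hχ =>
        Subtype.ext (app_inj (dHom x) (congrArg Subtype.val hχ))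
      intro φ hφ
      obtain ⟨χ, hχ⟩ := Finite.surjective_of_injective hf ⟨φ, hφ⟩
      have h2 : dHom x χ = φ := congrArg Subtype.val hχ
      have h3 : φ ∘ₗ (x.1 : V →ₗ[F] V) = χ := by
        apply LinearMap.ext
        intro v
        show φ (x v) = _
        rw [← h2, dHom_apply, inv_app_app]
      rw [h3]
      exact χ.2
    rcases h.dual_irr (E := T) (fun φ hφ => (Submodule.mem_dualAnnihilator _).1 (hT hφ)) h1 with
      h2 | h2
    · exact Or.inl h2
    · right
      apply le_antisymm hT
      intro φ hφ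
      exact h2 φ ((Submodule.mem_dualAnnihilator _).1 hφ)

/-- **The dual result**: `H` fixes a vector. -/
theorem LX.fix_vec [Finite F] [Finite V] [FiniteDimensional F V] [CharP F 2] (h : LX A B x)
    (h2 : Nat.card F = 2) {H : Subgroup (SpecialLinearGroup F V)} (hH : H ≠ ⊤) (hxH : x ∈ H)
    (hA0 : A ≠ ⊥) (hB0 : B ≠ ⊥)
    (hB : radL B ≤ H) (hidx : H.relIndex (radL A) ≤ Nat.card A)
    (hk2 : 2 ≤ finrank F A) :
    ∃ v : V, v ≠ 0 ∧ ∀ g ∈ H, g v = v := by
  have hfinT : Finite (Dual F V) := Module.finite_of_finite F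
  have f1 := finrank_ann h.compl
  have f2 := finrank_ann h.compl.symm
  have hpos : ∀ (W : Submodule F (Dual F V)) (W' : Submodule F V), finrank F W = finrank F W' →
      W' ≠ ⊥ → W ≠ ⊥ := by
    rintro W W' hW hW' rfl
    rw [finrank_bot, eq_comm, Submodule.finrank_eq_zero] at hW
    exact hW' hW
  have hH' : H.map (dHom : SpecialLinearGroup F V →* SpecialLinearGroup F (Dual F V)) ≠ ⊤ := by
    intro h1
    apply hH
    rw [eq_top_iff]
    intro g _
    have h3 : dHom g ∈ H.map dHom := by rw [h1]; trivial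
    obtain ⟨g', hg', h4⟩ := h3
    rw [← dHom_injective h4]
    exact hg'
  obtain ⟨Λ, hΛ0, hΛ⟩ := h.dual.fix_dual h2 hH' ⟨x, hxH, rfl⟩ (hpos _ _ f1 hA0)
    (hpos _ _ f2 hB0) (radL_ann_le hB) (by
      rw [← map_radL, relIndex_map_map_of_injective _ _ dHom_injective,
        Module.natCard_eq_pow_finrank (K := F) (V := B.dualAnnihilator), f1,
        ← Module.natCard_eq_pow_finrank (K := F) (V := A)]
      exact hidx) (by rw [f1]; exact hk2)
  obtain ⟨w, hw⟩ : ∃ w : V, w = (Module.evalEquiv F V).symm Λ := ⟨_, rfl⟩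
  have hwa : ∀ χ : Dual F V, χ w = Λ χ := fun χ => by
    rw [hw]
    exact Module.apply_evalEquiv_symm_apply F V χ Λ
  refine ⟨w, ?_, fun g hg => ?_⟩
  · rintro rfl
    apply hΛ0
    apply LinearMap.ext
    intro χ
    rw [← hwa, map_zero]
    rfl
  · apply eq_of_dual (F := F)
    intro χ
    have h3 := hΛ (dHom g⁻¹) ⟨g⁻¹, H.inv_mem hg, rfl⟩ χ
    rw [← hwa, ← hwa, dHom_apply, inv_inv] at h3
    exact h3

/-- the number of fixed points, vectors -/
theorem ratio_vec [Finite V] [FiniteDimensional F V] (h : LX A B x) (hd : 2 ≤ finrank F V)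
    {H : Subgroup (SpecialLinearGroup F V)} {v0 : V} (hv0 : v0 ≠ 0)
    (hfix : ∀ g ∈ H, g v0 = v0) :
    Nat.card A * Nat.card (fixedBy (SpecialLinearGroup F V ⧸ H) x) ≤
      Nat.card (SpecialLinearGroup F V ⧸ H) := by
  have hfin0 : Finite (V ≃ₗ[F] V) := instFin
  have hfin : Finite (SpecialLinearGroup F V) := inferInstance
  have hne : ∀ (g : SpecialLinearGroup F V) (v : V), v ≠ 0 → g v ≠ 0 := by
    intro g v hv h1
    rw [← app_zero g] at h1
    exact hv (app_inj g h1)
  let act : MulAction (SpecialLinearGroup F V) {v : V // v ≠ 0} :=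
    { smul := fun g v => ⟨g v, hne g v v.2⟩
      one_smul := fun v => rfl
      mul_smul := fun g g' v => rfl }
  have hact : ∀ (g : SpecialLinearGroup F V) (v : {v : V // v ≠ 0}), ((g • v : {v : V // v ≠ 0}) :
      V) = g v := fun _ _ => rfl
  have : IsPretransitive (SpecialLinearGroup F V) {v : V // v ≠ 0} := by
    constructor
    intro v w
    obtain ⟨g, hg⟩ := exists_map hd v.2 w.2
    exact ⟨g, Subtype.ext hg⟩
  have h3 := fix_le_of_map (Ω := SpecialLinearGroup F V ⧸ H) (Ω' := {v : V // v ≠ 0})
    (MonoidHom.id (SpecialLinearGroup F V)) Function.surjective_id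
    (Quotient.lift (fun g : SpecialLinearGroup F V => (⟨g v0, hne g v0 hv0⟩ : {v : V // v ≠ 0}))
      (by
        intro g g' hgg
        have h4 : g⁻¹ * g' ∈ H := QuotientGroup.leftRel_apply.1 hgg
        apply Subtype.ext
        show g v0 = g' v0
        have h5 := hfix _ h4
        have h6 : g ((g⁻¹ * g') v0) = g v0 := by rw [h5]
        rw [← mul_app, mul_inv_cancel_left] at h6
        exact h6.symm)) (by
      intro g ω
      obtain ⟨g', rfl⟩ := QuotientGroup.mk_surjective ω
      rfl) x (a := Nat.card A) (b := 1) (by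
      rw [one_mul]
      have h4 : Nat.card (fixedBy {v : V // v ≠ 0} x) ≤ ((B : Set V) \ {0}).ncard := by
        rw [← Nat.card_coe_set_eq]
        refine Nat.card_le_card_of_injective (fun v : fixedBy {v : V // v ≠ 0} x =>
          (⟨v.1.1, ⟨?_, v.1.2⟩⟩ : ((B : Set V) \ {0} : Set V))) ?_
        · have h5 : x v.1.1 = v.1.1 := congrArg Subtype.val v.2
          obtain ⟨a, ha, b, hb, hab⟩ := compl_dec h.compl v.1.1
          rw [hab, app_add, h.xB b hb, add_left_inj] at h5
          rw [hab, h.fpf a ha h5, zero_add]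
          exact hb
        · intro v w hvw
          have h6 : v.1.1 = w.1.1 :=
            congrArg (fun z : ((B : Set V) \ {0} : Set V) => (z : V)) hvw
          exact Subtype.ext (Subtype.ext h6)
      have h5 : Nat.card {v : V // v ≠ 0} + 1 = Nat.card V := by
        have h6 := Set.ncard_add_ncard_compl ({0} : Set V)
        rw [Set.ncard_singleton, ← Nat.card_coe_set_eq ({0} : Set V)ᶜ] at h6
        rw [← h6, add_comm]
        rfl
      have h6 : ((B : Set V) \ {0}).ncard + 1 = Nat.card B := by
        rw [Set.ncard_sdiff_singleton_add_one B.zero_mem]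
        exact Nat.card_coe_set_eq _
      have h7 : Nat.card V = Nat.card A * Nat.card B := by
        rw [← Nat.card_prod]
        exact (Nat.card_congr (Submodule.prodEquivOfIsCompl A B h.compl).toEquiv).symm
      have h8 : 1 ≤ Nat.card A := Nat.card_pos
      have h9 := Nat.mul_le_mul_left (Nat.card A) h4
      rw [← h6, mul_add, mul_one] at h7
      show Nat.card A * Nat.card (fixedBy {v : V // v ≠ 0} x) ≤ Nat.card {v : V // v ≠ 0}
      omega)
  rw [one_mul] at h3
  exact h3

/-- the number of fixed points, functionals -/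
theorem ratio_dual [Finite F] [Finite V] [FiniteDimensional F V] (h : LX A B x)
    (hd : 2 ≤ finrank F V)
    {H : Subgroup (SpecialLinearGroup F V)} {χ0 : Dual F V} (hχ0 : χ0 ≠ 0)
    (hfix : ∀ g ∈ H, ∀ v, χ0 (g v) = χ0 v) :
    Nat.card A * Nat.card (fixedBy (SpecialLinearGroup F V ⧸ H) x) ≤
      Nat.card (SpecialLinearGroup F V ⧸ H) := by
  have hfin0 : Finite (V ≃ₗ[F] V) := instFin
  have hfin : Finite (SpecialLinearGroup F V) := inferInstance
  have hfinT : Finite (Dual F V) := Module.finite_of_finite F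
  have hne : ∀ (g : SpecialLinearGroup F V) (χ : Dual F V), χ ≠ 0 → dHom g χ ≠ 0 := by
    intro g v hv h1
    rw [← app_zero (dHom g)] at h1
    exact hv (app_inj (dHom g) h1)
  let act : MulAction (SpecialLinearGroup F V) {χ : Dual F V // χ ≠ 0} :=
    { smul := fun g v => ⟨dHom g v, hne g v v.2⟩
      one_smul := fun v => Subtype.ext (by
        show dHom 1 (v : Dual F V) = v
        rw [map_one]
        rfl)
      mul_smul := fun g g' v => Subtype.ext (by
        show dHom (g * g') (v : Dual F V) = dHom g (dHom g' v)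
        rw [map_mul]
        rfl) }
  have : IsPretransitive (SpecialLinearGroup F V) {χ : Dual F V // χ ≠ 0} := by
    constructor
    intro χ χ'
    obtain ⟨g, hg⟩ := exists_map_dual hd χ.2 χ'.2
    refine ⟨g, Subtype.ext ?_⟩
    show dHom g (χ : Dual F V) = χ'
    apply LinearMap.ext
    intro v
    rw [dHom_apply, ← hg, app_inv_app]
  have h3 := fix_le_of_map (Ω := SpecialLinearGroup F V ⧸ H) (Ω' := {χ : Dual F V // χ ≠ 0})
    (MonoidHom.id (SpecialLinearGroup F V)) Function.surjective_id
    (Quotient.lift (fun g : SpecialLinearGroup F V =>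
      (⟨dHom g χ0, hne g χ0 hχ0⟩ : {χ : Dual F V // χ ≠ 0}))
      (by
        intro g g' hgg
        have h4 : g⁻¹ * g' ∈ H := QuotientGroup.leftRel_apply.1 hgg
        apply Subtype.ext
        show dHom g χ0 = dHom g' χ0
        apply LinearMap.ext
        intro v
        rw [dHom_apply, dHom_apply]
        have h5 := hfix _ h4 (g'⁻¹ v)
        rw [← h5, ← mul_app, mul_assoc, mul_inv_cancel, mul_one])) (by
      intro g ω
      obtain ⟨g', rfl⟩ := QuotientGroup.mk_surjective ω
      apply Subtype.ext
      show dHom (g * g') χ0 = dHom g (dHom g' χ0)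
      rw [map_mul]
      rfl) x (a := Nat.card A) (b := 1) (by
      rw [one_mul]
      have h4 : Nat.card (fixedBy {χ : Dual F V // χ ≠ 0} x) ≤
          ((A.dualAnnihilator : Set (Dual F V)) \ {0}).ncard := by
        rw [← Nat.card_coe_set_eq]
        refine Nat.card_le_card_of_injective (fun v : fixedBy {χ : Dual F V // χ ≠ 0} x =>
          (⟨v.1.1, ⟨?_, v.1.2⟩⟩ : ((A.dualAnnihilator : Set (Dual F V)) \ {0} :
            Set (Dual F V)))) ?_
        · have h5 : dHom x v.1.1 = v.1.1 := congrArg Subtype.val v.2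
          apply (Submodule.mem_dualAnnihilator _).2
          intro a ha
          obtain ⟨a', ha', rfl⟩ := h.surj a ha
          have h6 := LinearMap.congr_fun h5 (x a')
          rw [dHom_apply, inv_app_app] at h6
          rw [map_sub, h6, sub_self]
        · intro v w hvw
          have h6 : v.1.1 = w.1.1 :=
            congrArg (fun z : ((A.dualAnnihilator : Set (Dual F V)) \ {0} : Set (Dual F V)) =>
              (z : Dual F V)) hvw
          exact Subtype.ext (Subtype.ext h6)
      have h5 : Nat.card {χ : Dual F V // χ ≠ 0} + 1 = Nat.card V := by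
        have h6 := Set.ncard_add_ncard_compl ({0} : Set (Dual F V))
        rw [Set.ncard_singleton, ← Nat.card_coe_set_eq ({0} : Set (Dual F V))ᶜ] at h6
        rw [Module.natCard_eq_pow_finrank (K := F) (V := V), ← Subspace.dual_finrank_eq,
          ← Module.natCard_eq_pow_finrank (K := F) (V := Dual F V), ← h6, add_comm]
        rfl
      have h6 : ((A.dualAnnihilator : Set (Dual F V)) \ {0}).ncard + 1 = Nat.card B := by
        rw [Set.ncard_sdiff_singleton_add_one A.dualAnnihilator.zero_mem,
          Module.natCard_eq_pow_finrank (K := F) (V := B), ← finrank_ann h.compl.symm,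
          ← Module.natCard_eq_pow_finrank (K := F) (V := A.dualAnnihilator)]
        exact Nat.card_coe_set_eq _
      have h7 : Nat.card V = Nat.card A * Nat.card B := by
        rw [← Nat.card_prod]
        exact (Nat.card_congr (Submodule.prodEquivOfIsCompl A B h.compl).toEquiv).symm
      have h8 : 1 ≤ Nat.card A := Nat.card_pos
      have h9 := Nat.mul_le_mul_left (Nat.card A) h4
      rw [← h6, mul_add, mul_one] at h7
      show Nat.card A * Nat.card (fixedBy {χ : Dual F V // χ ≠ 0} x) ≤
        Nat.card {χ : Dual F V // χ ≠ 0}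
      omega)
  rw [one_mul] at h3
  exact h3

/-- **Two opposite radicals**, `|F| = 2`. -/
theorem LX.uGood_two [Finite V] [FiniteDimensional F V] [Finite F] [CharP F 2] (h : LX A B x)
    (h2 : Nat.card F = 2)
    {p k : ℕ} (hp : p.Prime) (hM : ∀ t : ℕ, t ≠ 0 → 2 ^ t ≡ 1 [MOD p] → 2 ^ k ≤ 2 ^ t)
    (hxp : x ^ p = 1) (hB0 : B ≠ ⊥) (hA : Nat.card A = 2 ^ k)
    (hk2 : 2 ≤ finrank F A) : UGood 1 (2 ^ k) x := by
  have hfin0 : Finite (V ≃ₗ[F] V) := instFin
  have hfin : Finite (SpecialLinearGroup F V) := inferInstance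
  have hA0 : A ≠ ⊥ := by
    rintro rfl
    rw [finrank_bot] at hk2
    omega
  have hd : 2 ≤ finrank F V := by
    have := Submodule.finrank_add_eq_of_isCompl h.compl
    omega
  have hxp' : x ^ p ^ 1 = 1 := by rw [pow_one, hxp]
  have iA : IsPGroup 2 (radL A) := isPGroup_radL A
  have iB : IsPGroup 2 (radL B) := isPGroup_radL B
  have pA := h.freeA.pairM hp Nat.prime_two hxp' iA hM
  have pB := h.freeB.pairM hp Nat.prime_two hxp' iB hM
  have key : ∀ t : ℕ, 2 ^ k < 2 ^ t → 2 * 2 ^ k ≤ 2 ^ t := by
    intro t ht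
    have h1 : k < t := (Nat.pow_lt_pow_iff_right (by norm_num)).1 ht
    rw [← pow_succ']
    exact Nat.pow_le_pow_right (by norm_num) h1
  intro H hH
  rw [one_mul]
  by_cases c1 : ∃ χ : Dual F V, χ ≠ 0 ∧ ∀ g ∈ H, ∀ v, χ (g v) = χ v
  · obtain ⟨χ, hχ0, hχ⟩ := c1
    rw [← hA]
    exact ratio_dual h hd hχ0 hχ
  by_cases c2 : ∃ v : V, v ≠ 0 ∧ ∀ g ∈ H, g v = v
  · obtain ⟨v, hv0, hv⟩ := c2
    rw [← hA]
    exact ratio_vec h hd hv0 hv
  refine two_free_one h.freeA h.freeB fun g hxg => ?_
  obtain ⟨H', hH'⟩ : ∃ H', H' = H.map (MulAut.conj g).toMonoidHom := ⟨_, rfl⟩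
  rw [← hH'] at hxg ⊢
  have hmem : ∀ y ∈ H, g * y * g⁻¹ ∈ H' := by
    intro y hy
    rw [hH']
    exact ⟨y, hy, rfl⟩
  have hH'top : H' ≠ ⊤ := by
    intro h1
    apply hH
    rw [eq_top_iff]
    intro y _
    have h3 : g * y * g⁻¹ ∈ H' := by rw [h1]; trivial
    rw [hH'] at h3
    obtain ⟨y', hy', h4⟩ := h3
    have h5 : y' = y := mul_left_cancel (mul_right_cancel (h4 : g * y' * g⁻¹ = g * y * g⁻¹))
    rw [← h5]
    exact hy'
  by_cases a1 : radL A ≤ H'
  · rcases Nat.lt_or_ge (Nat.card A) (H'.relIndex (radL B)) with h1 | h1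
    · obtain ⟨t, ht⟩ := relIndex_eq_pow Nat.prime_two iB H'
      have h3 := key t (by rw [← ht, ← hA]; exact h1)
      omega
    · exfalso
      obtain ⟨χ, hχ0, hχ⟩ := h.fix_dual h2 hH'top hxg hA0 hB0 a1 h1 hk2
      apply c1
      refine ⟨χ ∘ₗ (g.1 : V →ₗ[F] V), ?_, fun y hy v => ?_⟩
      · intro h3
        apply hχ0
        apply LinearMap.ext
        intro v
        have h4 : χ (g (g⁻¹ v)) = 0 := LinearMap.congr_fun h3 (g⁻¹ v)
        rw [app_inv_app] at h4
        exact h4
      · show χ (g (y v)) = χ (g v)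
        have h3 := hχ _ (hmem y hy) (g v)
        rw [mul_app, mul_app, inv_app_app] at h3
        exact h3
  · by_cases a2 : radL B ≤ H'
    · rcases Nat.lt_or_ge (Nat.card A) (H'.relIndex (radL A)) with h1 | h1
      · obtain ⟨t, ht⟩ := relIndex_eq_pow Nat.prime_two iA H'
        have h3 := key t (by rw [← ht, ← hA]; exact h1)
        omega
      · exfalso
        obtain ⟨v, hv0, hv⟩ := h.fix_vec h2 hH'top hxg hA0 hB0 a2 h1 hk2
        apply c2
        refine ⟨g⁻¹ v, ?_, fun y hy => ?_⟩
        · intro h3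
          apply hv0
          rw [← app_inv_app g v, h3, app_zero]
        · have h3 := hv _ (hmem y hy)
          rw [mul_app, mul_app] at h3
          apply app_inj g
          rw [h3, app_inv_app]
    · have b1 := le_relIndex_of_pairM pA hxg a1
      have b2 := le_relIndex_of_pairM pB hxg a2
      omega

end

end Cfsg.Agent.H435.Fpr
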