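import Cfsg.Agent.H398.FPR.Rad
import Cfsg.Agent.H110.Fpr.SharpL

/-!
# Linear groups in characteristic two: two opposite radicals, free action

`V = A ⊕ B`, `x` is irreducible on `A` and trivial on `B`.
-/

set_option autoImplicit false
open Subgroup MulAction

namespace Cfsg.Agent.H435.Fpr

open Cfsg.Agent.H398.FPR Cfsg.Agent.H110.Fpr Cfsg.Agent.H221.PP
open Module (Dual finrank)

section

variable {F : Type*} [Field F] {V : Type*} [AddCommGroup V] [Module F V]

/-- `x` is irreducible and fixed point free on `A`, trivial on `B`. -/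
structure LX (A B : Submodule F V) (x : SpecialLinearGroup F V) : Prop where
  compl : IsCompl A B
  xA : ∀ v ∈ A, x v ∈ A
  xB : ∀ v ∈ B, x v = v
  fpf : ∀ v ∈ A, x v = v → v = 0
  irr : ∀ T : Submodule F V, T ≤ A → (∀ v ∈ T, x v ∈ T) → T = ⊥ ∨ T = A

theorem compl_dec {A B : Submodule F V} (h : IsCompl A B) (v : V) :
    ∃ a ∈ A, ∃ b ∈ B, v = a + b := by
  have hv : v ∈ A ⊔ B := by rw [h.sup_eq_top]; trivial
  obtain ⟨a, ha, b, hb, h⟩ := Submodule.mem_sup.1 hv
  exact ⟨a, ha, b, hb, h.symm⟩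

theorem compl_eq_zero {A B : Submodule F V} (h : IsCompl A B) {v : V} (h1 : v ∈ A) (h2 : v ∈ B) :
    v = 0 := Submodule.disjoint_def.1 h.disjoint v h1 h2

/-- Elements `1 + N`. -/
theorem exists_radL [FiniteDimensional F V] {A : Submodule F V}
    {H : Subgroup (SpecialLinearGroup F V)}
    (hH : ∀ (φ : Dual F V) (w : V) (hw : w ∈ A) (hφ : ∀ v ∈ A, φ v = 0), tv φ w (hφ w hw) ∈ H)
    (N : V →ₗ[F] V) (h1 : ∀ v ∈ A, N v = 0) (h2 : ∀ v, N v ∈ A) :
    ∃ g ∈ H, ∀ v, g v = v + N v := by
  classical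
  obtain ⟨b, hb⟩ : ∃ b : Module.Basis (Fin (finrank F A)) F A, b = Module.finBasis F A := ⟨_, rfl⟩
  let φ : Fin (finrank F A) → Dual F V := fun i => (b.coord i) ∘ₗ (N.codRestrict A h2)
  have hφ : ∀ i, ∀ v ∈ A, φ i v = 0 := by
    intro i v hv
    show b.coord i (N.codRestrict A h2 v) = 0
    have h3 : N.codRestrict A h2 v = 0 := Subtype.ext (h1 v hv)
    rw [h3, map_zero]
  have key : ∀ s : Finset (Fin (finrank F A)), ∃ g ∈ H, ∀ v,
      g v = v + ∑ i ∈ s, φ i v • (b i : V) := by
    intro s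
    induction s using Finset.induction_on with
    | empty => exact ⟨1, H.one_mem, fun v => by rw [one_app, Finset.sum_empty, add_zero]⟩
    | insert j s hj ih =>
      obtain ⟨g, hg, h⟩ := ih
      refine ⟨tv (φ j) (b j : V) (hφ j _ (b j).2) * g, H.mul_mem (hH _ _ (b j).2 (hφ j)) hg,
        fun v => ?_⟩
      have h4 : φ j (∑ i ∈ s, φ i v • (b i : V)) = 0 := by
        apply hφ
        exact A.sum_mem fun i _ => A.smul_mem _ (b i).2
      rw [mul_app, tv_apply, h, map_add, h4, add_zero, Finset.sum_insert hj]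
      abel
  obtain ⟨g, hg, h⟩ := key Finset.univ
  refine ⟨g, hg, fun v => ?_⟩
  rw [h]
  congr 1
  have h5 := b.sum_repr (N.codRestrict A h2 v)
  have h6 := congrArg Subtype.val h5
  rw [AddSubmonoidClass.coe_finsetSum] at h6
  exact h6

theorem radL_le [FiniteDimensional F V] {A : Submodule F V}
    {H : Subgroup (SpecialLinearGroup F V)}
    (hH : ∀ (φ : Dual F V) (w : V) (hw : w ∈ A) (hφ : ∀ v ∈ A, φ v = 0), tv φ w (hφ w hw) ∈ H) :
    radL A ≤ H := by
  rintro g ⟨g1, g2⟩
  obtain ⟨g', hg', h⟩ := exists_radL hH ((g.1 : V →ₗ[F] V) - LinearMap.id) (by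
    intro v hv
    show g v - v = 0
    rw [g1 v hv, sub_self]) g2
  have h3 : g = g' := by
    apply ext'
    intro v
    rw [h]
    show g v = v + (g v - v)
    abel
  rwa [h3]

theorem ann_eq {A B : Submodule F V} (h : IsCompl A B) {φ : Dual F V} (h1 : ∀ v ∈ A, φ v = 0)
    (h2 : ∀ v ∈ B, φ v = 0) : φ = 0 := by
  ext v
  obtain ⟨a, ha, b, hb, rfl⟩ := compl_dec h v
  rw [map_add, h1 a ha, h2 b hb, add_zero]
  rfl

variable {A B : Submodule F V} {x : SpecialLinearGroup F V}

theorem LX.surj [Finite V] (h : LX A B x) : ∀ v ∈ A, ∃ v' ∈ A, x v' - v' = v := by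
  let f : A → A := fun v => ⟨x v - v, A.sub_mem (h.xA v v.2) v.2⟩
  have hf : Function.Injective f := by
    intro v v' hv
    have h1 : x v - v = x v' - v' := congrArg Subtype.val hv
    have h2 := h.fpf (v - v' : V) (A.sub_mem v.2 v'.2) (by
      rw [app_sub, sub_eq_sub_iff_add_eq_add]
      rw [sub_eq_sub_iff_add_eq_add] at h1
      rw [h1]; abel)
    exact Subtype.ext (sub_eq_zero.1 h2)
  intro v hv
  obtain ⟨v', hv'⟩ := Finite.surjective_of_injective hf ⟨v, hv⟩
  exact ⟨v', v'.2, congrArg Subtype.val hv'⟩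

theorem LX.xinvA [Finite V] (h : LX A B x) : ∀ v ∈ A, x⁻¹ v ∈ A := by
  let f : A → A := fun v => ⟨x v, h.xA v v.2⟩
  have hf : Function.Injective f := fun v v' hv => Subtype.ext (app_inj x (congrArg Subtype.val hv))
  intro v hv
  obtain ⟨v', hv'⟩ := Finite.surjective_of_injective hf ⟨v, hv⟩
  have h1 : x v' = v := congrArg Subtype.val hv'
  rw [← h1, inv_app_app]
  exact v'.2

theorem LX.xinvB (h : LX A B x) : ∀ v ∈ B, x⁻¹ v = v := by
  intro v hv
  apply app_inj x
  rw [app_inv_app, h.xB v hv]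

theorem LX.freeA [Finite V] (h : LX A B x) : FreeOn x (radL A) := by
  have hfin0 : Finite (V ≃ₗ[F] V) := instFin
  have hfin : Finite (SpecialLinearGroup F V) := inferInstance
  constructor
  · exact mem_normalizer_of_conj (radL_conj h.xA h.xinvA)
  · rintro g ⟨g1, g2⟩ hc
    have hcomm : ∀ v, x (g v) = g (x v) := by
      intro v
      have h4 : x * g = g * x := by rwa [mul_inv_eq_iff_eq_mul] at hc
      rw [← mul_app, h4, mul_app]
    apply ext'
    intro v
    obtain ⟨a, ha, b, hb, rfl⟩ := compl_dec h.compl v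
    have h1 : g b - b = 0 := h.fpf _ (g2 b) (by rw [app_sub, hcomm, h.xB b hb])
    rw [app_add, g1 a ha, sub_eq_zero.1 h1, one_app]

theorem LX.freeB [Finite V] (h : LX A B x) : FreeOn x (radL B) := by
  have hfin0 : Finite (V ≃ₗ[F] V) := instFin
  have hfin : Finite (SpecialLinearGroup F V) := inferInstance
  constructor
  · refine mem_normalizer_of_conj (radL_conj (fun v hv => ?_) (fun v hv => ?_))
    · rw [h.xB v hv]; exact hv
    · rw [h.xinvB v hv]; exact hv
  · rintro g ⟨g1, g2⟩ hc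
    have hcomm : ∀ v, x (g v) = g (x v) := by
      intro v
      have h4 : x * g = g * x := by rwa [mul_inv_eq_iff_eq_mul] at hc
      rw [← mul_app, h4, mul_app]
    apply ext'
    intro v
    obtain ⟨a, ha, b, hb, rfl⟩ := compl_dec h.compl v
    obtain ⟨a', ha', rfl⟩ := h.surj a ha
    have h1 : g (x a') = x a' + (g a' - a') := by
      have h2 : g a' = a' + (g a' - a') := by abel
      rw [← hcomm]
      conv_lhs => rw [h2]
      rw [app_add, h.xB _ (g2 a')]
    rw [app_add, app_sub, g1 b hb, h1, one_app]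
    abel

/-- Irreducibility on the functionals. -/
theorem LX.dual_irr [FiniteDimensional F V] (h : LX A B x) {E : Submodule F (Dual F V)}
    (h1 : ∀ φ ∈ E, ∀ b ∈ B, φ b = 0)
    (h2 : ∀ φ ∈ E, φ ∘ₗ (x.1 : V →ₗ[F] V) ∈ E) :
    E = ⊥ ∨ ∀ φ : Dual F V, (∀ b ∈ B, φ b = 0) → φ ∈ E := by
  obtain ⟨T, hT⟩ : ∃ T : Submodule F V, T = A ⊓ E.dualCoannihilator := ⟨_, rfl⟩
  have hTm : ∀ v, v ∈ T ↔ v ∈ A ∧ ∀ φ ∈ E, φ v = 0 := by
    intro v
    rw [hT, Submodule.mem_inf, Submodule.mem_dualCoannihilator]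
  rcases h.irr T (by rw [hT]; exact inf_le_left) (by
    intro v hv
    rw [hTm] at hv ⊢
    exact ⟨h.xA v hv.1, fun φ hφ => hv.2 _ (h2 φ hφ)⟩) with h3 | h3
  · right
    intro φ hφ
    have h4 : E.dualCoannihilator = B := by
      ext v
      rw [Submodule.mem_dualCoannihilator]
      constructor
      · intro hv
        obtain ⟨a, ha, b, hb, rfl⟩ := compl_dec h.compl v
        have h5 : a ∈ T := by
          rw [hTm]
          refine ⟨ha, fun ψ hψ => ?_⟩
          have h6 := hv ψ hψ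
          rwa [map_add, h1 ψ hψ b hb, add_zero] at h6
        rw [h3, Submodule.mem_bot] at h5
        rw [h5, zero_add]
        exact hb
      · intro hv ψ hψ
        exact h1 ψ hψ v hv
    have h5 : E.dualCoannihilator.dualAnnihilator = E :=
      Subspace.dualCoannihilator_dualAnnihilator_eq
    rw [← h5, h4, Submodule.mem_dualAnnihilator]
    exact hφ
  · left
    rw [eq_bot_iff]
    intro φ hφ
    rw [Submodule.mem_bot]
    apply ann_eq h.compl _ (h1 φ hφ)
    intro v hv
    rw [← h3, hTm] at hv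
    exact hv.2 φ hφ

/-- Interchanging two opposite root groups. -/
theorem swap_mem [CharP F 2] {φ χ : Dual F V} {u w : V} (φu : φ u = 1) (χw : χ w = 1)
    (φw : φ w = 0) (χu : χ u = 0) {H : Subgroup (SpecialLinearGroup F V)}
    (h1 : tv φ w φw ∈ H) (h2 : tv χ u χu ∈ H) {c : F} (h3 : χ (c • u) = 0) (h4 : φ (c • w) = 0)
    (h : tv χ (c • u) h3 ∈ H) : tv φ (c • w) h4 ∈ H := by
  have h2F : (2 : F) = 0 := by
    have := CharP.cast_eq_zero F 2
    exact_mod_cast this
  have h5 : (φ + χ) (u + w) = 0 := by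
    rw [LinearMap.add_apply, map_add, map_add, φu, χw, φw, χu]
    linear_combination h2F
  have e1 : tv χ u χu * tv φ w φw * tv χ u χu = tv (φ + χ) (u + w) h5 := by
    apply ext'
    intro v
    simp only [mul_app, tv_apply, map_add, map_smul, φu, χw, φw, χu, LinearMap.add_apply,
      smul_eq_mul]
    have e2 : v + χ v • u + φ v • (w + (1 : F) • u) +
        χ v • (u + (0 : F) • u + (1 : F) • (w + (1 : F) • u)) =
        v + (φ v + χ v) • (u + w) + (2 : F) • (χ v • u) := by module
    rw [e2, h2F, zero_smul, add_zero]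
  have hn : tv (φ + χ) (u + w) h5 ∈ H := by
    rw [← e1]
    exact H.mul_mem (H.mul_mem h2 h1) h2
  have e2 : tv (φ + χ) (u + w) h5 * tv χ (c • u) h3 * (tv (φ + χ) (u + w) h5)⁻¹ =
      tv φ (c • w) h4 := by
    apply conj_tv
    · intro v
      rw [tv_apply, map_add, map_smul, map_add, φu, φw, LinearMap.add_apply, smul_eq_mul]
      linear_combination (φ v) * h2F
    · rw [tv_apply, LinearMap.add_apply, map_smul, map_smul, φu, χu, smul_eq_mul, smul_eq_mul]
      have e3 : c • u + (c * 1 + c * 0) • (u + w) = c • w + (2 : F) • (c • u) := by module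
      rw [e3, h2F, zero_smul, add_zero]
  rw [← e2]
  exact H.mul_mem (H.mul_mem hn h) (H.inv_mem hn)

/-- the root group of the vector `w ∈ B` -/
def rootW (B : Submodule F V) (w : V) (hw : w ∈ B) : Subgroup (SpecialLinearGroup F V) where
  carrier := {g | ∃ φ : Dual F V, (∀ b ∈ B, φ b = 0) ∧ ∀ v, g v = v + φ v • w}
  mul_mem' := by
    rintro g g' ⟨φ, h1, h2⟩ ⟨ψ, h3, h4⟩
    refine ⟨φ + ψ, fun b hb => by rw [LinearMap.add_apply, h1 b hb, h3 b hb, add_zero],
      fun v => ?_⟩
    rw [mul_app, h4, h2, map_add, map_smul, h1 w hw, LinearMap.add_apply, smul_zero]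
    module
  one_mem' := ⟨0, fun _ _ => rfl, fun v => by rw [LinearMap.zero_apply, zero_smul, add_zero]; rfl⟩
  inv_mem' := by
    rintro g ⟨φ, h1, h2⟩
    refine ⟨-φ, fun b hb => by rw [LinearMap.neg_apply, h1 b hb, neg_zero], fun v => ?_⟩
    apply app_inj g
    rw [app_inv_app, h2, map_add, map_smul, h1 w hw, LinearMap.neg_apply, smul_zero]
    module

/-- the root group of the functional `χ` vanishing on `A` -/
def rootX (A : Submodule F V) (χ : Dual F V) (hχ : ∀ a ∈ A, χ a = 0) :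
    Subgroup (SpecialLinearGroup F V) where
  carrier := {g | ∃ u ∈ A, ∀ v, g v = v + χ v • u}
  mul_mem' := by
    rintro g g' ⟨u, h1, h2⟩ ⟨u', h3, h4⟩
    refine ⟨u + u', A.add_mem h1 h3, fun v => ?_⟩
    rw [mul_app, h4, h2, map_add, map_smul, hχ u' h3, smul_zero]
    module
  one_mem' := ⟨0, A.zero_mem, fun v => by rw [smul_zero, add_zero]; rfl⟩
  inv_mem' := by
    rintro g ⟨u, h1, h2⟩
    refine ⟨-u, A.neg_mem h1, fun v => ?_⟩
    apply app_inj g
    rw [app_inv_app, h2, map_add, map_smul, map_neg, hχ u h1, neg_zero, smul_zero]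
    module

theorem card_le_rootW [Finite V] [FiniteDimensional F V] [Finite F] (h : IsCompl A B) {w : V}
    (hw : w ∈ B) (hw0 : w ≠ 0) : Nat.card A ≤ Nat.card (rootW B w hw) := by
  have hfin0 : Finite (V ≃ₗ[F] V) := instFin
  have hfin : Finite (SpecialLinearGroup F V) := inferInstance
  have h1 : Nat.card A = Nat.card B.dualAnnihilator := by
    rw [Module.natCard_eq_pow_finrank (K := F) (V := A),
      Module.natCard_eq_pow_finrank (K := F) (V := B.dualAnnihilator)]
    congr 1
    have e1 := Submodule.finrank_add_eq_of_isCompl h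
    have e2 := Subspace.finrank_add_finrank_dualAnnihilator_eq B
    omega
  rw [h1]
  have hann : ∀ φ : B.dualAnnihilator, ∀ b ∈ B, (φ : Dual F V) b = 0 := fun φ =>
    (Submodule.mem_dualAnnihilator _).1 φ.2
  refine Nat.card_le_card_of_injective
    (fun φ : B.dualAnnihilator => (⟨tv (φ : Dual F V) w (hann φ w hw), φ, hann φ, fun v => by
      rw [tv_apply]⟩ : rootW B w hw)) ?_
  intro φ ψ h2
  have h3 : tv (φ : Dual F V) w (hann φ w hw) = tv (ψ : Dual F V) w (hann ψ w hw) :=
    congrArg Subtype.val h2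
  apply Subtype.ext
  ext v
  have h4 := congrArg (fun g : SpecialLinearGroup F V => g v) h3
  simp only [tv_apply] at h4
  exact smul_left_injective F hw0 (add_left_cancel h4)

theorem card_le_rootX [Finite V] {χ : Dual F V} (hχ : ∀ a ∈ A, χ a = 0) (hχ0 : χ ≠ 0) :
    Nat.card A ≤ Nat.card (rootX A χ hχ) := by
  have hfin0 : Finite (V ≃ₗ[F] V) := instFin
  have hfin : Finite (SpecialLinearGroup F V) := inferInstance
  obtain ⟨v, hv⟩ : ∃ v, χ v ≠ 0 := by
    by_contra hc
    push Not at hc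
    exact hχ0 (LinearMap.ext hc)
  refine Nat.card_le_card_of_injective
    (fun u : A => (⟨tv χ u (hχ u u.2), u, u.2, fun v => by rw [tv_apply]⟩ : rootX A χ hχ)) ?_
  intro u u' h2
  have h3 : tv χ (u : V) (hχ u u.2) = tv χ (u' : V) (hχ u' u'.2) := congrArg Subtype.val h2
  have h4 := congrArg (fun g : SpecialLinearGroup F V => g v) h3
  simp only [tv_apply] at h4
  exact Subtype.ext (smul_right_injective V hv (add_left_cancel h4))

/-- a subgroup meeting a root group trivially has big index -/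
theorem le_relIndex_of_inf [Finite V] {H L R : Subgroup (SpecialLinearGroup F V)} (hLR : L ≤ R)
    (hHL : H ⊓ L = ⊥) : Nat.card L ≤ H.relIndex R := by
  have hfin0 : Finite (V ≃ₗ[F] V) := instFin
  have hfin : Finite (SpecialLinearGroup F V) := inferInstance
  have h1 := relIndex_mul_card H L
  rw [hHL, Subgroup.card_bot, mul_one] at h1
  rw [← h1]
  apply relIndex_le_of_le_right hLR
  have h2 := relIndex_mul_card H R
  intro h0
  rw [h0, zero_mul] at h2
  exact Nat.card_pos.ne h2

/-- One element of the root group of `w` gives all of them. -/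
theorem LX.rank_one [FiniteDimensional F V] [CharP F 2] (h : LX A B x)
    {H : Subgroup (SpecialLinearGroup F V)} (hxH : x ∈ H) (hA : radL A ≤ H) {w : V} (hw : w ∈ B)
    (hw0 : w ≠ 0) {φ0 : Dual F V} (hφ0 : ∀ b ∈ B, φ0 b = 0) (hne : φ0 ≠ 0)
    (hmem : tv φ0 w (hφ0 w hw) ∈ H) {φ : Dual F V} (hφ : ∀ b ∈ B, φ b = 0) :
    tv φ w (hφ w hw) ∈ H := by
  have hwA : w ∉ A := fun h1 => hw0 (compl_eq_zero h.compl h1 hw)
  obtain ⟨χ, hχw, hχA⟩ := exists_fun hwA
  -- the functionals
  let E : Submodule F (Dual F V) :=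
    { carrier := {φ | ∃ h1 : ∀ b ∈ B, φ b = 0, tv φ w (h1 w hw) ∈ H}
      add_mem' := by
        rintro φ ψ ⟨h1, h2⟩ ⟨h3, h4⟩
        refine ⟨fun b hb => by rw [LinearMap.add_apply, h1 b hb, h3 b hb, add_zero], ?_⟩
        rw [tv_add_left (h1 w hw) (h3 w hw)]
        exact H.mul_mem h2 h4
      zero_mem' := by
        refine ⟨fun b _ => rfl, ?_⟩
        have e1 : tv (0 : Dual F V) w rfl = 1 := by
          apply ext'
          intro v
          rw [tv_apply, LinearMap.zero_apply, zero_smul, add_zero, one_app]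
        rw [e1]
        exact H.one_mem
      smul_mem' := by
        rintro c φ ⟨h1, h2⟩
        refine ⟨fun b hb => by rw [LinearMap.smul_apply, h1 b hb, smul_zero], ?_⟩
        have h3 : φ (c • w) = 0 := by rw [map_smul, h1 w hw, smul_zero]
        have e1 : tv (c • φ) w (by rw [LinearMap.smul_apply, h1 w hw, smul_zero]) =
            tv φ (c • w) h3 := by
          apply ext'
          intro v
          rw [tv_apply, tv_apply, LinearMap.smul_apply, smul_smul, smul_eq_mul, mul_comm]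
        rw [e1]
        by_cases hφ0 : φ = 0
        · have e2 : tv φ (c • w) h3 = 1 := by
            apply ext'
            intro v
            rw [tv_apply, hφ0, LinearMap.zero_apply, zero_smul, add_zero, one_app]
          rw [e2]
          exact H.one_mem
        · obtain ⟨u, huA, hu⟩ : ∃ u ∈ A, φ u = 1 := by
            by_contra hc
            push Not at hc
            apply hφ0
            refine ann_eq h.compl (fun v hv => ?_) h1
            by_contra hv0
            apply hc ((φ v)⁻¹ • v) (A.smul_mem _ hv)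
            rw [map_smul, smul_eq_mul, inv_mul_cancel₀ hv0]
          have h4 : χ (c • u) = 0 := by rw [map_smul, hχA u huA, smul_zero]
          exact swap_mem hu hχw (h1 w hw) (hχA u huA) h2
            (hA (tv_mem_radL huA hχA _)) h4 h3 (hA (tv_mem_radL (A.smul_mem _ huA) hχA _)) }
  rcases h.dual_irr (E := E) (fun φ hφ => hφ.1) (by
    rintro φ ⟨h1, h2⟩
    have h3 : ∀ b ∈ B, (φ ∘ₗ (x.1 : V →ₗ[F] V)) b = 0 := by
      intro b hb
      show φ (x b) = 0
      rw [h.xB b hb, h1 b hb]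
    refine ⟨h3, ?_⟩
    have e1 : x⁻¹ * tv φ w (h1 w hw) * x⁻¹⁻¹ = tv (φ ∘ₗ (x.1 : V →ₗ[F] V)) w (h3 w hw) := by
      apply conj_tv
      · intro v
        show φ (x (x⁻¹ v)) = φ v
        rw [app_inv_app]
      · exact h.xinvB w hw
    rw [← e1]
    exact H.mul_mem (H.mul_mem (H.inv_mem hxH) h2) (H.inv_mem (H.inv_mem hxH))) with h1 | h1
  · exfalso
    have h2 : φ0 ∈ E := ⟨hφ0, hmem⟩
    rw [h1, Submodule.mem_bot] at h2
    exact hne h2
  · exact (h1 φ hφ).2

theorem LX.big_of_A [Finite V] [FiniteDimensional F V] [Finite F] [CharP F 2] (h : LX A B x)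
    {H : Subgroup (SpecialLinearGroup F V)} (hxH : x ∈ H) (hH : H ≠ ⊤) (hA0 : A ≠ ⊥) (hB0 : B ≠ ⊥)
    (hA : radL A ≤ H) : Nat.card A ≤ H.relIndex (radL B) := by
  by_contra hlt
  push Not at hlt
  apply hH
  refine lin_gen h.compl hA0 hB0 hA (radL_le ?_)
  intro φ w hw hφ
  by_cases hw0 : w = 0
  · have e1 : tv φ w (hφ w hw) = 1 := by
      apply ext'
      intro v
      rw [tv_apply, hw0, smul_zero, add_zero, one_app]
    rw [e1]
    exact H.one_mem
  by_cases hex : ∃ (ψ : Dual F V) (h1 : ∀ b ∈ B, ψ b = 0), ψ ≠ 0 ∧ tv ψ w (h1 w hw) ∈ H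
  · obtain ⟨ψ, h1, h2, h3⟩ := hex
    exact h.rank_one hxH hA hw hw0 h1 h2 h3 hφ
  · exfalso
    have h2 : H ⊓ rootW B w hw = ⊥ := by
      rw [eq_bot_iff]
      rintro g ⟨hg1, ψ, hψ1, hψ2⟩
      have hg : g = tv ψ w (hψ1 w hw) := by
        apply ext'
        intro v
        rw [hψ2, tv_apply]
      have h3 : ψ = 0 := by
        by_contra h4
        exact hex ⟨ψ, hψ1, h4, by rw [← hg]; exact hg1⟩
      rw [Subgroup.mem_bot]
      apply ext'
      intro v
      rw [hψ2, h3, LinearMap.zero_apply, zero_smul, add_zero, one_app]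
    have h3 := le_relIndex_of_inf (R := radL B) (by
      rintro g ⟨ψ, hψ1, hψ2⟩
      refine ⟨fun v hv => ?_, fun v => ?_⟩
      · rw [hψ2, hψ1 v hv, zero_smul, add_zero]
      · rw [hψ2, add_sub_cancel_left]
        exact B.smul_mem _ hw) h2
    have h4 := card_le_rootW h.compl hw hw0
    omega

theorem LX.big_of_B [Finite V] [FiniteDimensional F V] [Finite F] [CharP F 2] (h : LX A B x)
    {H : Subgroup (SpecialLinearGroup F V)} (hxH : x ∈ H) (hH : H ≠ ⊤) (hA0 : A ≠ ⊥) (hB0 : B ≠ ⊥)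
    (hB : radL B ≤ H) : Nat.card A ≤ H.relIndex (radL A) := by
  by_contra hlt
  push Not at hlt
  apply hH
  refine lin_gen h.compl hA0 hB0 (radL_le ?_) hB
  intro χ u hu hχ
  by_cases hχ0 : χ = 0
  · have e1 : tv χ u (hχ u hu) = 1 := by
      apply ext'
      intro v
      rw [tv_apply, hχ0, LinearMap.zero_apply, zero_smul, add_zero, one_app]
    rw [e1]
    exact H.one_mem
  obtain ⟨w, hwB, hw⟩ : ∃ w ∈ B, χ w = 1 := by
    by_contra hc
    push Not at hc
    apply hχ0
    refine ann_eq h.compl hχ (fun v hv => ?_)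
    by_contra hv0
    apply hc ((χ v)⁻¹ • v) (B.smul_mem _ hv)
    rw [map_smul, smul_eq_mul, inv_mul_cancel₀ hv0]
  let T : Submodule F V :=
    { carrier := {u | ∃ h1 : u ∈ A, tv χ u (hχ u h1) ∈ H}
      add_mem' := by
        rintro u u' ⟨h1, h2⟩ ⟨h3, h4⟩
        refine ⟨A.add_mem h1 h3, ?_⟩
        rw [tv_add_right (hχ u h1) (hχ u' h3)]
        exact H.mul_mem h2 h4
      zero_mem' := by
        refine ⟨A.zero_mem, ?_⟩
        have e1 : tv χ 0 (map_zero χ) = 1 := by
          apply ext'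
          intro v
          rw [tv_apply, smul_zero, add_zero, one_app]
        rw [e1]
        exact H.one_mem
      smul_mem' := by
        rintro c u ⟨h1, h2⟩
        refine ⟨A.smul_mem c h1, ?_⟩
        by_cases hu0 : u = 0
        · have e2 : tv χ (c • u) (hχ _ (A.smul_mem c h1)) = 1 := by
            apply ext'
            intro v
            rw [tv_apply, hu0, smul_zero, smul_zero, add_zero, one_app]
          rw [e2]
          exact H.one_mem
        · obtain ⟨φ, hφu, hφB⟩ := exists_fun (W := B) (x := u)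
            (fun h3 => hu0 (compl_eq_zero h.compl h1 h3))
          have h4 : φ (c • w) = 0 := by rw [map_smul, hφB w hwB, smul_zero]
          exact swap_mem hw hφu (hχ u h1) (hφB w hwB) h2
            (hB (tv_mem_radL hwB hφB _)) h4 _ (hB (tv_mem_radL (B.smul_mem _ hwB) hφB _)) }
  rcases h.irr T (fun u hu => hu.1) (by
    rintro u ⟨h1, h2⟩
    refine ⟨h.xA u h1, ?_⟩
    have e1 : x * tv χ u (hχ u h1) * x⁻¹ = tv χ (x u) (hχ _ (h.xA u h1)) := by
      apply conj_tv
      · intro v
        obtain ⟨a, ha, b, hb, rfl⟩ := compl_dec h.compl v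
        rw [app_add, map_add, map_add, hχ a ha, hχ _ (h.xA a ha), h.xB b hb]
      · rfl
    rw [← e1]
    exact H.mul_mem (H.mul_mem hxH h2) (H.inv_mem hxH)) with h1 | h1
  · exfalso
    have h2 : H ⊓ rootX A χ hχ = ⊥ := by
      rw [eq_bot_iff]
      rintro g ⟨hg1, u', hu1, hu2⟩
      have hg : g = tv χ u' (hχ u' hu1) := by
        apply ext'
        intro v
        rw [hu2, tv_apply]
      have h3 : u' ∈ T := ⟨hu1, by rw [← hg]; exact hg1⟩
      rw [h1, Submodule.mem_bot] at h3
      rw [Subgroup.mem_bot]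
      apply ext'
      intro v
      rw [hu2, h3, smul_zero, add_zero, one_app]
    have h3 := le_relIndex_of_inf (R := radL A) (by
      rintro g ⟨u', hu1, hu2⟩
      refine ⟨fun v hv => ?_, fun v => ?_⟩
      · rw [hu2, hχ v hv, zero_smul, add_zero]
      · rw [hu2, add_sub_cancel_left]
        exact A.smul_mem _ hu1) h2
    have h4 := card_le_rootX (A := A) hχ hχ0
    omega
  · have h2 : u ∈ T := by rw [h1]; exact hu
    exact h2.2

/-- **Two opposite radicals**, `2 ^ k < |A|`. -/
theorem LX.uGood [Finite V] [FiniteDimensional F V] [Finite F] [CharP F 2] (h : LX A B x)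
    {p k : ℕ} (hp : p.Prime) (hM : ∀ t : ℕ, t ≠ 0 → 2 ^ t ≡ 1 [MOD p] → 2 ^ k ≤ 2 ^ t)
    (hxp : x ^ p = 1) (hB0 : B ≠ ⊥) (hA : 2 ^ k < Nat.card A) : UGood 1 (2 ^ k) x := by
  have hfin0 : Finite (V ≃ₗ[F] V) := instFin
  have hfin : Finite (SpecialLinearGroup F V) := inferInstance
  have hA0 : A ≠ ⊥ := by
    rintro rfl
    have h1 : Nat.card (⊥ : Submodule F V) = 1 := Nat.card_unique
    rw [h1] at hA
    exact absurd hA (not_lt.2 Nat.one_le_two_pow)
  have hxp' : x ^ p ^ 1 = 1 := by rw [pow_one, hxp]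
  have iA : IsPGroup 2 (radL A) := isPGroup_radL A
  have iB : IsPGroup 2 (radL B) := isPGroup_radL B
  have pA := h.freeA.pairM hp Nat.prime_two hxp' iA hM
  have pB := h.freeB.pairM hp Nat.prime_two hxp' iB hM
  have key : ∀ t : ℕ, 2 ^ k < 2 ^ t → 2 * 2 ^ k ≤ 2 ^ t := by
    intro t ht
    have h1 : k < t := (Nat.pow_lt_pow_iff_right (by norm_num)).1 ht
    rw [← pow_succ']
    exact Nat.pow_le_pow_right (by norm_num) h1
  apply two_free_uGood h.freeA h.freeB
  intro H hH hxH
  by_cases a1 : radL A ≤ H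
  · have h1 := h.big_of_A hxH hH hA0 hB0 a1
    obtain ⟨t, ht⟩ := relIndex_eq_pow Nat.prime_two iB H
    have h2 := key t (by rw [← ht]; omega)
    omega
  · by_cases a2 : radL B ≤ H
    · have h1 := h.big_of_B hxH hH hA0 hB0 a2
      obtain ⟨t, ht⟩ := relIndex_eq_pow Nat.prime_two iA H
      have h2 := key t (by rw [← ht]; omega)
      omega
    · have b1 := le_relIndex_of_pairM pA hxH a1
      have b2 := le_relIndex_of_pairM pB hxH a2
      omega

end

end Cfsg.Agent.H435.Fpr
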