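import Cfsg.Agent.H398.FPR.HeisOne
import Cfsg.Agent.H398.FPR.Rad
import Cfsg.Agent.H110.Fpr.Lin

/-!
# Linear groups in characteristic two, `p ∣ q - 1`: two Heisenberg radicals
-/

set_option autoImplicit false
open Subgroup MulAction

namespace Cfsg.Agent.H435.Fpr

open Cfsg.Agent.H398.FPR Cfsg.Agent.H110.Fpr Cfsg.Agent.H221.PP
open Module (Dual finrank)

section

variable {F : Type*} [Field F] {V : Type*} [AddCommGroup V] [Module F V]

/-- Dual vectors. -/
structure HD (e f : V) (ε δ : Dual F V) : Prop where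
  ee : ε e = 1
  ef : ε f = 0
  de : δ e = 0
  df : δ f = 1

theorem HD.symm {e f : V} {ε δ : Dual F V} (h : HD e f ε δ) : HD f e δ ε :=
  ⟨h.df, h.de, h.ef, h.ee⟩

/-- The radical of the stabiliser of the flag `⟨e⟩ ≤ ker δ`. -/
def flagQ (e : V) (δ : Dual F V) (h : δ e = 0) : Subgroup (SpecialLinearGroup F V) where
  carrier := {g | ∃ (α : Dual F V) (w : V), α e = 0 ∧ δ w = 0 ∧ ∀ v, g v = v + α v • e + δ v • w}
  mul_mem' := by
    rintro g g' ⟨α, w, h1, h2, h3⟩ ⟨β, u, k1, k2, k3⟩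
    refine ⟨α + β + α u • δ, w + u, ?_, ?_, fun v => ?_⟩
    · simp [h1, k1, h]
    · rw [map_add, h2, k2, add_zero]
    · rw [mul_app, k3, h3]
      simp only [map_add, map_smul, h1, h, k2, LinearMap.add_apply, LinearMap.smul_apply,
        smul_eq_mul]
      module
  one_mem' := ⟨0, 0, rfl, map_zero _, fun v => by
    rw [one_app, LinearMap.zero_apply, zero_smul, smul_zero, add_zero, add_zero]⟩
  inv_mem' := by
    rintro g ⟨α, w, h1, h2, h3⟩
    refine ⟨-α + α w • δ, -w, ?_, ?_, fun v => ?_⟩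
    · simp [h1, h]
    · rw [map_neg, h2, neg_zero]
    · apply app_inj g
      rw [app_inv_app, h3]
      simp only [map_add, map_neg, map_smul, h1, h, h2, LinearMap.add_apply, LinearMap.neg_apply,
        LinearMap.smul_apply, smul_eq_mul]
      module

/-- Its derived group. -/
def flagZ (e : V) (δ : Dual F V) (h : δ e = 0) : Subgroup (SpecialLinearGroup F V) where
  carrier := {g | ∃ c : F, ∀ v, g v = v + (c * δ v) • e}
  mul_mem' := by
    rintro g g' ⟨c, hc⟩ ⟨d, hd⟩
    refine ⟨c + d, fun v => ?_⟩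
    rw [mul_app, hd, hc]
    simp only [map_add, map_smul, h, smul_eq_mul]
    module
  one_mem' := ⟨0, fun v => by rw [one_app, zero_mul, zero_smul, add_zero]⟩
  inv_mem' := by
    rintro g ⟨c, hc⟩
    refine ⟨-c, fun v => ?_⟩
    apply app_inj g
    rw [app_inv_app, hc]
    simp only [map_add, map_smul, h, smul_eq_mul]
    module

theorem tv_mem_flagQ {e : V} {δ : Dual F V} {h : δ e = 0} {α : Dual F V} (hα : α e = 0) :
    tv α e hα ∈ flagQ e δ h :=
  ⟨α, 0, hα, map_zero _, fun v => by rw [tv_apply, smul_zero, add_zero]⟩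

theorem tv_mem_flagQ' {e : V} {δ : Dual F V} {h : δ e = 0} {w : V} (hw : δ w = 0) :
    tv δ w hw ∈ flagQ e δ h :=
  ⟨0, w, rfl, hw, fun v => by rw [tv_apply, LinearMap.zero_apply, zero_smul, add_zero]⟩

theorem flagZ_le {e : V} {δ : Dual F V} (h : δ e = 0) : flagZ e δ h ≤ flagQ e δ h := by
  rintro g ⟨c, hc⟩
  exact ⟨c • δ, 0, by rw [LinearMap.smul_apply, h, smul_zero], map_zero _, fun v => by
    rw [hc, LinearMap.smul_apply, smul_zero, add_zero, smul_eq_mul]⟩

theorem flagZ_central {e : V} {δ : Dual F V} (h : δ e = 0) :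
    ∀ z ∈ flagZ e δ h, ∀ g ∈ flagQ e δ h, z * g = g * z := by
  rintro z ⟨c, hc⟩ g ⟨α, w, h1, h2, h3⟩
  apply ext'
  intro v
  rw [mul_app, mul_app, hc, h3, h3, hc]
  simp only [map_add, map_smul, h, h1, h2, smul_eq_mul]
  module

theorem flagQ_comm {e : V} {δ : Dual F V} (h : δ e = 0) :
    ∀ a ∈ flagQ e δ h, ∀ b ∈ flagQ e δ h, a * b * a⁻¹ * b⁻¹ ∈ flagZ e δ h := by
  rintro a ⟨α, w, h1, h2, h3⟩ b ⟨β, u, k1, k2, k3⟩
  refine ⟨α u - β w, fun v => ?_⟩
  obtain ⟨v', rfl⟩ : ∃ v', v = b (a v') := ⟨a⁻¹ (b⁻¹ v), by rw [app_inv_app, app_inv_app]⟩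
  have e1 : (a * b * a⁻¹ * b⁻¹) (b (a v')) = a (b v') := by
    simp only [mul_app, inv_app_app]
  rw [e1, k3, h3, h3, k3]
  simp only [map_add, map_smul, h, h1, h2, k1, k2, smul_eq_mul]
  module

/-- a vector outside -/
theorem flagQ_nonab {e f : V} {ε δ : Dual F V} (d : HD e f ε δ) {w0 : V} (hw0 : w0 ≠ 0)
    (h1 : ε w0 = 0) (h2 : δ w0 = 0) :
    ¬ ∀ a ∈ flagQ e δ d.de, ∀ b ∈ flagQ e δ d.de, a * b = b * a := by
  intro hc
  have he0 : e ≠ 0 := by
    rintro rfl
    have := d.ee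
    rw [map_zero] at this
    exact zero_ne_one this
  have hn : w0 ∉ Submodule.span F {e} := by
    intro hm
    obtain ⟨c, rfl⟩ := Submodule.mem_span_singleton.1 hm
    rw [map_smul, d.ee, smul_eq_mul, mul_one] at h1
    rw [h1, zero_smul] at hw0
    exact hw0 rfl
  obtain ⟨α, hα1, hα2⟩ := exists_fun hn
  have hαe : α e = 0 := hα2 e (Submodule.mem_span_singleton_self e)
  have h3 := hc _ (tv_mem_flagQ (h := d.de) hαe) _ (tv_mem_flagQ' (h := d.de) h2)
  have h4 := congrArg (fun g : SpecialLinearGroup F V => g f) h3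
  simp only [mul_app, tv_apply, map_add, map_smul, d.df, hα1, d.de, one_smul] at h4
  apply he0
  have h5 : e = (f + α f • e + (w0 + e)) - (f + w0 + α f • (e + (0 : F) • w0)) := by module
  rw [h5, h4, sub_self]

theorem flagQ_isPGroup [CharP F 2] {e : V} {δ : Dual F V} (h : δ e = 0) :
    IsPGroup 2 (flagQ e δ h) := by
  have h2F : (2 : F) = 0 := by
    have := CharP.cast_eq_zero F 2
    exact_mod_cast this
  rintro ⟨g, α, w, h1, h2, h3⟩
  refine ⟨2, Subtype.ext ?_⟩
  have hg2 : ∀ v, g (g v) = v + (α w * δ v) • e := by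
    intro v
    rw [h3, h3]
    simp only [map_add, map_smul, h, h1, h2, smul_eq_mul]
    have e1 : v + α v • e + δ v • w + (α v + α v * 0 + δ v * α w) • e +
        (δ v + α v * 0 + δ v * 0) • w = v + (α w * δ v) • e + (2 : F) • (α v • e + δ v • w) := by
      module
    rw [e1, h2F, zero_smul, add_zero]
  change g ^ 2 ^ 2 = 1
  apply ext'
  intro v
  have e4 : g ^ 2 ^ 2 = g * g * (g * g) := by
    rw [show (2 : ℕ) ^ 2 = 4 from rfl]
    simp only [pow_succ, pow_zero, one_mul, mul_assoc]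
  rw [e4, one_app, mul_app, mul_app, mul_app, hg2, hg2]
  simp only [map_add, map_smul, h, smul_eq_mul]
  have e1 : v + (α w * δ v) • e + (α w * (δ v + α w * δ v * 0)) • e =
      v + (2 : F) • ((α w * δ v) • e) := by module
  rw [e1, h2F, zero_smul, add_zero]

theorem le_card_flagZ [Finite F] [Finite V] {e f : V} {ε δ : Dual F V} (d : HD e f ε δ) :
    Nat.card F ≤ Nat.card (flagZ e δ d.de) := by
  have hfin0 : Finite (V ≃ₗ[F] V) := instFin
  have hfin : Finite (SpecialLinearGroup F V) := inferInstance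
  have hz : ∀ c : F, (c • δ) e = 0 := fun c => by rw [LinearMap.smul_apply, d.de, smul_zero]
  refine Nat.card_le_card_of_injective
    (fun c : F => (⟨tv (c • δ) e (hz c), c, fun v => by
      rw [tv_apply, LinearMap.smul_apply, smul_eq_mul]⟩ : flagZ e δ d.de)) ?_
  intro a b hab
  have h1 : tv (a • δ) e (hz a) = tv (b • δ) e (hz b) := congrArg Subtype.val hab
  have h2 := congrArg (fun g : SpecialLinearGroup F V => ε (g f)) h1
  simp only [tv_apply, LinearMap.smul_apply, map_add, map_smul, d.df, d.ee, d.ef, smul_eq_mul,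
    mul_one, zero_add] at h2
  exact h2

/-- The element `x`. -/
structure HX (lam : F) (e f : V) (ε δ : Dual F V) (x : SpecialLinearGroup F V) : Prop where
  l0 : lam ≠ 0
  l1 : lam ≠ 1
  l2 : lam ^ 2 ≠ 1
  eq : ∀ v, x v = v + ((lam - 1) * ε v) • e + ((lam⁻¹ - 1) * δ v) • f

theorem HX.symm {lam : F} {e f : V} {ε δ : Dual F V} {x : SpecialLinearGroup F V}
    (h : HX lam e f ε δ x) : HX lam⁻¹ f e δ ε x where
  l0 := inv_ne_zero h.l0
  l1 := fun h1 => h.l1 (inv_eq_one.1 h1)
  l2 := fun h1 => h.l2 (by rw [inv_pow, inv_eq_one] at h1; exact h1)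
  eq := fun v => by rw [h.eq, inv_inv]; abel

theorem flagQ_freeOn {lam : F} {e f : V} {ε δ : Dual F V} {x : SpecialLinearGroup F V}
    (d : HD e f ε δ) (hx : HX lam e f ε δ x) : FreeOn x (flagQ e δ d.de) := by
  have hl : lam * lam⁻¹ = 1 := mul_inv_cancel₀ hx.l0
  have hxe : x e = lam • e := by
    rw [hx.eq, d.ee, d.de]
    module
  have hxf : x f = lam⁻¹ • f := by
    rw [hx.eq, d.ef, d.df]
    module
  have hδx : ∀ v, δ (x v) = lam⁻¹ * δ v := by
    intro v
    rw [hx.eq]
    simp only [map_add, map_smul, d.de, d.df, smul_eq_mul]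
    ring
  have hδx' : ∀ v, δ (x⁻¹ v) = lam * δ v := by
    intro v
    have h1 := hδx (x⁻¹ v)
    rw [app_inv_app] at h1
    rw [h1, ← mul_assoc, hl, one_mul]
  have hxe' : x⁻¹ e = lam⁻¹ • e := by
    apply app_inj x
    rw [app_inv_app, app_smul, hxe, smul_smul, mul_comm, hl, one_smul]
  constructor
  · rw [mem_normalizer_iff]
    have key : ∀ g ∈ flagQ e δ d.de, x * g * x⁻¹ ∈ flagQ e δ d.de := by
      rintro g ⟨α, w, h1, h2, h3⟩
      refine ⟨lam • (α ∘ₗ ((x⁻¹ : SpecialLinearGroup F V).1 : V →ₗ[F] V)), lam • x w, ?_, ?_,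
        fun v => ?_⟩
      · show lam • (α (x⁻¹ e)) = 0
        rw [hxe', map_smul, h1, smul_zero, smul_zero]
      · rw [map_smul, hδx, h2, mul_zero, smul_zero]
      · rw [mul_app, mul_app, h3, app_add, app_add, app_smul, app_smul, app_inv_app, hxe, hδx']
        show v + α (x⁻¹ v) • lam • e + (lam * δ v) • x w =
          v + (lam • α (x⁻¹ v)) • e + δ v • lam • x w
        rw [smul_eq_mul]
        module
    have key' : ∀ g ∈ flagQ e δ d.de, x⁻¹ * g * x ∈ flagQ e δ d.de := by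
      rintro g ⟨α, w, h1, h2, h3⟩
      refine ⟨lam⁻¹ • (α ∘ₗ (x.1 : V →ₗ[F] V)), lam⁻¹ • x⁻¹ w, ?_, ?_, fun v => ?_⟩
      · show lam⁻¹ • (α (x e)) = 0
        rw [hxe, map_smul, h1, smul_zero, smul_zero]
      · rw [map_smul, hδx', h2, mul_zero, smul_zero]
      · rw [mul_app, mul_app, h3, app_add, app_add, app_smul, app_smul, inv_app_app, hxe', hδx]
        show v + α (x v) • lam⁻¹ • e + (lam⁻¹ * δ v) • x⁻¹ w =
          v + (lam⁻¹ • α (x v)) • e + δ v • lam⁻¹ • x⁻¹ w
        rw [smul_eq_mul]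
        module
    intro g
    refine ⟨key g, fun hg => ?_⟩
    have h1 := key' _ hg
    have h2 : x⁻¹ * (x * g * x⁻¹) * x = g := by group
    rwa [h2] at h1
  · rintro g ⟨α, w, h1, h2, h3⟩ hc
    have hcomm : ∀ v, x (g v) = g (x v) := by
      intro v
      have h4 : x * g = g * x := by rwa [mul_inv_eq_iff_eq_mul] at hc
      rw [← mul_app, h4, mul_app]
    have he0 : e ≠ 0 := by
      rintro rfl
      have := d.ee
      rw [map_zero] at this
      exact zero_ne_one this
    -- `α` vanishes on the kernel of `δ`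
    have hα : ∀ v, δ v = 0 → α v = 0 := by
      intro v hv
      have h4 := hcomm v
      rw [h3, h3 (x v), hδx, hv, mul_zero, zero_smul, add_zero, add_zero, app_add, app_smul,
        hxe] at h4
      have h5 : α (x v) = α v := by
        rw [hx.eq, hv]
        simp only [map_add, map_smul, h1, mul_zero, zero_smul, smul_zero, add_zero]
      rw [h5] at h4
      have h6 : (α v * (lam - 1)) • e = 0 := by
        have h7 := add_left_cancel h4
        rw [smul_smul] at h7
        rw [mul_sub, sub_smul, mul_one, h7, sub_self]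
      rcases smul_eq_zero.1 h6 with h7 | h7
      · rcases mul_eq_zero.1 h7 with h8 | h8
        · exact h8
        · exact absurd (sub_eq_zero.1 h8) hx.l1
      · exact absurd h7 he0
    -- the vector `g f - f`
    have hxw : x w = w + ((lam - 1) * ε w) • e := by
      rw [hx.eq, h2, mul_zero, zero_smul, add_zero]
    have h4 := hcomm f
    rw [hxf, app_smul, h3, app_add, app_add, app_smul, app_smul, hxe, hxf, d.df, hxw] at h4
    have h5 : (1 - lam⁻¹) • w = (lam⁻¹ * α f - lam * α f - (lam - 1) * ε w) • e := by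
      have h6 : (1 - lam⁻¹) • w = (lam⁻¹ • f + α f • lam • e + (1 : F) • (w + ((lam - 1) * ε w) • e))
          - lam⁻¹ • (f + α f • e + (1 : F) • w) + (lam⁻¹ * α f - lam * α f - (lam - 1) * ε w) • e := by
        module
      rw [h6, h4, sub_self, zero_add]
    have h6 : (1 - lam⁻¹) ≠ 0 := by
      intro h7
      exact hx.l1 (inv_eq_one.1 (sub_eq_zero.1 h7).symm)
    obtain ⟨b, hb⟩ : ∃ b : F, w = b • e := by
      refine ⟨(1 - lam⁻¹)⁻¹ * (lam⁻¹ * α f - lam * α f - (lam - 1) * ε w), ?_⟩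
      rw [mul_smul, ← h5, smul_smul, inv_mul_cancel₀ h6, one_smul]
    have hεw : ε w = b := by rw [hb, map_smul, d.ee, smul_eq_mul, mul_one]
    rw [hεw, hb] at h5
    have h7 : (lam - lam⁻¹) * (α f + b) = 0 := by
      have h8 : ((1 - lam⁻¹) * b) • e =
          (lam⁻¹ * α f - lam * α f - (lam - 1) * b) • e := by rw [mul_smul, h5]
      have h9 := congrArg ε h8
      rw [map_smul, map_smul, d.ee, smul_eq_mul, smul_eq_mul, mul_one, mul_one] at h9
      linear_combination h9
    have h8 : lam - lam⁻¹ ≠ 0 := by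
      intro h9
      apply hx.l2
      rw [sq]
      nth_rewrite 2 [sub_eq_zero.1 h9]
      exact hl
    have h9 : α f + b = 0 := (mul_eq_zero.1 h7).resolve_left h8
    apply ext'
    intro v
    rw [h3, one_app, hb]
    have h10 : α v = δ v * α f := by
      have h11 := hα (v - δ v • f) (by rw [map_sub, map_smul, d.df, smul_eq_mul, mul_one, sub_self])
      rw [map_sub, map_smul, smul_eq_mul] at h11
      exact sub_eq_zero.1 h11
    rw [h10, add_assoc, smul_smul, ← add_smul, ← mul_add, h9, mul_zero, zero_smul, add_zero]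

/-- The generation statement. -/
theorem flagQ_gen [FiniteDimensional F V] {e f : V} {ε δ : Dual F V} (d : HD e f ε δ) {w0 : V}
    (hw0 : w0 ≠ 0) (h1 : ε w0 = 0) (h2 : δ w0 = 0) {H : Subgroup (SpecialLinearGroup F V)}
    (hQ : flagQ e δ d.de ≤ H) {z : SpecialLinearGroup F V} (hz : z ∈ flagZ f ε d.ef) (hz1 : z ≠ 1)
    (hzH : z ∈ H) : H = ⊤ := by
  obtain ⟨c, hc⟩ := hz
  have hc0 : c ≠ 0 := by
    rintro rfl
    apply hz1
    apply ext'
    intro v
    rw [hc, zero_mul, zero_smul, add_zero, one_app]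
  have he0 : e ≠ 0 := by
    rintro rfl
    have := d.ee
    rw [map_zero] at this
    exact zero_ne_one this
  -- transvections of `radL (ker ε)`, first kind
  have s1 : ∀ (w : V) (hw : ε w = 0), δ w = 0 → tv ε w hw ∈ H := by
    intro w hw hδw
    obtain ⟨u, hu⟩ : ∃ u : V, u = (-c⁻¹) • w := ⟨_, rfl⟩
    have hεu : ε u = 0 := by rw [hu, map_smul, hw, smul_zero]
    have hδu : δ u = 0 := by rw [hu, map_smul, hδw, smul_zero]
    have hw' : w = -(c • u) := by
      rw [hu, smul_smul, mul_neg, mul_inv_cancel₀ hc0, neg_smul, one_smul, neg_neg]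
    have m1 : tv δ u hδu ∈ H := hQ (tv_mem_flagQ' hδu)
    have e1 : z * tv δ u hδu * z⁻¹ * (tv δ u hδu)⁻¹ = tv ε w hw := by
      rw [mul_inv_eq_iff_eq_mul, mul_inv_eq_iff_eq_mul]
      apply ext'
      intro v
      simp only [mul_app, hc, tv_apply, map_add, map_smul, hεu, hδu, d.ef, d.df, smul_eq_mul, hw']
      module
    rw [← e1]
    exact H.mul_mem (H.mul_mem (H.mul_mem hzH m1) (H.inv_mem hzH)) (H.inv_mem m1)
  -- second kind
  have s2 : ∀ (b : F) (hb : ε (b • f) = 0), tv ε (b • f) hb ∈ H := by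
    intro b hb
    have hn : w0 ∉ Submodule.span F {e, f} := by
      intro hm
      obtain ⟨a, b, hab⟩ := Submodule.mem_span_pair.1 hm
      have h3 : ε (a • e + b • f) = a := by
        rw [map_add, map_smul, map_smul, d.ee, d.ef, smul_eq_mul, smul_eq_mul]; ring
      have h4 : δ (a • e + b • f) = b := by
        rw [map_add, map_smul, map_smul, d.de, d.df, smul_eq_mul, smul_eq_mul]; ring
      rw [hab, h1] at h3
      rw [hab, h2] at h4
      apply hw0
      rw [← hab, ← h3, ← h4, zero_smul, zero_smul, add_zero]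
    obtain ⟨χ, hχ1, hχ2⟩ := exists_fun hn
    have hχe : χ e = 0 := hχ2 e (Submodule.subset_span (by simp))
    have hχf : χ f = 0 := hχ2 f (Submodule.subset_span (by simp))
    have m1 : tv χ e hχe ∈ H := hQ (tv_mem_flagQ hχe)
    have hχcf : χ (c • f) = 0 := by rw [map_smul, hχf, smul_zero]
    have e1 : z * tv χ e hχe * z⁻¹ * (tv χ e hχe)⁻¹ = tv χ (c • f) hχcf := by
      rw [mul_inv_eq_iff_eq_mul, mul_inv_eq_iff_eq_mul]
      apply ext'
      intro v
      simp only [mul_app, hc, tv_apply, map_add, map_smul, hχe, hχf, d.ee, d.ef, smul_eq_mul]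
      module
    have m2 : tv χ (c • f) hχcf ∈ H := by
      rw [← e1]
      exact H.mul_mem (H.mul_mem (H.mul_mem hzH m1) (H.inv_mem hzH)) (H.inv_mem m1)
    have hεu : ε ((c⁻¹ * b) • w0) = 0 := by rw [map_smul, h1, smul_zero]
    have hδu : δ ((c⁻¹ * b) • w0) = 0 := by rw [map_smul, h2, smul_zero]
    have m3 := s1 ((c⁻¹ * b) • w0) hεu hδu
    have e2 : tv χ (c • f) hχcf * tv ε ((c⁻¹ * b) • w0) hεu * (tv χ (c • f) hχcf)⁻¹ *
        (tv ε ((c⁻¹ * b) • w0) hεu)⁻¹ = tv ε (b • f) hb := by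
      rw [mul_inv_eq_iff_eq_mul, mul_inv_eq_iff_eq_mul]
      apply ext'
      intro v
      simp only [mul_app, tv_apply, map_add, map_smul, hχ1, hχf, h1, d.ef, smul_eq_mul]
      have e3 : ε v • (c⁻¹ * b) • (w0 + (1 : F) • c • f) =
          ε v • (c⁻¹ * b) • w0 + (ε v * (c * c⁻¹) * b) • f := by module
      rw [e3, mul_inv_cancel₀ hc0]
      module
    rw [← e2]
    exact H.mul_mem (H.mul_mem (H.mul_mem m2 m3) (H.inv_mem m2)) (H.inv_mem m3)
  have hAB : IsCompl (Submodule.span F {e}) (LinearMap.ker ε) := by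
    constructor
    · rw [Submodule.disjoint_def]
      intro v hv hv'
      obtain ⟨a, rfl⟩ := Submodule.mem_span_singleton.1 hv
      rw [LinearMap.mem_ker, map_smul, d.ee, smul_eq_mul, mul_one] at hv'
      rw [hv', zero_smul]
    · rw [codisjoint_iff, eq_top_iff]
      intro v _
      have e1 : v = ε v • e + (v - ε v • e) := by abel
      rw [e1]
      refine Submodule.add_mem_sup (Submodule.smul_mem _ _ (Submodule.mem_span_singleton_self e)) ?_
      rw [LinearMap.mem_ker, map_sub, map_smul, d.ee, smul_eq_mul, mul_one, sub_self]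
  refine lin_gen hAB ?_ ?_ ?_ ?_
  · rw [Submodule.ne_bot_iff]
    exact ⟨e, Submodule.mem_span_singleton_self e, he0⟩
  · rw [Submodule.ne_bot_iff]
    exact ⟨w0, h1, hw0⟩
  · rintro g ⟨g1, g2⟩
    obtain ⟨α, hα, rfl⟩ := eq_tv (v := e) (g := g) (g1 e (Submodule.mem_span_singleton_self e)) (by
      intro v
      rw [Submodule.mkQ_apply, Submodule.mkQ_apply, Submodule.Quotient.eq]
      exact g2 v)
    exact hQ (tv_mem_flagQ hα)
  · rintro g ⟨g1, g2⟩
    obtain ⟨u, hu⟩ : ∃ u, u = g e - e := ⟨_, rfl⟩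
    have hεu : ε u = 0 := by
      rw [hu]
      exact g2 e
    have hg : g = tv ε u hεu := by
      apply ext'
      intro v
      have e1 : v = (v - ε v • e) + ε v • e := by abel
      have e2 : g (v - ε v • e) = v - ε v • e := g1 _ (by
        rw [LinearMap.mem_ker, map_sub, map_smul, d.ee, smul_eq_mul, mul_one, sub_self])
      rw [tv_apply, hu]
      conv_lhs => rw [e1, app_add, e2, app_smul]
      rw [smul_sub]
      abel
    have hεf : ε (δ u • f) = 0 := by rw [map_smul, d.ef, smul_zero]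
    have hεw : ε (u - δ u • f) = 0 := by rw [map_sub, hεu, hεf, sub_zero]
    have hδw : δ (u - δ u • f) = 0 := by
      rw [map_sub, map_smul, d.df, smul_eq_mul, mul_one, sub_self]
    have h3 : ε ((u - δ u • f) + δ u • f) = 0 := by rw [map_add, hεw, hεf, add_zero]
    have e1 : g = tv ε (u - δ u • f) hεw * tv ε (δ u • f) hεf := by
      rw [hg, ← tv_add_right hεw hεf h3]
      exact tv_congr rfl (by abel)
    rw [e1]
    exact H.mul_mem (s1 _ _ hδw) (s2 _ _)

/-- **`p ∣ q - 1`.** -/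
theorem lin_heis_uGood [Finite F] [Finite V] [FiniteDimensional F V] [CharP F 2] {p M : ℕ}
    (hp : p.Prime) (hM : ∀ t : ℕ, t ≠ 0 → 2 ^ t ≡ 1 [MOD p] → M ≤ 2 ^ t) (hMF : M ≤ Nat.card F)
    {lam : F} {e f : V} {ε δ : Dual F V} (d : HD e f ε δ) {x : SpecialLinearGroup F V}
    (hx : HX lam e f ε δ x) (hxp : x ^ p = 1) {w0 : V} (hw0 : w0 ≠ 0) (h1 : ε w0 = 0)
    (h2 : δ w0 = 0) : UGood 1 M x := by
  have hfin0 : Finite (V ≃ₗ[F] V) := instFin
  have hfin : Finite (SpecialLinearGroup F V) := inferInstance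
  have f1 := flagQ_freeOn d hx
  have f2 := flagQ_freeOn d.symm hx.symm
  have hxp' : x ^ p ^ 1 = 1 := by rw [pow_one, hxp]
  exact heis_uGood f1 f2
    (f1.pairM hp Nat.prime_two hxp' (flagQ_isPGroup _) hM)
    (f2.pairM hp Nat.prime_two hxp' (flagQ_isPGroup _) hM)
    (flagZ_le _) (flagZ_le _) (flagZ_central _) (flagZ_central _) (flagQ_comm _) (flagQ_comm _)
    (flagQ_nonab d hw0 h1 h2) (flagQ_nonab d.symm hw0 h2 h1)
    (hMF.trans (le_card_flagZ d)) (hMF.trans (le_card_flagZ d.symm))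
    (fun H hQ z hz hz1 hzH => flagQ_gen d hw0 h1 h2 hQ hz hz1 hzH)
    (fun H hQ z hz hz1 hzH => flagQ_gen d.symm hw0 h2 h1 hQ hz hz1 hzH)

end

end Cfsg.Agent.H435.Fpr
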