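import Cfsg.Agent.H435.Fpr.LinDual
import Cfsg.Agent.H435.Fpr.LinHeis

/-!
# The row of S3578 for `PSL_n(q)`, `q` even, `p` a Mersenne prime, `n > ord_p(q)`
-/

set_option autoImplicit false
open Subgroup MulAction

namespace Cfsg.Agent.H435.Fpr

open Cfsg.Agent.H398.FPR Cfsg.Agent.H110.Fpr Cfsg.Agent.H221.PP Cfsg.Agent.H409
open Module (Dual finrank)

section

variable {F : Type*} [Field F] {V : Type*} [AddCommGroup V] [Module F V]

theorem HD.exists_HX {e f : V} {ε δ : Dual F V} (d : HD e f ε δ) {lam : F} (l0 : lam ≠ 0)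
    (l1 : lam ≠ 1) (l2 : lam ^ 2 ≠ 1) : ∃ x : SpecialLinearGroup F V, HX lam e f ε δ x := by
  have hl : lam * lam⁻¹ = 1 := mul_inv_cancel₀ l0
  have k1 : δ ((lam - 1) • e) = 0 := by rw [map_smul, d.de, smul_zero]
  have k2 : δ ((lam⁻¹ - 1) • e) = 0 := by rw [map_smul, d.de, smul_zero]
  have k3 : ε ((-lam) • f) = 0 := by rw [map_smul, d.ef, smul_zero]
  refine ⟨tv δ ((lam - 1) • e) k1 * tv ε f d.ef * tv δ ((lam⁻¹ - 1) • e) k2 *
    tv ε ((-lam) • f) k3, l0, l1, l2, fun v => ?_⟩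
  have e1 : tv ε ((-lam) • f) k3 v = v + (-lam * ε v) • f := by
    rw [tv_apply]; module
  have e2 : tv δ ((lam⁻¹ - 1) • e) k2 (v + (-lam * ε v) • f) =
      v + ((lam⁻¹ - 1) * (δ v - lam * ε v)) • e + (-lam * ε v) • f := by
    rw [tv_apply, map_add, map_smul, d.df, smul_eq_mul]
    module
  have e3 : tv ε f d.ef (v + ((lam⁻¹ - 1) * (δ v - lam * ε v)) • e + (-lam * ε v) • f) =
      v + ((lam⁻¹ - 1) * (δ v - lam * ε v)) • e +
        (-lam * ε v + ε v + (lam⁻¹ - 1) * (δ v - lam * ε v)) • f := by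
    rw [tv_apply, map_add, map_add, map_smul, map_smul, d.ee, d.ef, smul_eq_mul, smul_eq_mul]
    module
  have e4 : -lam * ε v + ε v + (lam⁻¹ - 1) * (δ v - lam * ε v) = (lam⁻¹ - 1) * δ v := by
    linear_combination (-ε v) * hl
  rw [mul_app, mul_app, mul_app, e1, e2, e3, e4, tv_apply, map_add, map_add, map_smul, map_smul,
    d.df, d.de, smul_eq_mul, smul_eq_mul]
  have e5 : (lam⁻¹ - 1) * (δ v - lam * ε v) +
      (δ v + (lam⁻¹ - 1) * (δ v - lam * ε v) * 0 + (lam⁻¹ - 1) * δ v * 1) * (lam - 1) =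
      (lam - 1) * ε v := by
    linear_combination (δ v - ε v) * hl
  rw [← e5]
  module

theorem HX.pow {lam : F} {e f : V} {ε δ : Dual F V} (d : HD e f ε δ)
    {x : SpecialLinearGroup F V} (h : HX lam e f ε δ x) (n : ℕ) (v : V) :
    (x ^ n) v = v + ((lam ^ n - 1) * ε v) • e + ((lam⁻¹ ^ n - 1) * δ v) • f := by
  induction n with
  | zero =>
    rw [pow_zero, pow_zero, pow_zero, one_app]
    module
  | succ n ih =>
    rw [pow_succ', mul_app, ih, h.eq]
    simp only [map_add, map_smul, d.ee, d.ef, d.de, d.df, smul_eq_mul]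
    rw [pow_succ lam, pow_succ lam⁻¹]
    module

theorem HX.pow_eq_one {lam : F} {e f : V} {ε δ : Dual F V} (d : HD e f ε δ)
    {x : SpecialLinearGroup F V} (h : HX lam e f ε δ x) {p : ℕ} (hl : lam ^ p = 1) :
    x ^ p = 1 := by
  apply ext'
  intro v
  rw [h.pow d, inv_pow, hl, one_app, inv_one, sub_self, zero_mul, zero_mul, zero_smul, zero_smul,
    add_zero, add_zero]

end

section

variable {F : Type*} [Field F] [Finite F] [CharP F 2] {n : ℕ}

theorem exists_card_eq : ∃ a : ℕ, a ≠ 0 ∧ Nat.card F = 2 ^ a := by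
  have := Fintype.ofFinite F
  obtain ⟨a, -, ha⟩ := FiniteField.card F 2
  exact ⟨a, a.2.ne', by rw [Nat.card_eq_fintype_card, ha]⟩

/-- `p ∣ q - 1`. -/
theorem exists_uGood_one (hn : 3 ≤ n) {p M : ℕ} (hp : p.Prime) (hp2 : p ≠ 2)
    (hd : p ∣ Nat.card F - 1) (hM : ∀ t : ℕ, t ≠ 0 → 2 ^ t ≡ 1 [MOD p] → M ≤ 2 ^ t) :
    ∃ x : SpecialLinearGroup F (Fin n → F), x ^ p = 1 ∧ UGood 1 M x := by
  have hfin0 : Finite ((Fin n → F) ≃ₗ[F] (Fin n → F)) := instFin
  have hfin : Finite (SpecialLinearGroup F (Fin n → F)) := inferInstance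
  have := Fact.mk hp
  -- the scalar
  obtain ⟨u, hu⟩ : ∃ u : Fˣ, orderOf u = p := by
    have := Fintype.ofFinite F
    classical
    apply exists_prime_orderOf_dvd_card' p
    rw [Nat.card_eq_fintype_card, Fintype.card_units]
    rwa [Nat.card_eq_fintype_card] at hd
  have l0 : (u : F) ≠ 0 := u.ne_zero
  have l1 : (u : F) ≠ 1 := by
    intro h
    have h1 : u = 1 := Units.ext h
    rw [h1, orderOf_one] at hu
    exact hp.one_lt.ne hu
  have l2 : (u : F) ^ 2 ≠ 1 := by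
    intro h
    have h1 : u ^ 2 = 1 := Units.ext (by push_cast; exact h)
    have h2 := orderOf_dvd_of_pow_eq_one h1
    rw [hu] at h2
    exact hp2 ((Nat.prime_dvd_prime_iff_eq hp Nat.prime_two).1 h2)
  have lp : (u : F) ^ p = 1 := by
    rw [← hu, ← Units.val_pow_eq_pow_val, pow_orderOf_eq_one, Units.val_one]
  -- the vectors
  obtain ⟨i0, h0⟩ : ∃ i : Fin n, i = ⟨0, by omega⟩ := ⟨_, rfl⟩
  obtain ⟨i1, h1⟩ : ∃ i : Fin n, i = ⟨1, by omega⟩ := ⟨_, rfl⟩
  obtain ⟨i2, h3⟩ : ∃ i : Fin n, i = ⟨2, by omega⟩ := ⟨_, rfl⟩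
  have h01 : i0 ≠ i1 := by rw [h0, h1]; simp
  have h20 : i2 ≠ i0 := by rw [h0, h3]; simp
  have h21 : i2 ≠ i1 := by rw [h1, h3]; simp
  clear h0 h1 h3
  have d : HD (F := F) (V := Fin n → F) (Pi.single i0 1) (Pi.single i1 1) (LinearMap.proj i0)
      (LinearMap.proj i1) := by
    refine ⟨?_, ?_, ?_, ?_⟩
    · simp
    · simp [h01]
    · simp [h01.symm]
    · simp
  obtain ⟨x, hx⟩ := d.exists_HX l0 l1 l2
  have hxp := hx.pow_eq_one d lp
  refine ⟨x, hxp, ?_⟩
  refine lin_heis_uGood hp hM ?_ d hx hxp (w0 := Pi.single i2 1) ?_ ?_ ?_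
  · obtain ⟨a, ha0, ha⟩ := exists_card_eq (F := F)
    rw [ha] at hd ⊢
    exact hM a ha0 ((Nat.modEq_iff_dvd' Nat.one_le_two_pow).2 hd).symm
  · intro h
    have := congrFun h i2
    simp at this
  · simp [h20.symm]
  · simp [h21.symm]

/-- `p ∤ q - 1`. -/
theorem exists_LX {p : ℕ} (hp : p.Prime) (hpF : (p : F) ≠ 0) (hd : ¬ p ∣ Nat.card F - 1)
    (hdvd : p ∣ Nat.card (SpecialLinearGroup F (Fin n → F))) :
    (∃ (x : SpecialLinearGroup F (Fin n → F)) (A B : Submodule F (Fin n → F)), x ^ p = 1 ∧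
      LX A B x ∧ B ≠ ⊥ ∧ finrank F A = orderOf ((Nat.card F : ℕ) : ZMod p)) ∨
      ∀ k, p ∣ Nat.card F ^ k - 1 → n ∣ k := by
  have hfin0 : Finite ((Fin n → F) ≃ₗ[F] (Fin n → F)) := instFin
  have hfin : Finite (SpecialLinearGroup F (Fin n → F)) := inferInstance
  have := Fact.mk hp
  obtain ⟨x, hx⟩ := exists_prime_orderOf_dvd_card' p hdvd
  have hxp : x ^ p = 1 := by rw [← hx]; exact pow_orderOf_eq_one x
  have hx1 : x.1 ≠ 1 := by
    intro h
    have h2 : x = 1 := Subtype.ext h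
    rw [h2, orderOf_one] at hx
    exact hp.one_lt.ne hx
  have hxp' : x.1 ^ p = 1 := congrArg Subtype.val hxp
  have hU0 : movS p x.1 ≠ ⊥ := by
    intro h
    obtain ⟨w, hw, hw1⟩ := exists_moved hpF hxp' hx1
    rw [h, Submodule.mem_bot] at hw
    exact hw1 (by rw [hw, map_zero])
  obtain ⟨T, hTU, hT⟩ := exists_isMin (x := x.1) (movS_inv rfl) hU0
  have hfpf : ∀ v ∈ T, x.1 v = v → v = 0 := fun v hv h => eq_zero_of_mem hpF (hTU hv) h
  have hmov : ∃ v ∈ T, x.1 v ≠ v := by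
    obtain ⟨v, hv, hv0⟩ := (Submodule.ne_bot_iff T).1 hT.ne
    exact ⟨v, hv, fun h => hv0 (hfpf v hv h)⟩
  obtain ⟨C, -, hCi, hC1, hC2⟩ := exists_compl hp hpF hxp' hT.inv
    (show Inv x.1 (⊤ : Submodule F (Fin n → F)) from fun _ _ => trivial) le_top
  by_cases hC0 : C = ⊥
  · right
    intro k hk
    have h1 := hT.finrank_dvd hp hxp' hmov hpF hk
    rw [hC0, sup_bot_eq] at hC2
    rwa [hC2, finrank_top, Module.finrank_fintype_fun_eq_card, Fintype.card_fin] at h1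
  · left
    have hcompl : IsCompl T C := ⟨disjoint_iff.2 hC1, codisjoint_iff.2 hC2⟩
    obtain ⟨y, hy1, hy2⟩ := exists_trunc x.1 hcompl hT.inv
    have hyp := trunc_pow_eq_one hxp' hC2 hT.inv hy1 hy2
    have hdet : LinearEquiv.det y = 1 := by
      have h1 : (LinearEquiv.det y) ^ p = 1 := by rw [← map_pow, hyp, map_one]
      have h2 : (LinearEquiv.det y) ^ (Nat.card F - 1) = 1 := by
        classical
        have := Fintype.ofFinite F
        have h3 : Nat.card F - 1 = Fintype.card Fˣ := by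
          rw [Nat.card_eq_fintype_card, Fintype.card_units]
        rw [h3]
        exact pow_card_eq_one
      have h3 : orderOf (LinearEquiv.det y) ∣ p := orderOf_dvd_of_pow_eq_one h1
      have h4 : orderOf (LinearEquiv.det y) ∣ Nat.card F - 1 := orderOf_dvd_of_pow_eq_one h2
      rcases (Nat.dvd_prime hp).1 h3 with h5 | h5
      · exact orderOf_eq_one_iff.1 h5
      · exfalso
        rw [h5] at h4
        exact hd h4
    obtain ⟨z, hz⟩ : ∃ z : SpecialLinearGroup F (Fin n → F), z.1 = y := ⟨⟨y, hdet⟩, rfl⟩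
    have hzv : ∀ v, z v = y v := by
      intro v
      rw [← hz]
    refine ⟨z, T, C, ?_, ⟨hcompl, ?_, ?_, ?_, ?_⟩, hC0, hT.finrank_eq hp hxp' hmov hpF⟩
    · apply Subtype.ext
      have h5 : (z ^ p).1 = z.1 ^ p := rfl
      rw [h5, hz, hyp]
      rfl
    · intro v hv
      rw [hzv, hy1 v hv]
      exact hT.inv v hv
    · intro v hv
      rw [hzv]
      exact hy2 v hv
    · intro v hv hzz
      rw [hzv, hy1 v hv] at hzz
      exact hfpf v hv hzz
    · intro S hS hSz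
      by_cases hS0 : S = ⊥
      · exact Or.inl hS0
      · right
        refine hT.min S hS ?_ hS0
        intro v hv
        have h5 := hSz v hv
        rwa [hzv, hy1 v (hS hv)] at h5

/-- **Mersenne primes**, uniform version. -/
theorem mersenne_uGood (hn : 3 ≤ n) {p k : ℕ} (hp : p.Prime) (hk : p + 1 = 2 ^ k)
    (hdvd : p ∣ Nat.card (SpecialLinearGroup F (Fin n → F))) :
    (∃ x : SpecialLinearGroup F (Fin n → F), x ^ p = 1 ∧ UGood 1 (p + 1) x) ∨
      ∀ k, p ∣ Nat.card F ^ k - 1 → n ∣ k := by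
  have := Fact.mk hp
  have hk0 : k ≠ 0 := by
    rintro rfl
    have := hp.pos
    omega
  have hp2 : p ≠ 2 := by
    rintro rfl
    obtain ⟨j, rfl⟩ := Nat.exists_eq_succ_of_ne_zero hk0
    rw [pow_succ] at hk
    omega
  have hk1 : k ≠ 1 := by
    rintro rfl
    have := hp.one_lt
    omega
  have hkp : k.Prime := by
    have h1 : 2 ^ k - 1 = p := by omega
    exact (Nat.prime_of_pow_sub_one_prime hk1 (by rw [h1]; exact hp)).2
  -- the order of `2`
  have hmod : ∀ t : ℕ, 2 ^ t ≡ 1 [MOD p] ↔ k ∣ t := by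
    have h1 : ((2 : ℕ) : ZMod p) ^ k = 1 := by
      have h3 : ((2 ^ k : ℕ) : ZMod p) = ((p + 1 : ℕ) : ZMod p) := by rw [hk]
      rw [Nat.cast_pow] at h3
      rw [h3]
      simp
    have h2 : orderOf ((2 : ℕ) : ZMod p) = k := by
      refine (Nat.dvd_prime hkp).1 (orderOf_dvd_of_pow_eq_one h1) |>.resolve_left ?_
      intro h3
      rw [orderOf_eq_one_iff] at h3
      have h4 : ((2 : ℕ) : ZMod p) = ((1 : ℕ) : ZMod p) := by rw [h3, Nat.cast_one]
      rw [ZMod.natCast_eq_natCast_iff] at h4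
      have h5 := (Nat.modEq_iff_dvd' (by norm_num : 1 ≤ 2)).1 h4.symm
      exact hp.one_lt.ne' (Nat.dvd_one.1 h5)
    intro t
    rw [← h2, orderOf_dvd_iff_pow_eq_one, ← ZMod.natCast_eq_natCast_iff, Nat.cast_pow,
      Nat.cast_one]
  have hM : ∀ t : ℕ, t ≠ 0 → 2 ^ t ≡ 1 [MOD p] → 2 ^ k ≤ 2 ^ t := by
    intro t ht h
    exact Nat.pow_le_pow_right (by norm_num) (Nat.le_of_dvd (Nat.pos_of_ne_zero ht)
      ((hmod t).1 h))
  obtain ⟨a, ha0, ha⟩ := exists_card_eq (F := F)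
  by_cases hd : p ∣ Nat.card F - 1
  · left
    rw [hk]
    exact exists_uGood_one hn hp hp2 hd hM
  have hpF : (p : F) ≠ 0 := by
    intro h
    rw [CharP.cast_eq_zero_iff F 2] at h
    exact hp2 ((Nat.prime_dvd_prime_iff_eq Nat.prime_two hp).1 h).symm
  refine (exists_LX hp hpF hd hdvd).imp_left ?_
  rintro ⟨x, A, B, hxp, h, hB0, hA⟩
  refine ⟨x, hxp, ?_⟩
  rw [hk]
  -- the dimension of `A`
  have hq1 : (1 : ℕ) ≤ 2 ^ a := Nat.one_le_two_pow
  have hq0 : ((Nat.card F : ℕ) : ZMod p) ≠ 0 := by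
    rw [Ne, ZMod.natCast_eq_zero_iff, ha]
    intro h1
    exact hp2 ((Nat.prime_dvd_prime_iff_eq hp Nat.prime_two).1 (hp.dvd_of_dvd_pow h1))
  have he0 : finrank F A ≠ 0 := by
    rw [hA, ← Units.val_mk0 hq0, orderOf_units]
    exact (orderOf_pos _).ne'
  have he1 : finrank F A ≠ 1 := by
    rw [hA]
    intro h1
    rw [orderOf_eq_one_iff] at h1
    apply hd
    have h4 : ((Nat.card F : ℕ) : ZMod p) = ((1 : ℕ) : ZMod p) := by rw [h1, Nat.cast_one]
    rw [ZMod.natCast_eq_natCast_iff] at h4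
    exact (Nat.modEq_iff_dvd' Nat.card_pos).1 h4.symm
  have hcA : Nat.card A = 2 ^ (a * finrank F A) := by
    rw [Module.natCard_eq_pow_finrank (K := F) (V := A), ha, ← pow_mul]
  have hkd : k ∣ a * finrank F A := by
    rw [← hmod, ← ZMod.natCast_eq_natCast_iff, Nat.cast_one, pow_mul, ← ha, Nat.cast_pow, hA]
    exact pow_orderOf_eq_one _
  by_cases ha1 : a = 1
  · subst ha1
    rw [one_mul] at hkd hcA
    have h2 : Nat.card F = 2 := by rw [ha, pow_one]
    have hAk : finrank F A = k := by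
      apply Nat.dvd_antisymm _ hkd
      rw [hA, h2]
      apply orderOf_dvd_of_pow_eq_one
      rw [← Nat.cast_pow, ← hk]
      simp
    exact h.uGood_two h2 hp hM hxp hB0 (by rw [hcA, hAk]) (by omega)
  · refine h.uGood hp hM hxp hB0 ?_
    rw [hcA]
    apply Nat.pow_lt_pow_right (by norm_num)
    refine lt_of_le_of_ne (Nat.le_of_dvd (Nat.mul_pos (by omega) (by omega)) hkd) ?_
    intro h1
    rw [h1] at hkp
    exact Nat.not_prime_mul ha1 he1 hkp

/-- **The row of S3578 for `SL_n(q)`**, Mersenne primes. -/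
theorem mersenne_SL (hn : 3 ≤ n) {p k : ℕ} (hp : p.Prime) (hk : p + 1 = 2 ^ k)
    (hdvd : p ∣ Nat.card (SpecialLinearGroup F (Fin n → F))) :
    FprRow (p + 1) 1 p (SpecialLinearGroup F (Fin n → F)) ∨
      ∀ k, p ∣ Nat.card F ^ k - 1 → n ∣ k := by
  refine (mersenne_uGood hn hp hk hdvd).imp_left ?_
  rintro ⟨x, hxp, h⟩ H hH
  obtain ⟨m, -, hm⟩ := (Nat.dvd_prime_pow hp).1
    (orderOf_dvd_of_pow_eq_one (show x ^ p ^ 1 = 1 by rw [pow_one, hxp]))
  exact ⟨x, ⟨m, hm⟩, h H hH⟩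

/-- **The row of S3578 for `PSL_n(q)`**, `n ≥ 3`, `q` even, Mersenne primes. -/
theorem mersenne_PSL (hn : 3 ≤ n) {p k : ℕ} (hp : p.Prime) (hk : p + 1 = 2 ^ k)
    (hdvd : p ∣ Nat.card (Matrix.ProjectiveSpecialLinearGroup (Fin n) F)) :
    FprRow (p + 1) 1 p (Matrix.ProjectiveSpecialLinearGroup (Fin n) F) ∨
      ∀ k, p ∣ Nat.card F ^ k - 1 → n ∣ k := by
  have hfin0 : Finite ((Fin n → F) ≃ₗ[F] (Fin n → F)) := instFin
  have hfin : Finite (SpecialLinearGroup F (Fin n → F)) := inferInstance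
  let e : SpecialLinearGroup F (Fin n → F) ≃* Matrix.SpecialLinearGroup (Fin n) F :=
    Matrix.SpecialLinearGroup.toLin'_equiv.symm
  let f : SpecialLinearGroup F (Fin n → F) →* Matrix.ProjectiveSpecialLinearGroup (Fin n) F :=
    (QuotientGroup.mk' (Subgroup.center (Matrix.SpecialLinearGroup (Fin n) F))).comp e.toMonoidHom
  have hf : Function.Surjective f := (QuotientGroup.mk'_surjective _).comp e.surjective
  refine (mersenne_SL hn hp hk (hdvd.trans ?_)).imp_left (FprRow.of_surjective hp f hf)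
  exact Subgroup.card_dvd_of_surjective f hf

end

end Cfsg.Agent.H435.Fpr
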