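import Cfsg.Agent.H435.Fpr.LinFree

/-!
# Linear groups over the field with two elements: two opposite radicals

If `H ≥ radL A`, `x ∈ H`, and `|radL B : H ∩ radL B| ≤ |A|`, then `H` fixes a hyperplane.
-/

set_option autoImplicit false
open Subgroup MulAction

namespace Cfsg.Agent.H435.Fpr

open Cfsg.Agent.H398.FPR Cfsg.Agent.H110.Fpr Cfsg.Agent.H221.PP
open Module (Dual finrank)

section

variable {F : Type*} [Field F] {V : Type*} [AddCommGroup V] [Module F V]
variable {A B : Submodule F V} {x : SpecialLinearGroup F V}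

theorem two_scalar (h2 : Nat.card F = 2) (c : F) : c = 0 ∨ c = 1 := by
  classical
  have : Finite F := Nat.finite_of_card_ne_zero (by omega)
  have := Fintype.ofFinite F
  rw [Nat.card_eq_fintype_card] at h2
  by_contra hc
  push Not at hc
  have h3 : ({0, 1, c} : Finset F).card ≤ Fintype.card F := Finset.card_le_univ _
  rw [Finset.card_insert_of_notMem (by simp [hc.1.symm]),
    Finset.card_insert_of_notMem (by simp [hc.2.symm]), Finset.card_singleton, h2] at h3
  omega

/-- The order of a radical. -/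
theorem card_radL [Finite V] [FiniteDimensional F V] (h : IsCompl A B) :
    Nat.card (radL B) = Nat.card (A →ₗ[F] B) := by
  have hfin0 : Finite (V ≃ₗ[F] V) := instFin
  have hfin : Finite (SpecialLinearGroup F V) := inferInstance
  let f : radL B → (A →ₗ[F] B) := fun g =>
    ((((g : SpecialLinearGroup F V).1 : V →ₗ[F] V) - LinearMap.id) ∘ₗ A.subtype).codRestrict B
      (fun a => g.2.2 a)
  have hf : ∀ (g : radL B) (a : A), (f g a : V) = (g : SpecialLinearGroup F V) a - a :=
    fun g a => rfl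
  refine Nat.card_congr (Equiv.ofBijective f ⟨?_, ?_⟩)
  · intro g g' hg
    apply Subtype.ext
    apply ext'
    intro v
    obtain ⟨a, ha, b, hb, rfl⟩ := compl_dec h v
    have h1 := congrArg Subtype.val (LinearMap.congr_fun hg ⟨a, ha⟩)
    rw [hf, hf] at h1
    rw [app_add, app_add, g.2.1 b hb, g'.2.1 b hb, sub_left_inj.1 h1]
  · intro τ
    obtain ⟨g, hg, h1⟩ := exists_radL (A := B) (H := radL B)
      (fun φ w hw hφ => tv_mem_radL hw hφ _) (B.subtype ∘ₗ τ ∘ₗ A.projectionOnto B h) (by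
        intro v hv
        simp [Submodule.projectionOnto_apply_of_mem_right h hv]) (fun v => (τ _).2)
    refine ⟨⟨g, hg⟩, ?_⟩
    apply LinearMap.ext
    intro a
    apply Subtype.ext
    rw [hf]
    show g a - a = _
    rw [h1]
    simp

/-- the vectors whose root group is in `H` -/
def W0 (B : Submodule F V) (h2 : Nat.card F = 2) (H : Subgroup (SpecialLinearGroup F V)) :
    Submodule F V where
  carrier := {w | ∃ hw : w ∈ B, ∀ (φ : Dual F V) (hφ : ∀ b ∈ B, φ b = 0), tv φ w (hφ w hw) ∈ H}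
  add_mem' := by
    rintro w w' ⟨h1, h3⟩ ⟨h4, h5⟩
    refine ⟨B.add_mem h1 h4, fun φ hφ => ?_⟩
    rw [tv_add_right (hφ w h1) (hφ w' h4)]
    exact H.mul_mem (h3 φ hφ) (h5 φ hφ)
  zero_mem' := by
    refine ⟨B.zero_mem, fun φ hφ => ?_⟩
    have e1 : tv φ 0 (map_zero φ) = 1 := by
      apply ext'
      intro v
      rw [tv_apply, smul_zero, add_zero, one_app]
    rw [e1]
    exact H.one_mem
  smul_mem' := by
    rintro c w ⟨h1, h3⟩
    refine ⟨B.smul_mem c h1, fun φ hφ => ?_⟩
    rcases two_scalar h2 c with rfl | rfl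
    · have e1 : tv φ ((0 : F) • w) (hφ _ (B.smul_mem 0 h1)) = 1 := by
        apply ext'
        intro v
        rw [tv_apply, zero_smul, smul_zero, add_zero, one_app]
      rw [e1]
      exact H.one_mem
    · have e1 : tv φ ((1 : F) • w) (hφ _ (B.smul_mem 1 h1)) = tv φ w (hφ w h1) :=
        tv_congr rfl (one_smul _ _)
      rw [e1]
      exact h3 φ hφ

theorem mem_W0 {h2 : Nat.card F = 2} {H : Subgroup (SpecialLinearGroup F V)} {w : V} :
    w ∈ W0 B h2 H ↔ ∃ hw : w ∈ B, ∀ (φ : Dual F V) (hφ : ∀ b ∈ B, φ b = 0),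
      tv φ w (hφ w hw) ∈ H := Iff.rfl

/-- the functionals all of whose transvections are in `H` -/
def E0 [CharP F 2] (h2 : Nat.card F = 2) (H : Subgroup (SpecialLinearGroup F V)) :
    Submodule F (Dual F V) where
  carrier := {χ | ∀ (v : V) (hv : χ v = 0), tv χ v hv ∈ H}
  zero_mem' := by
    intro v hv
    have e1 : tv (0 : Dual F V) v hv = 1 := by
      apply ext'
      intro v
      rw [tv_apply, LinearMap.zero_apply, zero_smul, add_zero, one_app]
    rw [e1]
    exact H.one_mem
  smul_mem' := by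
    intro c χ h1 v hv
    rcases two_scalar h2 c with rfl | rfl
    · have e1 : tv ((0 : F) • χ) v hv = 1 := by
        apply ext'
        intro v
        rw [tv_apply, LinearMap.smul_apply, zero_smul, zero_smul, add_zero, one_app]
      rw [e1]
      exact H.one_mem
    · have e1 : tv ((1 : F) • χ) v hv = tv χ v (by rwa [one_smul] at hv) :=
        tv_congr (one_smul _ _) rfl
      rw [e1]
      exact h1 v _
  add_mem' := by
    intro χ χ' h1 h3 v hv
    have h2F : (2 : F) = 0 := by
      have := CharP.cast_eq_zero F 2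
      exact_mod_cast this
    by_cases hex : ∃ u, χ' u = 0 ∧ χ u = 1
    · obtain ⟨u, hu1, hu2⟩ := hex
      obtain ⟨y, hy⟩ : ∃ y, y = tv χ' u hu1 := ⟨_, rfl⟩
      have hyH : y ∈ H := by rw [hy]; exact h3 u hu1
      have e2 : ∀ v, χ (y v) = (χ + χ') v := by
        intro v
        rw [hy, tv_apply, map_add, map_smul, hu2, smul_eq_mul, mul_one, LinearMap.add_apply]
      have h4 : χ (y v) = 0 := by rw [e2, hv]
      have e1 : y⁻¹ * tv χ (y v) h4 * y⁻¹⁻¹ = tv (χ + χ') v hv := by
        apply conj_tv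
        · intro v
          rw [← e2, app_inv_app]
        · rw [inv_app_app]
      rw [← e1]
      exact H.mul_mem (H.mul_mem (H.inv_mem hyH) (h1 _ _)) (H.inv_mem (H.inv_mem hyH))
    · push Not at hex
      have h4 : ∀ u, χ' u = 0 → χ u = 0 := by
        intro u hu
        rcases two_scalar h2 (χ u) with h5 | h5
        · exact h5
        · exact absurd h5 (hex u hu)
      by_cases h0 : χ' = 0
      · have e1 : tv (χ + χ') v hv = tv χ v (by rwa [h0, add_zero] at hv) :=
          tv_congr (by rw [h0, add_zero]) rfl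
        rw [e1]
        exact h1 v _
      · obtain ⟨v0, hv0⟩ : ∃ v0, χ' v0 = 1 := by
          by_contra hc
          push Not at hc
          apply h0
          apply LinearMap.ext
          intro v
          rcases two_scalar h2 (χ' v) with h5 | h5
          · exact h5
          · exact absurd h5 (hc v)
        have h5 : ∀ v, χ v = χ' v * χ v0 := by
          intro v
          have h6 := h4 (v - χ' v • v0) (by
            rw [map_sub, map_smul, hv0, smul_eq_mul, mul_one, sub_self])
          rw [map_sub, map_smul, smul_eq_mul, sub_eq_zero] at h6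
          exact h6
        rcases two_scalar h2 (χ v0) with h6 | h6
        · have h7 : χ = 0 := by
            apply LinearMap.ext
            intro v
            rw [h5, h6, mul_zero]
            rfl
          have e1 : tv (χ + χ') v hv = tv χ' v (by rwa [h7, zero_add] at hv) :=
            tv_congr (by rw [h7, zero_add]) rfl
          rw [e1]
          exact h3 v _
        · have h7 : χ + χ' = 0 := by
            apply LinearMap.ext
            intro v
            rw [LinearMap.add_apply, h5, h6, LinearMap.zero_apply]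
            linear_combination (χ' v) * h2F
          have e1 : tv (χ + χ') v hv = 1 := by
            apply ext'
            intro v
            rw [tv_apply, h7, LinearMap.zero_apply, zero_smul, add_zero, one_app]
          rw [e1]
          exact H.one_mem

theorem E0_comp [CharP F 2] {h2 : Nat.card F = 2} {H : Subgroup (SpecialLinearGroup F V)}
    {y : SpecialLinearGroup F V} (hy : y ∈ H) {χ : Dual F V} (hχ : χ ∈ E0 h2 H) :
    χ ∘ₗ (y.1 : V →ₗ[F] V) ∈ E0 h2 H := by
  intro v hv
  have h4 : χ (y v) = 0 := hv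
  have e1 : y⁻¹ * tv χ (y v) h4 * y⁻¹⁻¹ = tv (χ ∘ₗ (y.1 : V →ₗ[F] V)) v hv := by
    apply conj_tv
    · intro v
      show χ (y (y⁻¹ v)) = χ v
      rw [app_inv_app]
    · rw [inv_app_app]
  rw [← e1]
  exact H.mul_mem (H.mul_mem (H.inv_mem hy) (hχ _ _)) (H.inv_mem (H.inv_mem hy))

/-- Levi transvections. -/
theorem levi_mem (hc : IsCompl A B) {H : Subgroup (SpecialLinearGroup F V)} (hA : radL A ≤ H)
    {w : V} (hw : w ∈ B) (hw0 : w ≠ 0) {φ : Dual F V} (hφ : ∀ b ∈ B, φ b = 0)
    (hm : tv φ w (hφ w hw) ∈ H) {u : V} (hu : u ∈ A) (hφu : φ u = 0) : tv φ u hφu ∈ H := by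
  have hwA : w ∉ A := fun h1 => hw0 (compl_eq_zero hc h1 hw)
  obtain ⟨χ, hχw, hχA⟩ := exists_fun hwA
  have h1 : χ (-u) = 0 := hχA _ (A.neg_mem hu)
  have m1 : tv χ (-u) h1 ∈ H := hA (tv_mem_radL (A.neg_mem hu) hχA _)
  have e1 : tv φ w (hφ w hw) * tv χ (-u) h1 * (tv φ w (hφ w hw))⁻¹ * (tv χ (-u) h1)⁻¹ =
      tv φ u hφu := by
    rw [mul_inv_eq_iff_eq_mul, mul_inv_eq_iff_eq_mul]
    apply ext'
    intro v
    simp only [mul_app, tv_apply, map_add, map_smul, map_neg, hφu, hχw, hφ w hw, hχA u hu]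
    module
  rw [← e1]
  exact H.mul_mem (H.mul_mem (H.mul_mem hm m1) (H.inv_mem hm)) (H.inv_mem m1)

/-- Commutators of elements of `radL B` with transvections whose functional vanishes on `B`. -/
theorem comm_mem {H : Subgroup (SpecialLinearGroup F V)} {z : SpecialLinearGroup F V} (hz : z ∈ H)
    (hzB : z ∈ radL B) {φ : Dual F V} (hφ : ∀ b ∈ B, φ b = 0) {u : V} (hφu : φ u = 0)
    (hm : tv φ u hφu ∈ H) : tv φ (z u - u) (hφ _ (hzB.2 u)) ∈ H := by
  have h1 : φ (z u) = 0 := by
    have h2 := hφ _ (hzB.2 u)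
    rw [map_sub, hφu, sub_zero] at h2
    exact h2
  have e1 : z * tv φ u hφu * z⁻¹ = tv φ (z u) h1 := by
    apply conj_tv
    · intro v
      have h2 := hφ _ (hzB.2 v)
      rw [map_sub, sub_eq_zero] at h2
      exact h2
    · rfl
  have e2 : tv φ (z u - u) (hφ _ (hzB.2 u)) = tv φ (z u) h1 * (tv φ u hφu)⁻¹ := by
    rw [eq_mul_inv_iff_mul_eq, ← tv_add_right (hφ _ (hzB.2 u)) hφu (by rw [sub_add_cancel, h1])]
    exact tv_congr rfl (by abel)
  rw [e2, ← e1]
  exact H.mul_mem (H.mul_mem (H.mul_mem hz hm) (H.inv_mem hz)) (H.inv_mem hm)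

theorem LX.mem_W0_of [FiniteDimensional F V] [CharP F 2] (h : LX A B x) (h2 : Nat.card F = 2)
    {H : Subgroup (SpecialLinearGroup F V)} (hxH : x ∈ H) (hA : radL A ≤ H) {w : V} (hw : w ∈ B)
    {φ : Dual F V} (hφ : ∀ b ∈ B, φ b = 0) (hne : φ ≠ 0) (hm : tv φ w (hφ w hw) ∈ H) :
    w ∈ W0 B h2 H := by
  by_cases hw0 : w = 0
  · rw [hw0]
    exact Submodule.zero_mem _
  · exact ⟨hw, fun ψ hψ => h.rank_one hxH hA hw hw0 hφ hne hm hψ⟩

/-- An element of `radL B` which gives an isomorphism `A → B`. -/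
theorem swap_contra [Finite V] [FiniteDimensional F V] [CharP F 2] (hc : IsCompl A B)
    (hAB : finrank F A = finrank F B) (hA1 : 0 < finrank F A) (h2 : Nat.card F = 2)
    {H : Subgroup (SpecialLinearGroup F V)} (hA : radL A ≤ H) {z : SpecialLinearGroup F V}
    (hz : z ∈ H) (hzB : z ∈ radL B) (hinj : ∀ a ∈ A, z a = a → a = 0)
    (hno : ∀ (φ : Dual F V) (hφ : ∀ b ∈ B, φ b = 0) (w : V) (hw : w ∈ B),
      tv φ w (hφ w hw) ∈ H → φ = 0 ∨ w = 0) : False := by
  have h2F : (2 : F) = 0 := by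
    have := CharP.cast_eq_zero F 2
    exact_mod_cast this
  have hdouble : ∀ v : V, v + v = 0 := by
    intro v
    have h3 : v + v = (2 : F) • v := by module
    rw [h3, h2F, zero_smul]
  let τ0 : A →ₗ[F] B := (((z.1 : V →ₗ[F] V) - LinearMap.id) ∘ₗ A.subtype).codRestrict B
    (fun a => hzB.2 a)
  have hτ0 : ∀ a : A, (τ0 a : V) = z a - a := fun a => rfl
  have hτ0i : Function.Injective τ0 := by
    rw [← LinearMap.ker_eq_bot, LinearMap.ker_eq_bot']
    intro a ha
    apply Subtype.ext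
    apply hinj a a.2
    have h3 := congrArg Subtype.val ha
    rw [hτ0] at h3
    exact sub_eq_zero.1 h3
  let τ : A ≃ₗ[F] B := LinearMap.linearEquivOfInjective τ0 hτ0i hAB
  have hτ : ∀ a : A, z a = a + (τ a : V) := by
    intro a
    have h3 : (τ a : V) = z a - a := hτ0 a
    rw [h3]
    abel
  obtain ⟨X, hX, hXv⟩ := exists_radL (A := A) (H := radL A)
    (fun φ w hw hφ => tv_mem_radL hw hφ _)
    (A.subtype ∘ₗ τ.symm.toLinearMap ∘ₗ B.projectionOnto A hc.symm) (by
      intro v hv
      simp [Submodule.projectionOnto_apply_of_mem_right hc.symm hv])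
    (fun v => (τ.symm _).2)
  have hXb : ∀ b : B, X b = b + (τ.symm b : V) := by
    intro b
    rw [hXv]
    simp
  obtain ⟨n, hn⟩ : ∃ n, n = X * z * X := ⟨_, rfl⟩
  have hnH : n ∈ H := by
    rw [hn]
    exact H.mul_mem (H.mul_mem (hA hX) hz) (hA hX)
  have hna : ∀ a : A, n a = (τ a : V) := by
    intro a
    have h3 := hXb (τ a)
    rw [LinearEquiv.symm_apply_apply] at h3
    rw [hn, mul_app, mul_app, hX.1 a a.2, hτ, app_add, hX.1 a a.2, h3]
    have h4 : (a : V) + ((τ a : V) + a) = (τ a : V) + (a + a) := by abel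
    rw [h4, hdouble, add_zero]
  have hnb : ∀ b : B, n b = (τ.symm b : V) := by
    intro b
    have h3 := hτ (τ.symm b)
    rw [LinearEquiv.apply_symm_apply] at h3
    rw [hn, mul_app, mul_app, hXb, app_add, hzB.1 b b.2, h3]
    have h4 : (b : V) + ((τ.symm b : V) + b) = (τ.symm b : V) + (b + b) := by abel
    rw [h4, hdouble, add_zero, hX.1 _ (τ.symm b).2]
  have hninv : ∀ b : B, n⁻¹ b = (τ.symm b : V) := by
    intro b
    apply app_inj n
    rw [app_inv_app, hna, LinearEquiv.apply_symm_apply]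
  have hninv' : ∀ a : A, n⁻¹ (τ a : V) = a := by
    intro a
    rw [hninv, LinearEquiv.symm_apply_apply]
  have hB : radL B ≤ H := by
    intro g hg
    have h3 : n⁻¹ * g * n ∈ radL A := by
      refine ⟨fun a ha => ?_, fun v => ?_⟩
      · have h4 := hna ⟨a, ha⟩
        rw [mul_app, mul_app]
        change n a = _ at h4
        rw [h4, hg.1 _ (τ ⟨a, ha⟩).2, hninv']
      · have h4 : (n⁻¹ * g * n) v - v = n⁻¹ (g (n v) - n v) := by
          rw [mul_app, mul_app, app_sub, inv_app_app]
        rw [h4]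
        have h5 := hninv ⟨_, hg.2 (n v)⟩
        change n⁻¹ (g (n v) - n v) = _ at h5
        rw [h5]
        exact (τ.symm _).2
    have h4 := H.mul_mem (H.mul_mem hnH (hA h3)) (H.inv_mem hnH)
    have h5 : n * (n⁻¹ * g * n) * n⁻¹ = g := by group
    rwa [h5] at h4
  have hA0 : A ≠ ⊥ := by
    rintro rfl
    rw [finrank_bot] at hA1
    omega
  have hB0 : B ≠ ⊥ := by
    rintro rfl
    rw [finrank_bot] at hAB
    omega
  obtain ⟨u, hu, hu0⟩ := (Submodule.ne_bot_iff A).1 hA0
  obtain ⟨w, hw, hw0⟩ := (Submodule.ne_bot_iff B).1 hB0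
  obtain ⟨φ, hφ1, hφB⟩ := exists_fun (fun h3 : u ∈ B => hu0 (compl_eq_zero hc hu h3))
  rcases hno φ hφB w hw (hB (tv_mem_radL hw hφB _)) with h3 | h3
  · rw [h3] at hφ1
    exact zero_ne_one hφ1
  · exact hw0 h3

/-- If `H ∩ radL B` is not trivial, then it contains transvections. -/
theorem LX.W0_ne_bot [Finite F] [Finite V] [FiniteDimensional F V] [CharP F 2] (h : LX A B x)
    (h2 : Nat.card F = 2) {H : Subgroup (SpecialLinearGroup F V)} (hxH : x ∈ H)
    (hA : radL A ≤ H) (hidx : H.relIndex (radL B) ≤ Nat.card A)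
    (hk2 : 2 ≤ finrank F A) {z0 : SpecialLinearGroup F V} (hz0 : z0 ∈ H)
    (hz0B : z0 ∈ radL B) (hz01 : z0 ≠ 1) : W0 B h2 H ≠ ⊥ := by
  have hfin0 : Finite (V ≃ₗ[F] V) := instFin
  have hfin : Finite (SpecialLinearGroup F V) := inferInstance
  intro hW
  have hno : ∀ (φ : Dual F V) (hφ : ∀ b ∈ B, φ b = 0) (w : V) (hw : w ∈ B),
      tv φ w (hφ w hw) ∈ H → φ = 0 ∨ w = 0 := by
    intro φ hφ w hw hm
    by_contra hc
    push Not at hc
    have h3 := h.mem_W0_of h2 hxH hA hw hφ hc.1 hm
    rw [hW, Submodule.mem_bot] at h3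
    exact hc.2 h3
  by_cases hB1 : finrank F B = 1
  · obtain ⟨⟨w, hw⟩, hw0, hspan⟩ := finrank_eq_one_iff'.1 hB1
    have hw0' : w ≠ 0 := fun h3 => hw0 (Subtype.ext h3)
    have hspan' : ∀ b ∈ B, ∃ c : F, c • w = b := by
      intro b hb
      obtain ⟨c, hc⟩ := hspan ⟨b, hb⟩
      exact ⟨c, congrArg Subtype.val hc⟩
    obtain ⟨f, hf, rfl⟩ := eq_tv (v := w) (g := z0) (hz0B.1 w hw) (by
      intro v
      rw [Submodule.mkQ_apply, Submodule.mkQ_apply, Submodule.Quotient.eq]
      obtain ⟨c, hc⟩ := hspan' _ (hz0B.2 v)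
      rw [← hc]
      exact Submodule.smul_mem _ _ (Submodule.mem_span_singleton_self w))
    have hfB : ∀ b ∈ B, f b = 0 := by
      intro b hb
      obtain ⟨c, rfl⟩ := hspan' b hb
      rw [map_smul, hf, smul_zero]
    rcases hno f hfB w hw hz0 with h3 | h3
    · apply hz01
      apply ext'
      intro v
      rw [tv_apply, h3, LinearMap.zero_apply, zero_smul, add_zero, one_app]
    · exact hw0' h3
  · have key : ∀ z ∈ H, z ∈ radL B → z ≠ 1 → ∀ z' ∈ H, z' ∈ radL B → ∀ u ∈ A, z u = u →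
        z' u = u := by
      intro z hz hzB hz1 z' hz' hz'B u hu hzu
      obtain ⟨v, hv⟩ : ∃ v, z v ≠ v := by
        by_contra hc
        push Not at hc
        exact hz1 (ext' hc)
      have hvB := hzB.2 v
      have hvA : z v - v ∉ A := fun h3 => hv (sub_eq_zero.1 (compl_eq_zero h.compl h3 hvB))
      obtain ⟨χ, hχ1, hχA⟩ := exists_fun hvA
      obtain ⟨ψ, hψ⟩ : ∃ ψ : Dual F V, ψ = χ ∘ₗ (z.1 : V →ₗ[F] V) - χ := ⟨_, rfl⟩
      have hψa : ∀ v, ψ v = χ (z v) - χ v := fun v => by rw [hψ]; rfl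
      have hψB : ∀ b ∈ B, ψ b = 0 := fun b hb => by rw [hψa, hzB.1 b hb, sub_self]
      have hψu : ψ u = 0 := by rw [hψa, hzu, sub_self]
      have hχu : χ u = 0 := hχA u hu
      have hχzu : (χ ∘ₗ (z.1 : V →ₗ[F] V)) u = 0 := by
        show χ (z u) = 0
        rw [hzu, hχu]
      have m1 : tv χ u hχu ∈ H := hA (tv_mem_radL hu hχA _)
      have e1 : z⁻¹ * tv χ u hχu * z⁻¹⁻¹ = tv (χ ∘ₗ (z.1 : V →ₗ[F] V)) u hχzu := by
        apply conj_tv
        · intro v
          show χ (z (z⁻¹ v)) = χ v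
          rw [app_inv_app]
        · apply app_inj z
          rw [app_inv_app, hzu]
      have m2 : tv (χ ∘ₗ (z.1 : V →ₗ[F] V)) u hχzu ∈ H := by
        rw [← e1]
        exact H.mul_mem (H.mul_mem (H.inv_mem hz) m1) (H.inv_mem (H.inv_mem hz))
      have e2 : tv ψ u hψu = tv (χ ∘ₗ (z.1 : V →ₗ[F] V)) u hχzu * (tv χ u hχu)⁻¹ := by
        rw [eq_mul_inv_iff_mul_eq, ← tv_add_left hψu hχu (by
          rw [LinearMap.add_apply, hψu, hχu, add_zero])]
        exact tv_congr (by rw [hψ, sub_add_cancel]) rfl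
      have m3 : tv ψ u hψu ∈ H := by
        rw [e2]
        exact H.mul_mem m2 (H.inv_mem m1)
      rcases hno ψ hψB _ (hz'B.2 u) (comm_mem hz' hz'B hψB hψu m3) with h3 | h3
      · exfalso
        have h4 := hψa v
        rw [h3, LinearMap.zero_apply, ← map_sub, hχ1] at h4
        exact zero_ne_one h4
      · exact sub_eq_zero.1 h3
    let T : Submodule F V :=
      { carrier := {u | u ∈ A ∧ z0 u = u}
        add_mem' := fun {a b} ha hb => ⟨A.add_mem ha.1 hb.1, by rw [app_add, ha.2, hb.2]⟩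
        zero_mem' := ⟨A.zero_mem, app_zero z0⟩
        smul_mem' := fun c v hv => ⟨A.smul_mem c hv.1, by rw [app_smul, hv.2]⟩ }
    rcases h.irr T (fun u hu => hu.1) (by
      rintro u ⟨hu1, hu2⟩
      refine ⟨h.xA u hu1, ?_⟩
      have hn : x⁻¹ * z0 * x⁻¹⁻¹ ∈ radL B :=
        (mem_normalizer_iff.1 (inv_mem h.freeB.norm) z0).1 hz0B
      have h3 := key z0 hz0 hz0B hz01 _
        (H.mul_mem (H.mul_mem (H.inv_mem hxH) hz0) (H.inv_mem (H.inv_mem hxH))) hn u hu1 hu2
      rw [inv_inv, mul_app, mul_app] at h3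
      have h4 : x (x⁻¹ (z0 (x u))) = x u := congrArg (fun v => x v) h3
      rwa [app_inv_app] at h4) with hT | hT
    · have hA0 : A ≠ ⊥ := by
        rintro rfl
        rw [finrank_bot] at hk2
        omega
      obtain ⟨u0, hu0, hu00⟩ := (Submodule.ne_bot_iff A).1 hA0
      have hcard : Nat.card (H ⊓ radL B : Subgroup (SpecialLinearGroup F V)) ≤ Nat.card B := by
        refine Nat.card_le_card_of_injective
          (fun z : (H ⊓ radL B : Subgroup (SpecialLinearGroup F V)) =>
            (⟨(z : SpecialLinearGroup F V) u0 - u0, z.2.2.2 u0⟩ : B)) ?_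
        intro z z' hzz
        have h3 : (z : SpecialLinearGroup F V) u0 - u0 = (z' : SpecialLinearGroup F V) u0 - u0 :=
          congrArg Subtype.val hzz
        have h4 : (z : SpecialLinearGroup F V) u0 = (z' : SpecialLinearGroup F V) u0 :=
          sub_left_inj.1 h3
        by_contra hne
        obtain ⟨y, hy⟩ : ∃ y : SpecialLinearGroup F V, y = (z : SpecialLinearGroup F V)⁻¹ * z' :=
          ⟨_, rfl⟩
        have hy1 : y ≠ 1 := by
          intro h5
          rw [h5] at hy
          apply hne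
          apply Subtype.ext
          rw [eq_comm, inv_mul_eq_one] at hy
          exact hy
        have hyu : y u0 = u0 := by
          apply app_inj (z : SpecialLinearGroup F V)
          rw [hy, mul_app, app_inv_app, h4]
        have h6 := key y (by rw [hy]; exact H.mul_mem (H.inv_mem z.2.1) z'.2.1)
          (by rw [hy]; exact (radL B).mul_mem ((radL B).inv_mem z.2.2) z'.2.2) hy1 z0 hz0 hz0B u0
          hu0 hyu
        have h7 : u0 ∈ T := ⟨hu0, h6⟩
        rw [hT, Submodule.mem_bot] at h7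
        exact hu00 h7
      have h3 := relIndex_mul_card H (radL B)
      rw [card_radL h.compl, Module.natCard_eq_pow_finrank (K := F) (V := A →ₗ[F] B),
        Module.finrank_linearMap, h2] at h3
      rw [Module.natCard_eq_pow_finrank (K := F) (V := A), h2] at hidx
      rw [Module.natCard_eq_pow_finrank (K := F) (V := B), h2] at hcard
      have h4 : 2 ^ (finrank F A * finrank F B) ≤ 2 ^ (finrank F A + finrank F B) := by
        rw [← h3, pow_add]
        exact Nat.mul_le_mul hidx hcard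
      have h5 := (Nat.pow_le_pow_iff_right (by norm_num : 1 < 2)).1 h4
      have hB0 : finrank F B ≠ 0 := by
        intro h6
        rw [Submodule.finrank_eq_zero] at h6
        apply hz01
        apply ext'
        intro v
        have h7 := hz0B.2 v
        rw [h6, Submodule.mem_bot] at h7
        rw [sub_eq_zero.1 h7, one_app]
      have h22 : finrank F A = 2 ∧ finrank F B = 2 := by
        obtain ⟨a, ha⟩ := Nat.exists_eq_add_of_le hk2
        obtain ⟨b, hb⟩ := Nat.exists_eq_add_of_le (show 2 ≤ finrank F B by omega)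
        rw [ha, hb] at h5 ⊢
        have h6 : (2 + a) * (2 + b) = 4 + 2 * a + 2 * b + a * b := by ring
        rw [h6] at h5
        have h7 := Nat.zero_le (a * b)
        omega
      exact swap_contra h.compl (h22.1.trans h22.2.symm) (by omega) h2 hA hz0 hz0B (by
        intro a ha haz
        have h7 : a ∈ T := ⟨ha, haz⟩
        rwa [hT, Submodule.mem_bot] at h7) hno
    · apply hz01
      apply ext'
      intro v
      obtain ⟨a, ha, b, hb, rfl⟩ := compl_dec h.compl v
      have h3 : a ∈ T := by rw [hT]; exact ha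
      rw [app_add, h3.2, hz0B.1 b hb, one_app]

/-- The images of the elements of `H ∩ radL B`. -/
theorem LX.sub_mem_W0 [Finite F] [Finite V] [FiniteDimensional F V] [CharP F 2] (h : LX A B x)
    (h2 : Nat.card F = 2) {H : Subgroup (SpecialLinearGroup F V)} (hxH : x ∈ H)
    (hA : radL A ≤ H) (hidx : H.relIndex (radL B) ≤ Nat.card A)
    (hk2 : 2 ≤ finrank F A)
    {z : SpecialLinearGroup F V} (hz : z ∈ H) (hzB : z ∈ radL B) {u : V} (hu : u ∈ A) :
    z u - u ∈ W0 B h2 H := by
  by_cases hz1 : z = 1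
  · rw [hz1, one_app, sub_self]
    exact Submodule.zero_mem _
  obtain ⟨w0, hw0, hw00⟩ :=
    (Submodule.ne_bot_iff _).1 (h.W0_ne_bot h2 hxH hA hidx hk2 hz hzB hz1)
  obtain ⟨hw0B, hw0H⟩ := mem_W0.1 hw0
  obtain ⟨a, haA, hau⟩ : ∃ a ∈ A, a ∉ Submodule.span F {u} := by
    by_contra hc
    push Not at hc
    have h3 : A ≤ Submodule.span F {u} := hc
    have h4 := Submodule.finrank_mono h3
    have h5 := finrank_span_singleton_le' (F := F) u
    omega
  have hna : a ∉ B ⊔ Submodule.span F {u} := by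
    intro h3
    obtain ⟨b, hb, c, hc, hbc⟩ := Submodule.mem_sup.1 h3
    obtain ⟨d, rfl⟩ := Submodule.mem_span_singleton.1 hc
    have h4 : b ∈ A := by
      have h5 : b = a - d • u := by rw [← hbc]; abel
      rw [h5]
      exact A.sub_mem haA (A.smul_mem _ hu)
    have h5 := compl_eq_zero h.compl h4 hb
    rw [h5, zero_add] at hbc
    apply hau
    rw [← hbc]
    exact Submodule.smul_mem _ _ (Submodule.mem_span_singleton_self u)
  obtain ⟨φ, hφa, hφ⟩ := exists_fun hna
  have hφB : ∀ b ∈ B, φ b = 0 := fun b hb => hφ b (Submodule.mem_sup_left hb)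
  have hφu : φ u = 0 := hφ u (Submodule.mem_sup_right (Submodule.mem_span_singleton_self u))
  have hφ0 : φ ≠ 0 := by
    rintro rfl
    exact zero_ne_one hφa
  have m1 := levi_mem h.compl hA hw0B hw00 hφB (hw0H φ hφB) hu hφu
  exact h.mem_W0_of h2 hxH hA (hzB.2 u) hφB hφ0 (comm_mem hz hzB hφB hφu m1)

/-- **Main result**: `H` fixes a hyperplane. -/
theorem LX.fix_dual [Finite F] [Finite V] [FiniteDimensional F V] [CharP F 2] (h : LX A B x)
    (h2 : Nat.card F = 2) {H : Subgroup (SpecialLinearGroup F V)} (hH : H ≠ ⊤) (hxH : x ∈ H)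
    (hA0 : A ≠ ⊥) (hB0 : B ≠ ⊥)
    (hA : radL A ≤ H) (hidx : H.relIndex (radL B) ≤ Nat.card A)
    (hk2 : 2 ≤ finrank F A) :
    ∃ χ : Dual F V, χ ≠ 0 ∧ ∀ g ∈ H, ∀ v, χ (g v) = χ v := by
  have hfin0 : Finite (V ≃ₗ[F] V) := instFin
  have hfin : Finite (SpecialLinearGroup F V) := inferInstance
  have hWB : W0 B h2 H ≤ B := fun w hw => hw.1
  -- the dimension of `W0`
  have hdim : finrank F B ≤ finrank F (W0 B h2 H) + 1 := by
    have hcard : Nat.card (H ⊓ radL B : Subgroup (SpecialLinearGroup F V)) ≤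
        Nat.card (A →ₗ[F] (W0 B h2 H)) := by
      have : Finite (A →ₗ[F] (W0 B h2 H)) :=
        Finite.of_injective (fun f : A →ₗ[F] (W0 B h2 H) => (f : A → W0 B h2 H))
          DFunLike.coe_injective
      refine Nat.card_le_card_of_injective
        (fun z : (H ⊓ radL B : Subgroup (SpecialLinearGroup F V)) =>
          ((((z : SpecialLinearGroup F V).1 : V →ₗ[F] V) - LinearMap.id) ∘ₗ
            A.subtype).codRestrict (W0 B h2 H)
            (fun a => h.sub_mem_W0 h2 hxH hA hidx hk2 z.2.1 z.2.2 a.2)) ?_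
      intro z z' hzz
      apply Subtype.ext
      apply ext'
      intro v
      obtain ⟨a, ha, b, hb, rfl⟩ := compl_dec h.compl v
      have h1 : (z : SpecialLinearGroup F V) a - a = (z' : SpecialLinearGroup F V) a - a :=
        congrArg Subtype.val (LinearMap.congr_fun hzz ⟨a, ha⟩)
      rw [app_add, app_add, z.2.2.1 b hb, z'.2.2.1 b hb, sub_left_inj.1 h1]
    have h3 := relIndex_mul_card H (radL B)
    rw [card_radL h.compl, Module.natCard_eq_pow_finrank (K := F) (V := A →ₗ[F] B),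
      Module.finrank_linearMap, h2] at h3
    rw [Module.natCard_eq_pow_finrank (K := F) (V := A), h2] at hidx
    rw [Module.natCard_eq_pow_finrank (K := F) (V := A →ₗ[F] (W0 B h2 H)),
      Module.finrank_linearMap, h2] at hcard
    have h4 : 2 ^ (finrank F A * finrank F B) ≤
        2 ^ (finrank F A + finrank F A * finrank F (W0 B h2 H)) := by
      rw [← h3, pow_add]
      exact Nat.mul_le_mul hidx hcard
    have h5 := (Nat.pow_le_pow_iff_right (by norm_num : 1 < 2)).1 h4
    have h6 : finrank F A * finrank F B ≤ finrank F A * (finrank F (W0 B h2 H) + 1) := by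
      rw [mul_add, mul_one]
      omega
    exact Nat.le_of_mul_le_mul_left h6 (by omega)
  obtain ⟨w', hw'B, hw'⟩ : ∃ w' ∈ B, w' ∉ W0 B h2 H := by
    by_contra hc
    push Not at hc
    apply hH
    refine lin_gen h.compl hA0 hB0 hA (radL_le ?_)
    intro φ w hw hφ
    exact (hc w hw).2 φ hφ
  have hna : w' ∉ A ⊔ W0 B h2 H := by
    intro h3
    obtain ⟨a, ha, c, hc, hac⟩ := Submodule.mem_sup.1 h3
    have h4 : a ∈ B := by
      have h5 : a = w' - c := by rw [← hac]; abel
      rw [h5]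
      exact B.sub_mem hw'B (hWB hc)
    have h5 := compl_eq_zero h.compl ha h4
    rw [h5, zero_add] at hac
    apply hw'
    rw [← hac]
    exact hc
  obtain ⟨χ0, hχ1, hχ⟩ := exists_fun hna
  have hχA : ∀ a ∈ A, χ0 a = 0 := fun a ha => hχ a (Submodule.mem_sup_left ha)
  have hχW : ∀ w ∈ W0 B h2 H, χ0 w = 0 := fun w hw => hχ w (Submodule.mem_sup_right hw)
  have hχ0 : χ0 ≠ 0 := by
    rintro rfl
    exact zero_ne_one hχ1
  have hK : ∀ b ∈ B, χ0 b = 0 → b ∈ W0 B h2 H := by
    intro b hb hχb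
    have h3 : W0 B h2 H ≤ B ⊓ LinearMap.ker χ0 := le_inf hWB fun w hw => hχW w hw
    have h4 : B ⊓ LinearMap.ker χ0 < B := by
      refine lt_of_le_of_ne inf_le_left ?_
      intro h5
      have h6 : w' ∈ B ⊓ LinearMap.ker χ0 := by rw [h5]; exact hw'B
      have h7 : χ0 w' = 0 := h6.2
      rw [hχ1] at h7
      exact one_ne_zero h7
    have h5 := Submodule.finrank_lt_finrank_of_lt h4
    have h6 := Submodule.eq_of_le_of_finrank_le h3 (by omega)
    rw [h6]
    exact ⟨hb, hχb⟩
  -- a functional nonzero on `A` and zero on `B`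
  have hann : ∀ u ∈ A, u ≠ 0 → ∃ φ : Dual F V, φ u = 1 ∧ ∀ b ∈ B, φ b = 0 := fun u hu hu0 =>
    exists_fun (fun h3 => hu0 (compl_eq_zero h.compl hu h3))
  obtain ⟨u0, hu0, hu00⟩ := (Submodule.ne_bot_iff A).1 hA0
  obtain ⟨φ0, hφ01, hφ0B⟩ := hann u0 hu0 hu00
  have hφ00 : φ0 ≠ 0 := by
    rintro rfl
    exact zero_ne_one hφ01
  -- `χ0` is in `E0`
  have hχE : χ0 ∈ E0 h2 H := by
    intro v hv
    obtain ⟨a, ha, b, hb, rfl⟩ := compl_dec h.compl v
    have hχb : χ0 b = 0 := by rwa [map_add, hχA a ha, zero_add] at hv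
    rw [tv_add_right (hχA a ha) hχb]
    refine H.mul_mem (hA (tv_mem_radL ha hχA _)) ?_
    obtain ⟨_, hbH⟩ := mem_W0.1 (hK b hb hχb)
    have m1 : tv φ0 b (hφ0B b hb) ∈ H := hbH φ0 hφ0B
    have m2 : tv χ0 u0 (hχA u0 hu0) ∈ H := hA (tv_mem_radL hu0 hχA _)
    have e1 : tv φ0 b (hφ0B b hb) * tv χ0 u0 (hχA u0 hu0) * (tv φ0 b (hφ0B b hb))⁻¹ *
        (tv χ0 u0 (hχA u0 hu0))⁻¹ = tv χ0 b hχb := by
      rw [mul_inv_eq_iff_eq_mul, mul_inv_eq_iff_eq_mul]
      apply ext'
      intro v
      simp only [mul_app, tv_apply, map_add, map_smul, hφ0B b hb, hφ01, hχA u0 hu0, hχb]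
      module
    rw [← e1]
    exact H.mul_mem (H.mul_mem (H.mul_mem m1 m2) (H.inv_mem m1)) (H.inv_mem m2)
  refine ⟨χ0, hχ0, ?_⟩
  by_contra hcon
  push Not at hcon
  obtain ⟨g, hg, v1, hv1⟩ := hcon
  have hgE := E0_comp hg hχE
  obtain ⟨χ', hχ'⟩ : ∃ χ' : Dual F V, χ' = χ0 ∘ₗ (g.1 : V →ₗ[F] V) := ⟨_, rfl⟩
  have hχ'a : ∀ v, χ' v = χ0 (g v) := fun v => by rw [hχ']; rfl
  rw [← hχ'] at hgE
  have hχ'0 : χ' ≠ 0 := by
    intro h3
    apply hχ0
    apply LinearMap.ext
    intro v
    have h4 := hχ'a (g⁻¹ v)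
    rw [app_inv_app, h3] at h4
    exact h4.symm
  -- a functional in `E0` which is not zero on `A`
  obtain ⟨ψ, hψE, u, huA, hψu⟩ : ∃ ψ ∈ E0 h2 H, ∃ u ∈ A, ψ u = 1 := by
    obtain ⟨δ, hδ⟩ : ∃ δ : Dual F V, δ = χ' - χ0 := ⟨_, rfl⟩
    have hδE : δ ∈ E0 h2 H := by rw [hδ]; exact Submodule.sub_mem _ hgE hχE
    have hδ0 : δ ≠ 0 := by
      intro h3
      apply hv1
      rw [← hχ'a, ← sub_eq_zero, ← LinearMap.sub_apply, ← hδ, h3]
      rfl
    by_cases hδA : ∃ u ∈ A, δ u = 1
    · obtain ⟨u, hu, hδu⟩ := hδA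
      exact ⟨δ, hδE, u, hu, hδu⟩
    · push Not at hδA
      have hδA' : ∀ u ∈ A, δ u = 0 := fun u hu => (two_scalar h2 (δ u)).resolve_right (hδA u hu)
      by_cases hδW : ∃ w ∈ W0 B h2 H, δ w = 1
      · obtain ⟨w, hw, hδw⟩ := hδW
        obtain ⟨hwB, hwH⟩ := mem_W0.1 hw
        have h3 := E0_comp (hwH φ0 hφ0B) hδE
        have h4 : δ ∘ₗ ((tv φ0 w (hφ0B w hwB)).1 : V →ₗ[F] V) = δ + φ0 := by
          apply LinearMap.ext
          intro v
          show δ (tv φ0 w (hφ0B w hwB) v) = _
          rw [tv_apply, map_add, map_smul, hδw, smul_eq_mul, mul_one, LinearMap.add_apply]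
        rw [h4] at h3
        refine ⟨φ0, ?_, u0, hu0, hφ01⟩
        have h5 := Submodule.sub_mem _ h3 hδE
        rwa [add_sub_cancel_left] at h5
      · push Not at hδW
        have hδW' : ∀ w ∈ W0 B h2 H, δ w = 0 := fun w hw =>
          (two_scalar h2 (δ w)).resolve_right (hδW w hw)
        exfalso
        -- then `χ' = χ0`
        have h3 : ∀ v, δ v = χ0 v * δ w' := by
          intro v
          obtain ⟨a, ha, b, hb, rfl⟩ := compl_dec h.compl v
          have h4 : b - χ0 b • w' ∈ W0 B h2 H := hK _ (B.sub_mem hb (B.smul_mem _ hw'B)) (by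
            rw [map_sub, map_smul, hχ1, smul_eq_mul, mul_one, sub_self])
          have h5 := hδW' _ h4
          rw [map_sub, map_smul, smul_eq_mul, sub_eq_zero] at h5
          rw [map_add, map_add, hδA' a ha, hχA a ha, zero_add, zero_add, h5]
        rcases two_scalar h2 (δ w') with h4 | h4
        · apply hδ0
          apply LinearMap.ext
          intro v
          rw [h3, h4, mul_zero]
          rfl
        · apply hχ'0
          have h5 : χ' = δ + χ0 := by rw [hδ, sub_add_cancel]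
          have h2F : (2 : F) = 0 := by
            have := CharP.cast_eq_zero F 2
            exact_mod_cast this
          rw [h5]
          apply LinearMap.ext
          intro v
          rw [LinearMap.add_apply, h3, h4, LinearMap.zero_apply]
          linear_combination (χ0 v) * h2F
  -- all functionals vanishing on `A`
  have hEA : ∀ χ : Dual F V, (∀ a ∈ A, χ a = 0) → χ ∈ E0 h2 H := by
    intro χ hχA
    have h3 := E0_comp (hA (tv_mem_radL huA hχA (hχA u huA))) hψE
    have h4 : ψ ∘ₗ ((tv χ u (hχA u huA)).1 : V →ₗ[F] V) = ψ + χ := by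
      apply LinearMap.ext
      intro v
      show ψ (tv χ u (hχA u huA) v) = _
      rw [tv_apply, map_add, map_smul, hψu, smul_eq_mul, mul_one, LinearMap.add_apply]
    rw [h4] at h3
    have h5 := Submodule.sub_mem _ h3 hψE
    rwa [add_sub_cancel_left] at h5
  -- decomposition of functionals
  have hdec : ∀ χ : Dual F V, ∃ φ χ1 : Dual F V, (∀ b ∈ B, φ b = 0) ∧ (∀ a ∈ A, χ1 a = 0) ∧
      χ = φ + χ1 := by
    intro χ
    refine ⟨χ ∘ₗ A.projection B h.compl, χ ∘ₗ B.projection A h.compl.symm, ?_, ?_, ?_⟩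
    · intro b hb
      simp only [LinearMap.comp_apply, Submodule.projection_apply_of_mem_right h.compl hb,
        map_zero]
    · intro a ha
      simp only [LinearMap.comp_apply, Submodule.projection_apply_of_mem_right h.compl.symm ha,
        map_zero]
    · apply LinearMap.ext
      intro v
      obtain ⟨a, ha, b, hb, rfl⟩ := compl_dec h.compl v
      simp only [LinearMap.add_apply, LinearMap.comp_apply, map_add,
        Submodule.projection_apply_of_mem_left h.compl ha,
        Submodule.projection_apply_of_mem_left h.compl.symm hb,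
        Submodule.projection_apply_of_mem_right h.compl hb,
        Submodule.projection_apply_of_mem_right h.compl.symm ha, map_zero, add_zero, zero_add]
  have hEB : ∀ φ : Dual F V, (∀ b ∈ B, φ b = 0) → φ ∈ E0 h2 H := by
    obtain ⟨φ, χ1, hφB, hχ1A, hψdec⟩ := hdec ψ
    have hφE : φ ∈ E0 h2 H := by
      have h5 := Submodule.sub_mem _ hψE (hEA χ1 hχ1A)
      rwa [hψdec, add_sub_cancel_right] at h5
    have hφu : φ u = 1 := by
      have h5 := hψu
      rwa [hψdec, LinearMap.add_apply, hχ1A u huA, add_zero] at h5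
    rcases h.dual_irr (E := E0 h2 H ⊓ B.dualAnnihilator) (fun φ hφ =>
      (Submodule.mem_dualAnnihilator _).1 hφ.2) (by
      rintro φ ⟨h3, h4⟩
      refine ⟨E0_comp hxH h3, (Submodule.mem_dualAnnihilator _).2 ?_⟩
      intro b hb
      show φ (x b) = 0
      rw [h.xB b hb, (Submodule.mem_dualAnnihilator _).1 h4 b hb]) with h5 | h5
    · exfalso
      have h6 : φ ∈ E0 h2 H ⊓ B.dualAnnihilator :=
        ⟨hφE, (Submodule.mem_dualAnnihilator _).2 hφB⟩
      rw [h5, Submodule.mem_bot] at h6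
      rw [h6] at hφu
      exact zero_ne_one hφu
    · exact fun φ hφ => (h5 φ hφ).1
  apply hH
  apply eq_top_of_tv
  intro χ v hv
  have h3 : χ ∈ E0 h2 H := by
    obtain ⟨φ, χ1, hφB, hχ1A, hdecχ⟩ := hdec χ
    rw [hdecχ]
    exact Submodule.add_mem _ (hEB φ hφB) (hEA χ1 hχ1A)
  exact h3 v hv

end

end Cfsg.Agent.H435.Fpr
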