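import Cfsg.Agent.H435.Fpr.CentBound
import Cfsg.Agent.TypeM.Two

/-!
# The row of the McLaughlin group, `p = 2`
-/

set_option autoImplicit false
open Subgroup MulAction
open scoped Pointwise

namespace Cfsg.Agent.H435.Fpr.McL

open Cfsg.Agent.SporRec.TwoAn Cfsg.Agent.TypeM.Two Equiv

/-- `(0 1 2 3)(4 5)` -/
def σ : Perm (Fin 8) := swap 0 1 * swap 1 2 * swap 2 3 * swap 4 5

theorem σ_sq : σ * σ = swap 0 2 * swap 1 3 := by decide

variable {C : Type*} [Group C] (K : Cover (Fin 8) C)

include K

/-- centraliser of `σ` in `A₈` -/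
theorem eq_of_apply {a b : C} (ha : K.π a * σ = σ * K.π a) (hb : K.π b * σ = σ * K.π b)
    (h0 : K.π a 0 = K.π b 0) (h4 : K.π a 4 = K.π b 4) : K.π a = K.π b := by
  have key : ∀ i : Fin 8, K.π a i = K.π b i → K.π a (σ i) = K.π b (σ i) := by
    intro i hi
    have h1 : K.π a (σ i) = σ (K.π a i) := congrArg (fun z : Perm (Fin 8) => z i) ha
    have h2 : K.π b (σ i) = σ (K.π b i) := congrArg (fun z : Perm (Fin 8) => z i) hb
    rw [h1, h2, hi]
  have h1 : K.π a 1 = K.π b 1 := key 0 h0
  have h2 : K.π a 2 = K.π b 2 := key 1 h1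
  have h3 : K.π a 3 = K.π b 3 := key 2 h2
  have h5 : K.π a 5 = K.π b 5 := key 4 h4
  -- the quotient is even and fixes `0, …, 5`
  obtain ⟨c, hc⟩ : ∃ c, c = (K.π b)⁻¹ * K.π a := ⟨_, rfl⟩
  have hfix : ∀ i : Fin 8, K.π a i = K.π b i → c i = i := by
    intro i hi
    have : K.π b * c = K.π a := by rw [hc]; group
    apply (K.π b).injective
    rw [← hi]
    exact congrArg (fun z : Perm (Fin 8) => z i) this
  have hs : Perm.sign c = 1 := by
    rw [hc, map_mul, map_inv, Perm.mem_alternatingGroup.1 (K.mem_alternating a),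
      Perm.mem_alternatingGroup.1 (K.mem_alternating b)]
    decide
  have hc1 : c = 1 := by
    have f0 := hfix 0 h0
    have f1 := hfix 1 h1
    have f2 := hfix 2 h2
    have f3 := hfix 3 h3
    have f4 := hfix 4 h4
    have f5 := hfix 5 h5
    have h67 : c 6 = 6 ∨ c 6 = 7 := by
      have n0 : c 6 ≠ 0 := fun h => absurd (c.injective (h.trans f0.symm)) (by decide)
      have n1 : c 6 ≠ 1 := fun h => absurd (c.injective (h.trans f1.symm)) (by decide)
      have n2 : c 6 ≠ 2 := fun h => absurd (c.injective (h.trans f2.symm)) (by decide)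
      have n3 : c 6 ≠ 3 := fun h => absurd (c.injective (h.trans f3.symm)) (by decide)
      have n4 : c 6 ≠ 4 := fun h => absurd (c.injective (h.trans f4.symm)) (by decide)
      have n5 : c 6 ≠ 5 := fun h => absurd (c.injective (h.trans f5.symm)) (by decide)
      revert n0 n1 n2 n3 n4 n5
      generalize c 6 = x
      revert x
      decide
    have h76 : c 7 = 6 ∨ c 7 = 7 := by
      have n0 : c 7 ≠ 0 := fun h => absurd (c.injective (h.trans f0.symm)) (by decide)
      have n1 : c 7 ≠ 1 := fun h => absurd (c.injective (h.trans f1.symm)) (by decide)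
      have n2 : c 7 ≠ 2 := fun h => absurd (c.injective (h.trans f2.symm)) (by decide)
      have n3 : c 7 ≠ 3 := fun h => absurd (c.injective (h.trans f3.symm)) (by decide)
      have n4 : c 7 ≠ 4 := fun h => absurd (c.injective (h.trans f4.symm)) (by decide)
      have n5 : c 7 ≠ 5 := fun h => absurd (c.injective (h.trans f5.symm)) (by decide)
      revert n0 n1 n2 n3 n4 n5
      generalize c 7 = x
      revert x
      decide
    have h78 : c 6 ≠ c 7 := fun h => absurd (c.injective h) (by decide)
    rcases h67 with h6 | h6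
    · have h7 : c 7 = 7 := by
        rcases h76 with h | h
        · exact absurd (h6.trans h.symm) h78
        · exact h
      ext i
      fin_cases i <;> simp [f0, f1, f2, f3, f4, f5, h6, h7]
    · have h7 : c 7 = 6 := by
        rcases h76 with h | h
        · exact h
        · exact absurd (h6.trans h.symm) h78
      exfalso
      have : c = swap 6 7 := by
        apply Equiv.ext
        intro i
        fin_cases i
        · exact f0
        · exact f1
        · exact f2
        · exact f3
        · exact f4
        · exact f5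
        · exact h6
        · exact h7
      rw [this] at hs
      revert hs
      decide
  rw [hc, inv_mul_eq_one] at hc1
  exact hc1.symm

/-- the lift of `σ` does not commute with the lift of `(4 5)(6 7)` -/
theorem not_comm {x y : C} (hx : K.π x = σ) (hy : K.π y = swap 4 5 * swap 6 7) :
    x * y ≠ y * x := by
  intro h
  have hy2 : y * y = K.z := K.dbl 4 5 6 7 (by decide) (by decide) (by decide) (by decide)
    (by decide) (by decide) y hy
  have e1 : x * y * (x * y) = x * x * K.z := by
    calc x * y * (x * y) = x * (y * x) * y := by group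
      _ = x * (x * y) * y := by rw [h]
      _ = x * x * (y * y) := by group
      _ = _ := by rw [hy2]
  obtain ⟨g, hg⟩ := K.exists_lift (Cover.swap_mul_swap_mem (α := Fin 8) 4 6 5 7 (by decide) (by decide))
  have h2 : K.π (g * x * g⁻¹) = K.π (x * y) := by
    rw [map_mul, map_mul, map_inv, map_mul, hg, hx, hy]
    decide
  have h3 : g * x * g⁻¹ * (g * x * g⁻¹) = x * y * (x * y) := by
    rcases K.lift_eq h2 with h4 | h4
    · rw [h4]
    · rw [h4]
      calc x * y * K.z * (x * y * K.z) = x * y * (K.z * (x * y)) * K.z := by group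
        _ = x * y * (x * y * K.z) * K.z := by rw [K.z_comm (x * y)]
        _ = x * y * (x * y) * (K.z * K.z) := by group
        _ = _ := by rw [K.z_mul_z, mul_one]
  have hd : (K.π g).Disjoint (K.π (x * x)) := by
    rw [hg, map_mul, hx, σ_sq]
    change ∀ i : Fin 8, (swap 4 6 * swap 5 7 : Perm (Fin 8)) i = i ∨
      (swap 0 2 * swap 1 3 : Perm (Fin 8)) i = i
    decide
  have h4 := K.commute_of_disjoint hd
  have h5 : g * x * g⁻¹ * (g * x * g⁻¹) = x * x := by
    calc g * x * g⁻¹ * (g * x * g⁻¹) = g * (x * x) * g⁻¹ := by group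
      _ = x * x * g * g⁻¹ := by rw [h4]
      _ = _ := by group
  rw [h5, e1] at h3
  exact K.mul_z_ne _ h3.symm

theorem pow_four {x : C} (hx : K.π x = σ) : x * x * (x * x) = K.z :=
  K.dbl 0 2 1 3 (by decide) (by decide) (by decide) (by decide) (by decide) (by decide) (x * x)
    (by rw [map_mul, hx, σ_sq])

/-- the centraliser of the lift of `σ` -/
theorem card_cent_le [Finite C] {x : C} (hx : K.π x = σ) :
    Nat.card (centralizer ({x} : Set C)) ≤ 8 := by
  classical
  obtain ⟨y, hy⟩ := K.exists_lift (Cover.swap_mul_swap_mem (α := Fin 8) 4 5 6 7 (by decide) (by decide))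
  have hxy := not_comm K hx hy
  have hcomm : ∀ c : C, c * x = x * c → K.π c * σ = σ * K.π c := by
    intro c hc
    rw [← hx, ← map_mul, hc, map_mul]
  have hyσ : K.π y * σ = σ * K.π y := by rw [hy]; decide
  have hzσ : K.π K.z * σ = σ * K.π K.z := by rw [K.π_z, one_mul, mul_one]
  -- the 16 elements of the centraliser modulo the centre
  let S : Type _ := {c : C // K.π c * σ = σ * K.π c}
  have h4ne : ∀ c : Perm (Fin 8), c * σ = σ * c →
      (c 0 = 0 ∨ c 0 = 1 ∨ c 0 = 2 ∨ c 0 = 3) ∧ (c 4 = 4 ∨ c 4 = 5) := by
    intro c hc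
    have a1 : ∀ i, σ (c i) = c (σ i) := fun i => (congrArg (fun z : Perm (Fin 8) => z i) hc).symm
    have b1 : σ (σ (c 0)) ≠ c 0 := by
      rw [a1, a1]
      intro h
      exact absurd (c.injective h) (by decide)
    have b2 : σ (c 4) ≠ c 4 := by
      rw [a1]
      intro h
      exact absurd (c.injective h) (by decide)
    have b3 : σ (σ (c 4)) = c 4 := by
      rw [a1, a1]
      congr 1
    constructor
    · revert b1
      generalize c 0 = i
      revert i
      decide
    · revert b2 b3
      generalize c 4 = i
      revert i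
      decide
  have hS : Nat.card S ≤ 16 := by
    have hf : ∀ s : S, K.π s.1 0 ∈ ({0, 1, 2, 3} : Finset (Fin 8)) ∧
        K.π s.1 4 ∈ ({4, 5} : Finset (Fin 8)) := by
      intro s
      have := h4ne _ s.2
      simpa using this
    -- `K.π` takes at most 8 values on `S`
    let T : Type _ := {q : Perm (Fin 8) // ∃ s : S, K.π s.1 = q}
    have hT : Nat.card T ≤ 8 := by
      have : Nat.card ((({0, 1, 2, 3} : Finset (Fin 8)) ×ˢ ({4, 5} : Finset (Fin 8)) :
          Finset (Fin 8 × Fin 8))) = 8 := by
        rw [Nat.card_eq_fintype_card, Fintype.card_coe]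
        decide
      rw [← this]
      refine Nat.card_le_card_of_injective (fun q => ⟨(q.1 0, q.1 4), ?_⟩) ?_
      · obtain ⟨s, hs⟩ := q.2
        rw [← hs, Finset.mem_product]
        exact hf s
      · rintro ⟨q, s, rfl⟩ ⟨q', s', rfl⟩ h
        have h1 := congrArg (fun w : ((({0, 1, 2, 3} : Finset (Fin 8)) ×ˢ
          ({4, 5} : Finset (Fin 8)) : Finset (Fin 8 × Fin 8))) => (w : Fin 8 × Fin 8)) h
        have h2 := congrArg Prod.fst h1
        have h3 := congrArg Prod.snd h1
        exact Subtype.ext (eq_of_apply K s.2 s'.2 h2 h3)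
    have hlift : ∀ q : T, ∃ s : S, K.π s.1 = q.1 := fun q => q.2
    choose l hl using hlift
    have h2 : Nat.card S ≤ Nat.card (T × Bool) := by
      refine Nat.card_le_card_of_injective
        (fun s => ((⟨K.π s.1, s, rfl⟩ : T), decide (s.1 = (l ⟨K.π s.1, s, rfl⟩).1))) ?_
      intro s s' h
      have h3 := congrArg Prod.fst h
      have h4 := congrArg Prod.snd h
      have h3' : (⟨K.π s.1, s, rfl⟩ : T) = ⟨K.π s'.1, s', rfl⟩ := h3
      have h4' : decide (s.1 = (l ⟨K.π s.1, s, rfl⟩).1) =
        decide (s'.1 = (l ⟨K.π s'.1, s', rfl⟩).1) := h4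
      rw [← h3'] at h4'
      apply Subtype.ext
      by_cases h5 : s.1 = (l ⟨K.π s.1, s, rfl⟩).1
      · rw [decide_eq_true h5, eq_comm, decide_eq_true_iff] at h4'
        rw [h5, ← h4']
      · rw [decide_eq_false h5, eq_comm, decide_eq_false_iff_not] at h4'
        have e0 : K.π (l ⟨K.π s.1, s, rfl⟩).1 = K.π s.1 := hl ⟨K.π s.1, s, rfl⟩
        have e1 : K.π s'.1 = K.π s.1 := (congrArg Subtype.val h3').symm
        rcases K.lift_eq e0 with h6 | h6
        · exact absurd h6.symm h5
        · rcases K.lift_eq (e0.trans e1.symm) with h7 | h7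
          · exact absurd h7.symm h4'
          · rw [h6] at h7
            exact mul_right_cancel h7
    rw [Nat.card_prod, Nat.card_eq_fintype_card (α := Bool), Fintype.card_bool] at h2
    omega
  -- the centraliser of `x` and its translate by `y` are disjoint
  have hinj : Nat.card (centralizer ({x} : Set C)) * 2 ≤ Nat.card S := by
    have h2 : Nat.card ((centralizer ({x} : Set C)) × Bool) ≤ Nat.card S := by
      refine Nat.card_le_card_of_injective
        (fun c => (⟨if c.2 then c.1.1 * y else c.1.1, ?_⟩ : S)) ?_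
      · have h3 := hcomm _ (mem_centralizer_singleton_iff.1 c.1.2)
        rcases c with ⟨c, b⟩
        cases b
        · exact h3
        · change K.π (c.1 * y) * σ = σ * K.π (c.1 * y)
          rw [map_mul, mul_assoc, hyσ, ← mul_assoc, h3, mul_assoc]
      · rintro ⟨c, b⟩ ⟨c', b'⟩ h
        have h3 : (if b then c.1 * y else c.1) = if b' then c'.1 * y else c'.1 :=
          congrArg Subtype.val h
        have hne : ∀ d d' : centralizer ({x} : Set C), d.1 * y ≠ d'.1 := by
          intro d d' hdd
          apply hxy
          have h4 : y ∈ centralizer ({x} : Set C) := by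
            have : y = d.1⁻¹ * d'.1 := by rw [← hdd]; group
            rw [this]
            exact mul_mem (inv_mem d.2) d'.2
          exact (mem_centralizer_singleton_iff.1 h4).symm
        cases b <;> cases b'
        · exact Prod.ext (Subtype.ext h3) rfl
        · exact absurd h3.symm (hne c' c)
        · exact absurd h3 (hne c c')
        · exact Prod.ext (Subtype.ext (mul_right_cancel h3)) rfl
    rw [Nat.card_prod, Nat.card_eq_fintype_card (α := Bool), Fintype.card_bool] at h2
    exact h2
  omega

omit K in
/-- An element of order `8` with centraliser of order at most `8`. -/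
theorem exists_elt {M : Type*} [Group M] [Finite M] (L : MT 8 M) :
    ∃ x : M, orderOf x = 8 ∧ Nat.card (centralizer ({x} : Set M)) ≤ 8 := by
  obtain ⟨x, hx⟩ := L.K.exists_lift (σ := σ) (by
    rw [Perm.mem_alternatingGroup]
    decide)
  have h4 := pow_four L.K hx
  have h4' : (x : M) ^ 4 = L.t := by
    have := congrArg (fun z : centralizer ({L.t} : Set M) => (z : M)) h4
    simp only [Subgroup.coe_mul] at this
    rw [L.hz] at this
    exact (by simp only [pow_succ, pow_zero, one_mul, mul_assoc] :
      (x : M) ^ 4 = (x : M) * x * (x * x)).trans this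
  refine ⟨x, ?_, ?_⟩
  · have h8 : (x : M) ^ 2 ^ 3 = 1 := by
      have : (x : M) ^ 2 ^ 3 = ((x : M) ^ 4) * ((x : M) ^ 4) := by group
      rw [this, h4', L.t_mul_t]
    have h9 : ¬ (x : M) ^ 2 ^ 2 = 1 := by
      have : (x : M) ^ 2 ^ 2 = (x : M) ^ 4 := by norm_num
      rw [this, h4']
      exact L.t_ne
    have := orderOf_eq_prime_pow h9 h8
    simpa using this
  · have h5 := card_cent_le L.K hx
    refine le_trans (Nat.card_le_card_of_injective
      (fun c : centralizer ({(x : M)} : Set M) =>
        (⟨⟨c.1, ?_⟩, ?_⟩ : centralizer ({x} : Set (centralizer ({L.t} : Set M))))) ?_) h5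
    · have h6 : (c.1 : M) * x = x * c.1 := mem_centralizer_singleton_iff.1 c.2
      have h7 : Commute (c.1 : M) ((x : M) ^ 4) := Commute.pow_right h6 4
      rw [h4'] at h7
      exact L.mem_iff.2 h7
    · rw [mem_centralizer_singleton_iff]
      exact Subtype.ext (mem_centralizer_singleton_iff.1 c.2)
    · intro c c' h
      have h6 := congrArg (fun z : centralizer ({x} : Set (centralizer ({L.t} : Set M))) =>
        ((z : centralizer ({L.t} : Set M)) : M)) h
      exact Subtype.ext h6

omit K in
theorem row {M : Type*} [Group M] [Finite M] [IsSimpleGroup M] (L : MT 8 M)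
    (hM : Nat.card M = 898128000) : Cfsg.Agent.H409.FprRow 3 1 2 M := by
  obtain ⟨x, hx, hc⟩ := exists_elt L
  apply Cfsg.Agent.H409.FprRow.of_coatom
  intro H hH
  refine ⟨x, ⟨3, by rw [hx]; norm_num⟩, ?_⟩
  have hx1 : x ≠ 1 := by
    rintro rfl
    rw [orderOf_one] at hx
    norm_num at hx
  have h1 := fix_lt_card_centralizer hx1 H
  have hidx : Nat.card (M ⧸ H) = H.index := rfl
  rw [hidx]
  -- the index is at least 22
  have hfact : Nat.card M ∣ (H.index).factorial := by
    have hinj : Function.Injective (toPermHom M (M ⧸ H)) := by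
      rw [← MonoidHom.ker_eq_bot_iff]
      rcases IsSimpleGroup.eq_bot_or_eq_top_of_normal (toPermHom M (M ⧸ H)).ker inferInstance
        with h | h
      · exact h
      · exfalso
        apply hH.1
        rw [eq_top_iff, ← h, ← normalCore_eq_ker]
        exact H.normalCore_le
    have h2 := Subgroup.card_dvd_of_injective (toPermHom M (M ⧸ H)) hinj
    rw [Nat.card_perm] at h2
    exact h2
  have h14 : 14 ≤ H.index := by
    by_contra hlt
    push Not at hlt
    have h2 := hfact.trans (Nat.factorial_dvd_factorial (show H.index ≤ 13 by omega))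
    rw [hM] at h2
    revert h2
    decide
  have h2 := index_jordan hH (r := 11) (by norm_num) (by rw [hM]; norm_num) (by omega)
    (by rw [hM]; decide)
  omega

end Cfsg.Agent.H435.Fpr.McL
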