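import Cfsg.Agent.H435.Fpr.McL
import Cfsg.Agent.TypeM.FactsMcL

/-!
# The row of the McLaughlin group, `p = 2`
-/

set_option autoImplicit false

namespace Cfsg.Agent.H435.Fpr

/-- `FprRow 3 1 2` for the McLaughlin group. -/
theorem fprRow_mcL_two {M : Type*} [Group M] (h : Cfsg.Spor.IsoMcL M) :
    Cfsg.Agent.H409.FprRow 3 1 2 M := by
  obtain ⟨hfin, hs, hM, ⟨L⟩⟩ := Cfsg.Agent.TypeM.FactsMcL.facts h
  haveI := hfin
  haveI := hs
  exact McL.row L hM

end Cfsg.Agent.H435.Fpr
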