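import Cfsg.Agent.H435.Fpr.OddSets
import Cfsg.Agent.H435.Fpr.Avg

/-!
# Counting `p`-cycles in transitive subgroups of the alternating group
-/

set_option autoImplicit false
open Subgroup MulAction
open scoped Pointwise

namespace Cfsg.Agent.H435.Fpr

theorem two_pow_mul_descFactorial (m k : ℕ) :
    2 ^ k * m.descFactorial k ≤ (2 * m).descFactorial k := by
  induction k with
  | zero => simp
  | succ k ih =>
    rw [Nat.descFactorial_succ, Nat.descFactorial_succ, pow_succ]
    calc 2 ^ k * 2 * ((m - k) * m.descFactorial k) =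
          (2 * (m - k)) * (2 ^ k * m.descFactorial k) := by ring
      _ ≤ (2 * m - k) * (2 * m).descFactorial k := Nat.mul_le_mul (by omega) ih

theorem two_pow_mul_choose (m k : ℕ) : 2 ^ k * m.choose k ≤ (2 * m).choose k := by
  have h := two_pow_mul_descFactorial m k
  rw [Nat.descFactorial_eq_factorial_mul_choose, Nat.descFactorial_eq_factorial_mul_choose] at h
  apply Nat.le_of_mul_le_mul_left _ (Nat.factorial_pos k)
  calc k.factorial * (2 ^ k * m.choose k) = 2 ^ k * (k.factorial * m.choose k) := by ring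
    _ ≤ _ := h

theorem blocks_choose {p a b : ℕ} (hp : 3 ≤ p) (hb : 2 ≤ b) :
    (p + 1) * (b * a.choose p) ≤ (a * b).choose p := by
  rcases Nat.eq_zero_or_pos a with rfl | ha
  · rw [Nat.choose_eq_zero_of_lt (by omega)]
    simp
  obtain ⟨m, rfl⟩ : ∃ m, a = m + 1 := ⟨a - 1, by omega⟩
  obtain ⟨q, rfl⟩ : ∃ q, p = q + 1 := ⟨p - 1, by omega⟩
  obtain ⟨N, hN⟩ : ∃ N, (m + 1) * b = N + 1 := ⟨(m + 1) * b - 1, by
    have : 0 < (m + 1) * b := by positivity
    omega⟩
  rw [hN]
  have h1 := Nat.add_one_mul_choose_eq m q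
  have h2 := Nat.add_one_mul_choose_eq N q
  have h3 : (q + 1 + 1) * m.choose q ≤ N.choose q := by
    have h4 := succ_le_two_pow hp
    rw [Nat.add_sub_cancel] at h4
    calc (q + 1 + 1) * m.choose q ≤ 2 ^ q * m.choose q := Nat.mul_le_mul_right _ h4
      _ ≤ (2 * m).choose q := two_pow_mul_choose m q
      _ ≤ N.choose q := Nat.choose_le_choose _ (by nlinarith)
  apply Nat.le_of_mul_le_mul_right _ (Nat.succ_pos q)
  simp only [Nat.succ_eq_add_one]
  calc (q + 1 + 1) * (b * (m + 1).choose (q + 1)) * (q + 1) =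
        (q + 1 + 1) * b * ((m + 1).choose (q + 1) * (q + 1)) := by ring
    _ = (q + 1 + 1) * b * ((m + 1) * m.choose q) := by rw [h1]
    _ = ((m + 1) * b) * ((q + 1 + 1) * m.choose q) := by ring
    _ = (N + 1) * ((q + 1 + 1) * m.choose q) := by rw [hN]
    _ ≤ (N + 1) * N.choose q := Nat.mul_le_mul_left _ h3
    _ = _ := h2

/-- The `p`-cycles of the alternating group. -/
def PC (n p : ℕ) : Set (alternatingGroup (Fin n)) :=
  {g | (g : Equiv.Perm (Fin n)).cycleType = {p}}

theorem PC.conj {n p : ℕ} {g : alternatingGroup (Fin n)} (hg : g ∈ PC n p)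
    (c : alternatingGroup (Fin n)) : c⁻¹ * g * c ∈ PC n p := by
  change ((c : Equiv.Perm (Fin n))⁻¹ * (g : Equiv.Perm (Fin n)) * c).cycleType = {p}
  have := Equiv.Perm.cycleType_conj (σ := (g : Equiv.Perm (Fin n))) (τ := (c : Equiv.Perm (Fin n))⁻¹)
  rw [inv_inv] at this
  rw [this]
  exact hg

theorem PC.orderOf_eq {n p : ℕ} {g : alternatingGroup (Fin n)} (hg : g ∈ PC n p) :
    orderOf g = p := by
  have h1 : orderOf (g : Equiv.Perm (Fin n)) = orderOf g := Subgroup.orderOf_coe g
  rw [← h1, ← Equiv.Perm.lcm_cycleType, hg]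
  simp

theorem PC.isCycle {n p : ℕ} {g : alternatingGroup (Fin n)} (hg : g ∈ PC n p) :
    (g : Equiv.Perm (Fin n)).IsCycle := by
  rw [← Equiv.Perm.card_cycleType_eq_one, hg]
  simp

theorem PC.card_support {n p : ℕ} {g : alternatingGroup (Fin n)} (hg : g ∈ PC n p) :
    (g : Equiv.Perm (Fin n)).support.card = p := by
  rw [← Equiv.Perm.sum_cycleType, hg]
  simp

theorem mem_alt_of_cycleType {n p : ℕ} (hp : Odd p) {g : Equiv.Perm (Fin n)}
    (hg : g.cycleType = {p}) : g ∈ alternatingGroup (Fin n) := by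
  rw [Equiv.Perm.mem_alternatingGroup, Equiv.Perm.sign_of_cycleType, hg]
  simp only [Multiset.sum_singleton, Multiset.card_singleton]
  rw [pow_succ, hp.neg_one_pow]
  decide

theorem card_PC {n p : ℕ} (hp : Odd p) (hp2 : 2 ≤ p) (hpn : p ≤ n) :
    Nat.card (PC n p) = (p - 1).factorial * n.choose p := by
  classical
  have h := Equiv.Perm.card_of_cycleType_singleton (α := Fin n) hp2 (by
    rwa [Fintype.card_fin])
  rw [Fintype.card_fin] at h
  rw [← h, ← Fintype.card_subtype, ← Nat.card_eq_fintype_card]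
  exact Nat.card_congr ⟨fun g => ⟨g.1, g.2⟩, fun g => ⟨⟨g.1, mem_alt_of_cycleType hp g.2⟩, g.2⟩,
    fun _ => rfl, fun _ => rfl⟩

/-- The number of `p`-cycles supported inside `Δ`. -/
theorem card_cycles_in {n p : ℕ} (hp2 : 2 ≤ p) (Δ : Finset (Fin n)) :
    Nat.card {g : Equiv.Perm (Fin n) // g.cycleType = {p} ∧ g.support ⊆ Δ} ≤
      (p - 1).factorial * Δ.card.choose p := by
  classical
  rcases Nat.lt_or_ge Δ.card p with h | h
  · have : IsEmpty {g : Equiv.Perm (Fin n) // g.cycleType = {p} ∧ g.support ⊆ Δ} := by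
      constructor
      rintro ⟨g, h1, h2⟩
      have h3 := Finset.card_le_card h2
      rw [← Equiv.Perm.sum_cycleType, h1] at h3
      simp at h3
      omega
    rw [Nat.card_of_isEmpty]
    exact Nat.zero_le _
  · have h1 := Equiv.Perm.card_of_cycleType_singleton (α := {x // x ∈ Δ}) hp2 (by
      rwa [Fintype.card_coe])
    rw [Fintype.card_coe] at h1
    rw [← h1, ← Fintype.card_subtype, ← Nat.card_eq_fintype_card]
    have hmem : ∀ g : {g : Equiv.Perm (Fin n) // g.cycleType = {p} ∧ g.support ⊆ Δ},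
        ∀ x : Fin n, g.1 x ∈ Δ ↔ x ∈ Δ := by
      intro g x
      by_cases hx : g.1 x = x
      · rw [hx]
      · have h2 : x ∈ g.1.support := Equiv.Perm.mem_support.2 hx
        have h3 : g.1 x ∈ g.1.support := Equiv.Perm.apply_mem_support.2 h2
        exact ⟨fun _ => g.2.2 h2, fun _ => g.2.2 h3⟩
    have hof : ∀ g : {g : Equiv.Perm (Fin n) // g.cycleType = {p} ∧ g.support ⊆ Δ},
        Equiv.Perm.ofSubtype (g.1.subtypePerm (p := (· ∈ Δ)) (hmem g)) = g.1 := by
      intro g
      apply Equiv.Perm.ofSubtype_subtypePerm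
      intro x hx
      exact g.2.2 (Equiv.Perm.mem_support.2 hx)
    refine Nat.card_le_card_of_injective
      (fun g => (⟨g.1.subtypePerm (p := (· ∈ Δ)) (hmem g), ?_⟩ :
        {g : Equiv.Perm {x // x ∈ Δ} // g.cycleType = {p}})) ?_
    · rw [← Equiv.Perm.cycleType_ofSubtype, hof]
      exact g.2.1
    · intro g g' hgg
      have h2 : g.1.subtypePerm (p := (· ∈ Δ)) (hmem g) =
          g'.1.subtypePerm (p := (· ∈ Δ)) (hmem g') := congrArg Subtype.val hgg
      apply Subtype.ext
      rw [← hof g, ← hof g', h2]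

variable {n p : ℕ} {H : Subgroup (alternatingGroup (Fin n))}

/-- The support of a `p`-cycle of an imprimitive group lies in a block. -/
theorem support_in_block [IsPretransitive H (Fin n)] {B : Set (Fin n)} (hB : IsBlock H B)
    (hB1 : 1 < B.ncard) (hp : p.Prime) {g : alternatingGroup (Fin n)} (hg : g ∈ PC n p)
    (hgH : g ∈ H) :
    ∃ h : H, ∀ z, (g : Equiv.Perm (Fin n)) z ≠ z → z ∈ h • B := by
  classical
  have hc := PC.isCycle hg
  obtain ⟨z, hz⟩ : ∃ z, (g : Equiv.Perm (Fin n)) z ≠ z := by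
    obtain ⟨z, hz, -⟩ := hc
    exact ⟨z, hz⟩
  have hBn : B.Nonempty := by
    rw [← Set.ncard_pos (Set.toFinite _)]
    omega
  obtain ⟨b, hb⟩ := hBn
  obtain ⟨h, hh⟩ := exists_smul_eq H b z
  have hzB : z ∈ h • B := ⟨b, hb, hh⟩
  have hB' : IsBlock H (h • B) := hB.translate h
  have hB1' : 1 < (h • B).ncard := by rwa [Set.ncard_smul_set]
  let γ : H := ⟨g, hgH⟩
  have hγp : γ ^ p = 1 := by
    apply Subtype.ext
    change g ^ p = 1
    rw [← PC.orderOf_eq hg]
    exact pow_orderOf_eq_one g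
  have hpow : ∀ (k : ℕ) (w : Fin n), (γ ^ k) • w = ((g : Equiv.Perm (Fin n)) ^ k) w := by
    intro k w
    rfl
  have hgB : γ • (h • B) = h • B := by
    obtain ⟨w, hw, hwz⟩ := Set.exists_ne_of_one_lt_ncard hB1' z
    by_cases hgw : (g : Equiv.Perm (Fin n)) w = w
    · refine isBlock_iff_smul_eq_of_mem.1 hB' hw ?_
      change (g : Equiv.Perm (Fin n)) w ∈ h • B
      rw [hgw]
      exact hw
    · obtain ⟨k, hk⟩ := hc.exists_pow_eq hz hgw
      have h1 : (γ ^ k) • (h • B) = h • B := by
        refine isBlock_iff_smul_eq_of_mem.1 hB' hzB ?_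
        rw [hpow, hk]
        exact hw
      have hkp : ¬ p ∣ k := by
        rintro ⟨j, rfl⟩
        apply hwz
        rw [← hk, ← hpow, pow_mul, hγp, one_pow, one_smul]
      have hcop : Nat.Coprime k p := ((Nat.Prime.coprime_iff_not_dvd hp).2 hkp).symm
      obtain ⟨m, -, hm⟩ := Nat.exists_mul_mod_eq_one_of_coprime hcop hp.one_lt
      have h2 : (γ ^ k) ^ m = γ := by
        rw [← pow_mul, ← Nat.div_add_mod (k * m) p, hm, pow_add, pow_mul, hγp, one_pow, one_mul,
          pow_one]
      have h3 : ∀ j : ℕ, ((γ ^ k) ^ j) • (h • B) = h • B := by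
        intro j
        induction j with
        | zero => rw [pow_zero, one_smul]
        | succ j ih => rw [pow_succ, mul_smul, h1, ih]
      have h4 := h3 m
      rwa [h2] at h4
  refine ⟨h, ?_⟩
  intro w hw
  obtain ⟨k, hk⟩ := hc.exists_pow_eq hz hw
  have h3 : ∀ j : ℕ, (γ ^ j) • (h • B) = h • B := by
    intro j
    induction j with
    | zero => rw [pow_zero, one_smul]
    | succ j ih => rw [pow_succ, mul_smul, hgB, ih]
  rw [← hk, ← hpow, ← h3 k]
  exact Set.smul_mem_smul_set hzB

/-- The number of `p`-cycles in an imprimitive group. -/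
theorem card_PC_imprim [IsPretransitive H (Fin n)] {B : Set (Fin n)} (hB : IsBlock H B)
    (hB1 : 1 < B.ncard) (hBn : B ≠ Set.univ) (hp : p.Prime) (hp2 : p ≠ 2) (hpn : p ≤ n) :
    (p + 1) * Nat.card {g : alternatingGroup (Fin n) // g ∈ PC n p ∧ g ∈ H} ≤
      1 * Nat.card (PC n p) := by
  classical
  have hp3 : 3 ≤ p := by
    have := hp.two_le
    omega
  have hBne : B.Nonempty := by
    rw [← Set.ncard_pos (Set.toFinite _)]
    omega
  set R : Set (Set (Fin n)) := Set.range (fun h : H => h • B) with hR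
  have hcard : B.ncard * R.ncard = n := by
    have := hB.ncard_block_mul_ncard_orbit_eq hBne
    rw [Nat.card_eq_fintype_card, Fintype.card_fin] at this
    exact this
  have hR2 : 2 ≤ R.ncard := by
    by_contra hcon
    have h0 : R.ncard = 0 ∨ R.ncard = 1 := by omega
    rcases h0 with h0 | h0
    · rw [h0, mul_zero] at hcard
      have := hp.pos
      omega
    · rw [h0, mul_one] at hcard
      apply hBn
      rw [Set.eq_univ_iff_ncard, Nat.card_eq_fintype_card, Fintype.card_fin]
      exact hcard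
  have : Fintype R := Fintype.ofFinite R
  have hle : Nat.card {g : alternatingGroup (Fin n) // g ∈ PC n p ∧ g ∈ H} ≤
      R.ncard * ((p - 1).factorial * B.ncard.choose p) := by
    choose F hF using fun g : {g : alternatingGroup (Fin n) // g ∈ PC n p ∧ g ∈ H} =>
      support_in_block hB hB1 hp g.2.1 g.2.2
    have h1 : Nat.card {g : alternatingGroup (Fin n) // g ∈ PC n p ∧ g ∈ H} ≤
        Nat.card (Σ D : R, {g : Equiv.Perm (Fin n) // g.cycleType = {p} ∧
          g.support ⊆ D.1.toFinset}) := by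
      refine Nat.card_le_card_of_injective (fun g => ⟨⟨F g • B, ⟨F g, rfl⟩⟩,
        ⟨(g.1 : Equiv.Perm (Fin n)), g.2.1, ?_⟩⟩) ?_
      · intro z hz
        rw [Equiv.Perm.mem_support] at hz
        rw [Set.mem_toFinset]
        exact hF g z hz
      · intro g g' hgg
        have h2 := congrArg (fun z : (Σ D : R, {g : Equiv.Perm (Fin n) // g.cycleType = {p} ∧
          g.support ⊆ D.1.toFinset}) => z.2.1) hgg
        exact Subtype.ext (Subtype.ext h2)
    refine h1.trans ?_
    rw [Nat.card_sigma]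
    calc ∑ D : R, Nat.card {g : Equiv.Perm (Fin n) // g.cycleType = {p} ∧
          g.support ⊆ D.1.toFinset} ≤
        ∑ _D : R, ((p - 1).factorial * B.ncard.choose p) := by
          apply Finset.sum_le_sum
          rintro ⟨D, ⟨h, rfl⟩⟩ -
          refine (card_cycles_in hp.two_le _).trans ?_
          rw [← Set.ncard_eq_toFinset_card']
          simp only [Set.ncard_smul_set]
          exact le_rfl
      _ = _ := by
          rw [Finset.sum_const, Finset.card_univ, smul_eq_mul, ← Nat.card_eq_fintype_card,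
            Nat.card_coe_set_eq]
  have h2 := blocks_choose (a := B.ncard) (b := R.ncard) hp3 hR2
  rw [hcard] at h2
  rw [card_PC (hp.odd_of_ne_two hp2) hp.two_le hpn, one_mul]
  calc (p + 1) * Nat.card {g : alternatingGroup (Fin n) // g ∈ PC n p ∧ g ∈ H} ≤
      (p + 1) * (R.ncard * ((p - 1).factorial * B.ncard.choose p)) := Nat.mul_le_mul_left _ hle
    _ = (p - 1).factorial * ((p + 1) * (R.ncard * B.ncard.choose p)) := by ring
    _ ≤ _ := Nat.mul_le_mul_left _ h2

end Cfsg.Agent.H435.Fpr
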