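import Cfsg.Agent.H435.Fpr.OddCycle
import Cfsg.Agent.H427.Bochert
import Cfsg.Agent.S0713

/-!
# Counting `p`-cycles in primitive subgroups of the alternating group
-/

set_option autoImplicit false
open Subgroup MulAction
open scoped Pointwise

namespace Cfsg.Agent.H435.Fpr

variable {n p : ℕ} {H : Subgroup (alternatingGroup (Fin n))}

theorem prim_map (hprim : IsPreprimitive H (Fin n)) :
    IsPreprimitive (H.map (alternatingGroup (Fin n)).subtype) (Fin n) := by
  let K := H.map (alternatingGroup (Fin n)).subtype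
  let φ : H → K := fun h => ⟨(h : alternatingGroup (Fin n)), ⟨h.1, h.2, rfl⟩⟩
  let f : Fin n →ₑ[φ] Fin n := ⟨id, fun h i => rfl⟩
  exact IsPreprimitive.of_surjective (f := f) Function.surjective_id

theorem not_le_map (hH : H ≠ ⊤) :
    ¬ alternatingGroup (Fin n) ≤ H.map (alternatingGroup (Fin n)).subtype := by
  intro h1
  apply hH
  rw [eq_top_iff]
  rintro y -
  obtain ⟨z, hz, hzy⟩ := h1 y.2
  have : z = y := Subtype.ext hzy
  rwa [← this]

theorem prim_jordan (hn : 5 ≤ n) (hH : H ≠ ⊤) (hprim : IsPreprimitive H (Fin n)) (hp : p.Prime)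
    (hpn : p + 3 ≤ n) : Nat.card {g : alternatingGroup (Fin n) // g ∈ PC n p ∧ g ∈ H} = 0 := by
  rw [Nat.card_eq_zero]
  left
  constructor
  rintro ⟨g, hg, hgH⟩
  exact not_le_map hH (Cfsg.Agent.S0713.result _ (prim_map hprim) hp (by
    rwa [Fintype.card_fin]) (by rwa [Fintype.card_fin]) (PC.isCycle hg) (PC.card_support hg)
    ⟨g, hgH, rfl⟩)

theorem prim_bochert (hH : H ≠ ⊤) (hprim : IsPreprimitive H (Fin n)) :
    Nat.card H * ((n + 1) / 2).factorial ≤ n.factorial := by
  have h := Cfsg.Agent.H427.bochert _ (prim_map hprim) (not_le_map hH)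
  rw [Fintype.card_fin] at h
  rwa [← Nat.card_congr (H.equivMapOfInjective _ (alternatingGroup (Fin n)).subtype_injective
    ).toEquiv] at h

theorem card_le_card : Nat.card {g : alternatingGroup (Fin n) // g ∈ PC n p ∧ g ∈ H} ≤
    Nat.card H :=
  Nat.card_le_card_of_injective (fun g => (⟨g.1, g.2.2⟩ : H)) (fun _ _ h =>
    Subtype.ext (congrArg (fun z : H => (z : alternatingGroup (Fin n))) h))

theorem factorial_bound {m : ℕ} (hm : 6 ≤ m) : (2 * m - 1) * (2 * m) ≤ m.factorial := by
  induction m, hm using Nat.le_induction with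
  | base => decide
  | succ m hm ih =>
    rw [Nat.factorial_succ]
    have h1 : (2 * (m + 1) - 1) * (2 * (m + 1)) ≤ (m + 1) * ((2 * m - 1) * (2 * m)) := by
      have e1 : 2 * (m + 1) - 1 = 2 * m + 1 := by omega
      obtain ⟨q, rfl⟩ : ∃ q, m = q + 1 := ⟨m - 1, by omega⟩
      have e2 : 2 * (q + 1) - 1 = 2 * q + 1 := by omega
      rw [e1, e2]
      have h2 : 2 * (2 * (q + 1) + 1) ≤ (2 * q + 1) * (2 * (q + 1)) := by nlinarith
      calc (2 * (q + 1) + 1) * (2 * (q + 1 + 1)) = (q + 1 + 1) * (2 * (2 * (q + 1) + 1)) := by ring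
        _ ≤ _ := Nat.mul_le_mul_left _ h2
    exact h1.trans (Nat.mul_le_mul_left _ ih)

theorem prim_big (hH : H ≠ ⊤) (hprim : IsPreprimitive H (Fin n)) (hp : p.Prime) (hp11 : 11 ≤ p)
    (hcase : n = p ∨ n = p + 1) :
    (p + 1) * Nat.card {g : alternatingGroup (Fin n) // g ∈ PC n p ∧ g ∈ H} ≤
      1 * Nat.card (PC n p) := by
  have hodd : Odd p := hp.odd_of_ne_two (by omega)
  rw [card_PC hodd hp.two_le (by omega), one_mul]
  have hb := prim_bochert hH hprim
  obtain ⟨q, hq⟩ := hodd
  have e1 : (n + 1) / 2 = q + 1 := by omega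
  rw [e1] at hb
  have h2 := factorial_bound (m := q + 1) (by omega)
  have e2 : 2 * (q + 1) - 1 = p := by omega
  have e3 : 2 * (q + 1) = p + 1 := by omega
  rw [e2, e3] at h2
  set X := (q + 1).factorial with hX
  have hXpos : 0 < X := Nat.factorial_pos _
  have h3 := card_le_card (n := n) (p := p) (H := H)
  apply Nat.le_of_mul_le_mul_right _ hXpos
  have h4 : (p + 1) * n.factorial ≤ (p - 1).factorial * n.choose p * X := by
    rcases hcase with h | h
    · subst h
      rw [Nat.choose_self, mul_one]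
      obtain ⟨r, rfl⟩ : ∃ r, n = r + 1 := ⟨n - 1, by omega⟩
      rw [Nat.add_sub_cancel, Nat.factorial_succ]
      calc (r + 1 + 1) * ((r + 1) * r.factorial) =
          r.factorial * ((r + 1) * (r + 1 + 1)) := by ring
        _ ≤ r.factorial * X := Nat.mul_le_mul_left _ h2
    · subst h
      rw [Nat.choose_succ_self_right]
      obtain ⟨r, rfl⟩ : ∃ r, p = r + 1 := ⟨p - 1, by omega⟩
      rw [Nat.add_sub_cancel, Nat.factorial_succ, Nat.factorial_succ]
      calc (r + 1 + 1) * ((r + 1 + 1) * ((r + 1) * r.factorial)) =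
          r.factorial * (r + 1 + 1) * ((r + 1) * (r + 1 + 1)) := by ring
        _ ≤ r.factorial * (r + 1 + 1) * X := Nat.mul_le_mul_left _ h2
  calc (p + 1) * Nat.card {g : alternatingGroup (Fin n) // g ∈ PC n p ∧ g ∈ H} * X ≤
      (p + 1) * Nat.card H * X := by gcongr
    _ = (p + 1) * (Nat.card H * X) := by ring
    _ ≤ (p + 1) * n.factorial := Nat.mul_le_mul_left _ hb
    _ ≤ _ := h4

/-- The number of `p`-cycles in `H` is at most the number of nontrivial elements in the Sylow
subgroups. -/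
theorem card_le_sylow [Fact p.Prime] (P : Sylow p H) :
    Nat.card {g : alternatingGroup (Fin n) // g ∈ PC n p ∧ g ∈ H} ≤
      Nat.card (Sylow p H) * (Nat.card P - 1) := by
  classical
  have hp : p.Prime := Fact.out
  have hex : ∀ g : {g : alternatingGroup (Fin n) // g ∈ PC n p ∧ g ∈ H}, ∃ Q : Sylow p H,
      (⟨g.1, g.2.2⟩ : H) ∈ Q := by
    intro g
    have h1 : IsPGroup p (zpowers (⟨g.1, g.2.2⟩ : H)) := by
      rw [IsPGroup.iff_card]
      refine ⟨1, ?_⟩
      rw [Nat.card_zpowers, pow_one]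
      exact (Subgroup.orderOf_mk _ _).trans (PC.orderOf_eq g.2.1)
    obtain ⟨Q, hQ⟩ := h1.exists_le_sylow
    exact ⟨Q, hQ (mem_zpowers _)⟩
  choose Q hQ using hex
  have hcard : ∀ Q : Sylow p H, Nat.card {x : Q // x ≠ 1} = Nat.card P - 1 := by
    intro Q
    have : Fintype Q := Fintype.ofFinite _
    rw [Nat.card_eq_fintype_card, Fintype.card_subtype_compl, Fintype.card_subtype_eq,
      ← Nat.card_eq_fintype_card]
    have h1 : Nat.card Q = Nat.card P := by
      rw [Sylow.card_eq_multiplicity Q, Sylow.card_eq_multiplicity P]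
    exact congrArg (· - 1) h1
  have h1 : Nat.card {g : alternatingGroup (Fin n) // g ∈ PC n p ∧ g ∈ H} ≤
      Nat.card (Σ Q : Sylow p H, {x : Q // x ≠ 1}) := by
    refine Nat.card_le_card_of_injective
      (fun g => ⟨Q g, ⟨⟨⟨g.1, g.2.2⟩, hQ g⟩, ?_⟩⟩) ?_
    · intro h
      have h2 : g.1 = 1 := congrArg (fun z : Q g => ((z : H) : alternatingGroup (Fin n))) h
      have h3 := PC.orderOf_eq g.2.1
      rw [h2, orderOf_one] at h3
      exact hp.one_lt.ne h3
    · intro g g' hgg
      have h2 := congrArg (fun z : (Σ Q : Sylow p H, {x : Q // x ≠ 1}) =>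
        ((z.2.1 : H) : alternatingGroup (Fin n))) hgg
      exact Subtype.ext h2
  refine h1.trans ?_
  have : Fintype (Sylow p H) := Fintype.ofFinite _
  rw [Nat.card_sigma]
  simp only [hcard]
  rw [Finset.sum_const, Finset.card_univ, smul_eq_mul, ← Nat.card_eq_fintype_card]

theorem prim_small [Fact p.Prime] (hH : H ≠ ⊤) (hprim : IsPreprimitive H (Fin n))
    (hcase : (n = 5 ∧ p = 5) ∨ (n = 6 ∧ p = 5) ∨ (n = 7 ∧ p = 7) ∨ (n = 8 ∧ p = 7)) :
    (p + 1) * Nat.card {g : alternatingGroup (Fin n) // g ∈ PC n p ∧ g ∈ H} ≤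
      1 * Nat.card (PC n p) := by
  classical
  have hp : p.Prime := Fact.out
  have hodd : Odd p := hp.odd_of_ne_two (by omega)
  have hb := prim_bochert hH hprim
  obtain ⟨P⟩ : Nonempty (Sylow p H) := inferInstance
  have h1 := card_le_sylow (n := n) P
  have h2 := P.card_dvd_index
  have h3 := card_sylow_modEq_one p H
  have h4 : Nat.card P * (P : Subgroup H).index = Nat.card H := Subgroup.card_mul_index _
  have h5 : Nat.card H ∣ Nat.card (alternatingGroup (Fin n)) := Subgroup.card_subgroup_dvd_card H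
  have h6 : 2 * Nat.card (alternatingGroup (Fin n)) = n.factorial := by
    have : Nontrivial (Fin n) := Fin.nontrivial_iff_two_le.2 (by omega)
    have := two_mul_nat_card_alternatingGroup (α := Fin n)
    rw [this, Nat.card_perm, Nat.card_eq_fintype_card, Fintype.card_fin]
  rw [card_PC hodd hp.two_le (by omega), one_mul]
  obtain ⟨j, hj⟩ := (IsPGroup.iff_card).1 P.isPGroup'
  have hj1 : j ≤ 1 := by
    by_contra hcon
    have h7 : p ^ 2 ∣ n.factorial := by
      rw [← h6]
      refine Dvd.dvd.mul_left ?_ 2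
      refine (?_ : p ^ 2 ∣ Nat.card H).trans h5
      rw [← h4, hj]
      exact (pow_dvd_pow p (by omega)).mul_right _
    rcases hcase with ⟨rfl, rfl⟩ | ⟨rfl, rfl⟩ | ⟨rfl, rfl⟩ | ⟨rfl, rfl⟩ <;>
      exact absurd h7 (by decide)
  set ν := Nat.card (Sylow p H)
  set N := Nat.card {g : alternatingGroup (Fin n) // g ∈ PC n p ∧ g ∈ H}
  rcases Nat.eq_zero_or_pos j with h0 | h0
  · rw [hj, h0] at h1
    simp at h1
    rw [h1]
    simp
  · have h8 : Nat.card P = p := by rw [hj, show j = 1 by omega, pow_one]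
    rw [h8] at h1 h4
    obtain ⟨c, hc⟩ := h5
    have h9 : (P : Subgroup H).index ∣ Nat.card (alternatingGroup (Fin n)) / p := by
      rw [hc, ← h4, mul_assoc, Nat.mul_div_cancel_left _ hp.pos]
      exact Dvd.intro _ rfl
    have h10 := h2.trans h9
    have h11 : ν ≤ (P : Subgroup H).index := Nat.le_of_dvd (Nat.pos_of_ne_zero
      Subgroup.index_ne_zero_of_finite) h2
    have h12 : p * ν * ((n + 1) / 2).factorial ≤ n.factorial := by
      calc p * ν * ((n + 1) / 2).factorial ≤
          p * (P : Subgroup H).index * ((n + 1) / 2).factorial := by gcongr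
        _ ≤ _ := by rw [h4]; exact hb
    have h13 : Nat.card (alternatingGroup (Fin n)) = n.factorial / 2 := by omega
    rw [h13] at h10
    have h14 : ν % p = 1 := by
      have := h3
      unfold Nat.ModEq at this
      rw [this]
      exact Nat.mod_eq_of_lt hp.one_lt
    clear_value ν N
    rcases hcase with ⟨rfl, rfl⟩ | ⟨rfl, rfl⟩ | ⟨rfl, rfl⟩ | ⟨rfl, rfl⟩
    · have k1 : ∀ ν ≤ 4, ν % 5 = 1 → ν ≤ 1 := by decide
      have k2 := k1 ν (by simp [Nat.factorial] at h12; omega) h14
      simp [Nat.factorial]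
      omega
    · have k1 : ∀ ν ≤ 24, ν ∣ 72 → ν % 5 = 1 → ν ≤ 6 := by decide
      have k2 := k1 ν (by simp [Nat.factorial] at h12; omega) (by simpa [Nat.factorial] using h10) h14
      simp [Nat.factorial, Nat.choose]
      omega
    · have k1 : ∀ ν ≤ 30, ν ∣ 360 → ν % 7 = 1 → ν ≤ 15 := by decide
      have k2 := k1 ν (by simp [Nat.factorial] at h12; omega) (by simpa [Nat.factorial] using h10) h14
      simp [Nat.factorial]
      omega
    · have k1 : ∀ ν ≤ 240, ν ∣ 2880 → ν % 7 = 1 → ν ≤ 120 := by decide +kernel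
      have k2 := k1 ν (by simp [Nat.factorial] at h12; omega) (by simpa [Nat.factorial] using h10) h14
      simp [Nat.factorial, Nat.choose]
      omega

end Cfsg.Agent.H435.Fpr
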