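import Cfsg.Agent.H435.Fpr.AltSets

/-!
# The action of the alternating group on subsets: `p`-elements with few fixed subsets, `p` odd
-/

set_option autoImplicit false
open Subgroup MulAction
open scoped Pointwise

namespace Cfsg.Agent.H435.Fpr

theorem choose_mul_choose_le (a b i j : ℕ) :
    a.choose i * b.choose j ≤ (a + b).choose (i + j) := by
  rw [Nat.add_choose_eq]
  have hmem : (i, j) ∈ (Finset.HasAntidiagonal.antidiagonal (i + j) : Finset (ℕ × ℕ)) := by
    rw [Finset.HasAntidiagonal.mem_antidiagonal]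
  exact Finset.single_le_sum (f := fun ij : ℕ × ℕ => a.choose ij.1 * b.choose ij.2)
    (fun _ _ => Nat.zero_le _) hmem

theorem pow_choose_le (s j p : ℕ) : (s.choose j) ^ p ≤ (p * s).choose (p * j) := by
  induction p with
  | zero => simp
  | succ p ih =>
    rw [pow_succ]
    calc (s.choose j) ^ p * s.choose j ≤ (p * s).choose (p * j) * s.choose j :=
          Nat.mul_le_mul_right _ ih
      _ ≤ (p * s + s).choose (p * j + j) := choose_mul_choose_le _ _ _ _
      _ = _ := by rw [Nat.succ_mul, Nat.succ_mul]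

theorem mul_choose_le_mul_choose {d n j : ℕ} (hdn : d ≤ n) (hj : 1 ≤ j) :
    n * d.choose j ≤ d * n.choose j := by
  obtain ⟨j, rfl⟩ : ∃ i, j = i + 1 := ⟨j - 1, by omega⟩
  rcases Nat.eq_zero_or_pos d with rfl | hd
  · simp
  obtain ⟨d, rfl⟩ : ∃ i, d = i + 1 := ⟨d - 1, by omega⟩
  obtain ⟨n, rfl⟩ : ∃ i, n = i + 1 := ⟨n - 1, by omega⟩
  have h1 := Nat.add_one_mul_choose_eq d j
  have h2 := Nat.add_one_mul_choose_eq n j
  have h3 : d.choose j ≤ n.choose j := Nat.choose_le_choose _ (by omega)
  apply Nat.le_of_mul_le_mul_right _ (Nat.succ_pos j)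
  simp only [Nat.succ_eq_add_one]
  calc (n + 1) * (d + 1).choose (j + 1) * (j + 1) =
        (n + 1) * ((d + 1).choose (j + 1) * (j + 1)) := by ring
    _ = (n + 1) * ((d + 1) * d.choose j) := by rw [h1]
    _ ≤ (n + 1) * ((d + 1) * n.choose j) := by gcongr
    _ = (d + 1) * ((n + 1) * n.choose j) := by ring
    _ = (d + 1) * ((n + 1).choose (j + 1) * (j + 1)) := by rw [h2]
    _ = _ := by ring

theorem small_choose {p s d j : ℕ} (hds : d ≤ s) (hj : 1 ≤ j) :
    (p + 1) * d.choose j ≤ (p * s + d).choose j := by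
  rcases Nat.eq_zero_or_pos d with rfl | hd
  · rw [Nat.choose_eq_zero_of_lt (by omega)]
    simp
  have h1 : (p + 1) * d ≤ p * s + d := by nlinarith
  have h2 : d ≤ p * s + d := by omega
  have h3 := mul_choose_le_mul_choose h2 hj
  apply Nat.le_of_mul_le_mul_left _ hd
  calc d * ((p + 1) * d.choose j) = (p + 1) * d * d.choose j := by ring
    _ ≤ (p * s + d) * d.choose j := Nat.mul_le_mul_right _ h1
    _ ≤ _ := h3

theorem succ_le_two_pow {p : ℕ} (hp : 3 ≤ p) : p + 1 ≤ 2 ^ (p - 1) := by
  induction p, hp using Nat.le_induction with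
  | base => norm_num
  | succ p hp ih =>
    obtain ⟨q, rfl⟩ : ∃ q, p = q + 1 := ⟨p - 1, by omega⟩
    simp only [Nat.add_sub_cancel] at ih ⊢
    rw [pow_succ]
    omega

theorem choose_bound {p s d i j : ℕ} (hp : 3 ≤ p) (hds : d ≤ s) (h1 : 1 ≤ p * i + j)
    (h2 : p * i + j < p * s + d) :
    (p + 1) * (s.choose i * d.choose j) ≤ (p * s + d).choose (p * i + j) := by
  rcases Nat.lt_or_ge d j with hj | hj
  · rw [Nat.choose_eq_zero_of_lt hj]
    simp
  rcases Nat.lt_or_ge s i with hi | hi
  · rw [Nat.choose_eq_zero_of_lt hi]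
    simp
  rcases Nat.eq_zero_or_pos i with rfl | hi0
  · rw [Nat.choose_zero_right, one_mul, Nat.mul_zero, Nat.zero_add]
    exact small_choose hds (by omega)
  rcases Nat.lt_or_ge i s with his | his
  · have h3 := le_choose (s := s) (j := i) (by omega) his
    have h4 := pow_choose_le s i p
    have h5 := choose_mul_choose_le (p * s) d (p * i) j
    have h6 : (p + 1) * s.choose i ≤ (s.choose i) ^ p := by
      obtain ⟨q, rfl⟩ : ∃ q, p = q + 1 := ⟨p - 1, by omega⟩
      rw [pow_succ]
      apply Nat.mul_le_mul_right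
      have h7 := succ_le_two_pow hp
      simp only [Nat.add_sub_cancel] at h7
      exact h7.trans (Nat.pow_le_pow_left (by omega) _)
    calc (p + 1) * (s.choose i * d.choose j) = (p + 1) * s.choose i * d.choose j := by ring
      _ ≤ (p * s).choose (p * i) * d.choose j := Nat.mul_le_mul_right _ (h6.trans h4)
      _ ≤ _ := h5
  · have his' : i = s := by omega
    subst his'
    have hjd : j < d := by omega
    rw [Nat.choose_self, one_mul, ← Nat.choose_symm hj,
      ← Nat.choose_symm (show p * i + j ≤ p * i + d by omega)]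
    have e : p * i + d - (p * i + j) = d - j := by omega
    rw [e]
    exact small_choose hds (by omega)

/-- A `p`-element with `s` cycles of length `p` and `d` fixed points. -/
theorem exists_rot {n p s d : ℕ} (hp : p.Prime) (hp2 : p ≠ 2) (hn : n = s * p + d) :
    ∃ (x : alternatingGroup (Fin n)) (e : (Fin s × ZMod p) ⊕ Fin d ≃ Fin n),
      (∃ k : ℕ, orderOf x = p ^ k) ∧
      ∀ A : Finset (Fin n), (∀ i, i ∈ A ↔ x • i ∈ A) → ∀ (i : Fin s) (b b' : ZMod p),
        (e (Sum.inl (i, b)) ∈ A ↔ e (Sum.inl (i, b')) ∈ A) := by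
  classical
  have hp0 : 0 < p := hp.pos
  have : NeZero p := ⟨hp.pos.ne'⟩
  let e : (Fin s × ZMod p) ⊕ Fin d ≃ Fin n := Fintype.equivFinOfCardEq (by
    simp [ZMod.card]; omega)
  let y : Equiv.Perm (Fin s × ZMod p) := Equiv.prodCongr (Equiv.refl _) (Equiv.addRight 1)
  let Z : Equiv.Perm ((Fin s × ZMod p) ⊕ Fin d) := Equiv.Perm.sumCongr y 1
  have hyk : ∀ (k : ℕ) (i : Fin s) (b : ZMod p), (y ^ k) (i, b) = (i, b + (k : ZMod p)) := by
    intro k i b
    induction k with
    | zero => simp
    | succ k ih =>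
      rw [pow_succ', Equiv.Perm.mul_apply, ih]
      change (i, b + (k : ZMod p) + 1) = _
      rw [add_assoc]
      push_cast
      rfl
  have hyp : y ^ p = 1 := by
    apply Equiv.ext
    rintro ⟨i, b⟩
    rw [hyk]
    simp
  have hZk : ∀ k : ℕ, Z ^ k = Equiv.Perm.sumCongr (y ^ k) 1 := by
    intro k
    induction k with
    | zero => simp
    | succ k ih =>
      rw [pow_succ, ih, pow_succ]
      change _ * Equiv.Perm.sumCongr y 1 = _
      rw [Equiv.Perm.sumCongr_mul, one_mul]
  have hZp : Z ^ p = 1 := by rw [hZk, hyp]; simp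
  have hZs : Equiv.Perm.sign (e.permCongrHom Z) = 1 := by
    have h1 : Equiv.Perm.sign (e.permCongrHom Z) = Equiv.Perm.sign Z :=
      Equiv.Perm.sign_permCongr e Z
    rw [h1]
    have h2 : (Equiv.Perm.sign Z) ^ p = 1 := by rw [← map_pow, hZp, map_one]
    rcases Int.units_eq_one_or (Equiv.Perm.sign Z) with h | h
    · exact h
    · exfalso
      rw [h] at h2
      have ho : Odd p := hp.odd_of_ne_two hp2
      rw [ho.neg_one_pow] at h2
      exact absurd h2 (by decide)
  refine ⟨⟨e.permCongrHom Z, Equiv.Perm.mem_alternatingGroup.2 hZs⟩, e, ?_, ?_⟩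
  · have h1 : orderOf (⟨e.permCongrHom Z, Equiv.Perm.mem_alternatingGroup.2 hZs⟩ :
        alternatingGroup (Fin n)) ∣ p ^ 1 := by
      apply orderOf_dvd_of_pow_eq_one
      apply Subtype.ext
      change (e.permCongrHom Z) ^ (p ^ 1) = 1
      rw [← map_pow, pow_one, hZp, map_one]
    obtain ⟨k, -, hk⟩ := (Nat.dvd_prime_pow hp).1 h1
    exact ⟨k, hk⟩
  · intro A hA i
    have h1 : ∀ b : ZMod p, e (Sum.inl (i, b)) ∈ A ↔ e (Sum.inl (i, b + 1)) ∈ A := by
      intro b
      rw [hA]
      change e (Z (e.symm (e (Sum.inl (i, b))))) ∈ A ↔ _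
      rw [e.symm_apply_apply]
      rfl
    have h2 : ∀ (k : ℕ) (b : ZMod p), e (Sum.inl (i, b)) ∈ A ↔
        e (Sum.inl (i, b + (k : ZMod p))) ∈ A := by
      intro k b
      induction k with
      | zero => simp
      | succ k ih =>
        rw [ih, h1, add_assoc]
        push_cast
        rfl
    intro b b'
    have h3 := h2 (b' - b : ZMod p).val b
    rw [ZMod.natCast_zmod_val] at h3
    rw [h3]
    have : b + (b' - b) = b' := by abel
    rw [this]

/-- The number of `k`-sets fixed by `x`. -/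
theorem card_fixed_sets_le {n s p d : ℕ} {x : alternatingGroup (Fin n)}
    {e : (Fin s × ZMod p) ⊕ Fin d ≃ Fin n} (hp0 : 0 < p)
    (h : ∀ A : Finset (Fin n), (∀ i, i ∈ A ↔ x • i ∈ A) → ∀ (i : Fin s) (b b' : ZMod p),
        (e (Sum.inl (i, b)) ∈ A ↔ e (Sum.inl (i, b')) ∈ A)) (hd : d < p) (k : ℕ) :
    Nat.card (fixedBy (Set.powersetCard (Fin n) k) x) ≤
      s.choose (k / p) * d.choose (k % p) := by
  classical
  have hA : ∀ A : fixedBy (Set.powersetCard (Fin n) k) x, ∀ i : Fin n,
      (i ∈ (A.1 : Finset (Fin n)) ↔ x • i ∈ (A.1 : Finset (Fin n))) := by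
    rintro ⟨A, hA⟩ i
    have h1 : x • (A : Finset (Fin n)) = A := by
      rw [← Set.powersetCard.coe_smul]
      exact congrArg (fun z : Set.powersetCard (Fin n) k => (z : Finset (Fin n))) hA
    constructor
    · intro hi
      rw [← h1]
      exact Finset.smul_mem_smul_finset hi
    · intro hi
      rw [← h1] at hi
      exact (Finset.smul_mem_smul_finset_iff x).1 hi
  have : NeZero p := ⟨hp0.ne'⟩
  let z : ZMod p := 0
  let I : fixedBy (Set.powersetCard (Fin n) k) x → Finset (Fin s) := fun A =>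
    Finset.univ.filter (fun i => e (Sum.inl (i, z)) ∈ (A.1 : Finset (Fin n)))
  let J : fixedBy (Set.powersetCard (Fin n) k) x → Finset (Fin d) := fun A =>
    Finset.univ.filter (fun i => e (Sum.inr i) ∈ (A.1 : Finset (Fin n)))
  have hcard : ∀ A, k = p * (I A).card + (J A).card := by
    intro A
    have h1 : ((A.1 : Finset (Fin n))).card = k := A.1.2
    have h2 : (A.1 : Finset (Fin n)) =
        ((I A ×ˢ (Finset.univ : Finset (ZMod p))).disjSum (J A)).map e.toEmbedding := by
      ext j
      obtain ⟨a, rfl⟩ := e.surjective j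
      rw [Finset.mem_map_equiv, e.symm_apply_apply]
      rcases a with ⟨i, b⟩ | i
      · rw [Finset.inl_mem_disjSum, Finset.mem_product]
        simp only [Finset.mem_univ, and_true, I, Finset.mem_filter, true_and]
        exact h _ (hA A) i b z
      · rw [Finset.inr_mem_disjSum]
        simp [J]
    rw [← h1, h2, Finset.card_map, Finset.card_disjSum, Finset.card_product, Finset.card_univ,
      ZMod.card]
    ring
  have hJ : ∀ A, (J A).card ≤ d := by
    intro A
    have := Finset.card_le_univ (J A)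
    rwa [Fintype.card_fin] at this
  have hJ' : ∀ A, (J A).card = k % p := by
    intro A
    have h1 := hcard A
    rw [h1, Nat.mul_add_mod, Nat.mod_eq_of_lt (lt_of_le_of_lt (hJ A) hd)]
  have hI' : ∀ A, (I A).card = k / p := by
    intro A
    have h1 := hcard A
    have h9 : k / p = (p * (I A).card + (J A).card) / p := congrArg (· / p) h1
    rw [h9, Nat.mul_add_div hp0, Nat.div_eq_of_lt (lt_of_le_of_lt (hJ A) hd), add_zero]
  have h3 : Nat.card (Set.powersetCard (Fin s) (k / p) × Set.powersetCard (Fin d) (k % p)) =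
      s.choose (k / p) * d.choose (k % p) := by
    rw [Nat.card_prod, Set.powersetCard.card, Set.powersetCard.card, Nat.card_eq_fintype_card,
      Nat.card_eq_fintype_card, Fintype.card_fin, Fintype.card_fin]
  rw [← h3]
  refine Nat.card_le_card_of_injective
    (fun A => ((⟨I A, hI' A⟩, ⟨J A, hJ' A⟩) :
      Set.powersetCard (Fin s) (k / p) × Set.powersetCard (Fin d) (k % p))) ?_
  intro A A' hAA
  have h4 : I A = I A' := congrArg
    (fun w : Set.powersetCard (Fin s) (k / p) × Set.powersetCard (Fin d) (k % p) =>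
      (w.1 : Finset (Fin s))) hAA
  have h5 : J A = J A' := congrArg
    (fun w : Set.powersetCard (Fin s) (k / p) × Set.powersetCard (Fin d) (k % p) =>
      (w.2 : Finset (Fin d))) hAA
  apply Subtype.ext
  apply Subtype.ext
  ext j
  obtain ⟨a, rfl⟩ := e.surjective j
  rcases a with ⟨i, b⟩ | i
  · have h6 : e (Sum.inl (i, z)) ∈ (A.1 : Finset (Fin n)) ↔
        e (Sum.inl (i, z)) ∈ (A'.1 : Finset (Fin n)) := by
      have := congrArg (fun K : Finset (Fin s) => i ∈ K) h4
      simpa [I] using this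
    have h7 := h _ (hA A) i b z
    have h8 := h _ (hA A') i b z
    exact h7.trans (h6.trans h8.symm)
  · have := congrArg (fun K : Finset (Fin d) => i ∈ K) h5
    simpa [J] using this

theorem row_sets_odd {n p k : ℕ} (hp : p.Prime) (hp2 : p ≠ 2) (hn : n % p ≤ n / p)
    (hk : 1 ≤ k) (hkn : k < n) :
    ∃ x : alternatingGroup (Fin n), (∃ k : ℕ, orderOf x = p ^ k) ∧
      (p + 1) * Nat.card (fixedBy (Set.powersetCard (Fin n) k) x) ≤
        1 * Nat.card (Set.powersetCard (Fin n) k) := by
  have hp3 : 3 ≤ p := by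
    have := hp.two_le
    omega
  obtain ⟨x, e, hx, h⟩ := exists_rot (n := n) (s := n / p) (d := n % p) hp hp2
    (Nat.div_add_mod' n p).symm
  refine ⟨x, hx, ?_⟩
  have hcard : Nat.card (Set.powersetCard (Fin n) k) = n.choose k := by
    rw [Set.powersetCard.card, Nat.card_eq_fintype_card, Fintype.card_fin]
  have h1 := card_fixed_sets_le hp.pos h (Nat.mod_lt _ hp.pos) k
  rw [hcard, one_mul]
  have e1 : p * (k / p) + k % p = k := Nat.div_add_mod k p
  have e2 : p * (n / p) + n % p = n := Nat.div_add_mod n p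
  have h2 := choose_bound (p := p) (s := n / p) (d := n % p) (i := k / p) (j := k % p) hp3 hn
    (by omega) (by omega)
  rw [e1, e2] at h2
  exact (Nat.mul_le_mul_left _ h1).trans h2

end Cfsg.Agent.H435.Fpr
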