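import Cfsg.Agent.H409.FprBasic

/-!
# Fixed points of an element inverting an element of odd order
-/

set_option autoImplicit false
open Subgroup MulAction
open scoped Pointwise

namespace Cfsg.Agent.H435.Fpr

/-- If `x` inverts an element `g` of odd order without fixed points on `Ω`, then `x` fixes at most
a third of the points. -/
theorem real_bound {G Ω : Type*} [Group G] [Finite G] [MulAction G Ω] [Finite Ω] {x g : G}
    (hx : x * g * x⁻¹ = g⁻¹) (ho : Odd (orderOf g)) (hno : ∀ ω : Ω, g • ω ≠ ω) :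
    3 * Nat.card (fixedBy Ω x) ≤ Nat.card Ω := by
  classical
  have hpow : ∀ k : ℤ, x * g ^ k * x⁻¹ = (g ^ k)⁻¹ := by
    intro k
    have h1 := conj_zpow (i := k) (a := x) (b := g)
    rw [← h1, hx, inv_zpow]
  have hn : ∀ y ∈ zpowers g, x * y * x⁻¹ ∈ zpowers g := by
    rintro y ⟨k, rfl⟩
    change x * g ^ k * x⁻¹ ∈ _
    rw [hpow]
    exact inv_mem (zpow_mem (mem_zpowers g) k)
  have hC : ∀ y ∈ zpowers g, x * y = y * x → y = 1 := by
    rintro y ⟨k, rfl⟩ h
    change x * g ^ k = g ^ k * x at h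
    change g ^ k = 1
    have h1 := hpow k
    rw [h, mul_inv_cancel_right] at h1
    have h2 : (g ^ k) ^ 2 = 1 := by
      rw [pow_two]
      nth_rewrite 1 [h1]
      exact inv_mul_cancel _
    have h3 : orderOf (g ^ k) ∣ orderOf g := orderOf_dvd_of_mem_zpowers ⟨k, rfl⟩
    have h4 : orderOf (g ^ k) ∣ 2 := orderOf_dvd_of_pow_eq_one h2
    have h5 : orderOf (g ^ k) = 1 := by
      have h6 := Nat.dvd_gcd h4 h3
      have h7 : Nat.gcd 2 (orderOf g) = 1 := (Nat.coprime_two_left).2 ho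
      rwa [h7, Nat.dvd_one] at h6
    exact orderOf_eq_one_iff.1 h5
  have hm : ∀ ω : Ω, x • ω = ω → (∃ y ∈ zpowers g, y • ω ≠ ω) →
      3 ≤ Nat.card (orbit (zpowers g) ω) := by
    intro ω _ _
    have h1 : Nat.card (orbit (zpowers g) ω) ∣ Nat.card (zpowers g) := by
      rw [Nat.card_congr (orbitEquivQuotientStabilizer (zpowers g) ω)]
      exact Subgroup.card_quotient_dvd_card _
    rw [Nat.card_zpowers] at h1
    have h2 : Odd (Nat.card (orbit (zpowers g) ω)) := ho.of_dvd_nat h1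
    have h3 : Nat.card (orbit (zpowers g) ω) ≠ 1 := by
      intro h4
      rw [Nat.card_eq_one_iff_unique] at h4
      have h5 : (⟨(⟨g, mem_zpowers g⟩ : zpowers g) • ω, mem_orbit _ _⟩ : orbit (zpowers g) ω) =
          ⟨ω, mem_orbit_self _⟩ := h4.1.elim _ _
      exact hno ω (congrArg Subtype.val h5)
    obtain ⟨j, hj⟩ := h2
    omega
  have h := Cfsg.Agent.H409.one_rad (Ω := Ω) hn hC hm
  have h1 : {ω : Ω | x • ω = ω ∧ ∃ y ∈ zpowers g, y • ω ≠ ω} = fixedBy Ω x := by
    ext ω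
    simp only [Set.mem_ofPred_eq, mem_fixedBy]
    exact ⟨fun h => h.1, fun h => ⟨h, g, mem_zpowers g, hno ω⟩⟩
  rw [h1, ← Nat.card_coe_set_eq (fixedBy Ω x)] at h
  omega

/-- The version for coset spaces. -/
theorem real_row {G : Type*} [Group G] [Finite G] {x g : G} (hx : x * g * x⁻¹ = g⁻¹)
    (ho : Odd (orderOf g)) {H : Subgroup G} (hno : ∀ c : G, c⁻¹ * g * c ∉ H) :
    3 * Nat.card (fixedBy (G ⧸ H) x) ≤ 1 * Nat.card (G ⧸ H) := by
  rw [one_mul]
  refine real_bound hx ho ?_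
  intro ω h
  obtain ⟨c, rfl⟩ := QuotientGroup.mk_surjective ω
  have h1 : ((g * c : G) : G ⧸ H) = (c : G) := h
  rw [eq_comm, QuotientGroup.eq] at h1
  exact hno c (by simpa [mul_assoc] using h1)

end Cfsg.Agent.H435.Fpr
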